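import Cfsg.Agent.H728.PM.Run
import Cfsg.Agent.H136.P9.PlanData

/-! # S5925, box H: digit vectors 0 .. 29 (helper908) -/

set_option autoImplicit false
set_option Elab.async false
set_option maxRecDepth 100000

namespace Cfsg.Agent.H908.P9.Run
open Cfsg.Agent.H728.PM Cfsg.Agent.H136.P9

theorem t0 : rng plan 0 1 = true := by decide +kernel
theorem t1 : rng plan 1 1 = true := by decide +kernel
theorem t2 : rng plan 2 1 = true := by decide +kernel
theorem t3 : rng plan 3 1 = true := by decide +kernel
theorem t4 : rng plan 4 1 = true := by decide +kernel
theorem t5 : rng plan 5 1 = true := by decide +kernel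
theorem t6 : rng plan 6 1 = true := by decide +kernel
theorem t7 : rng plan 7 1 = true := by decide +kernel
theorem t8 : rng plan 8 1 = true := by decide +kernel
theorem t9 : rng plan 9 1 = true := by decide +kernel
theorem t10 : rng plan 10 1 = true := by decide +kernel
theorem t11 : rng plan 11 1 = true := by decide +kernel
theorem t12 : rng plan 12 1 = true := by decide +kernel
theorem t13 : rng plan 13 1 = true := by decide +kernel
theorem t14 : rng plan 14 1 = true := by decide +kernel
theorem t15 : rng plan 15 1 = true := by decide +kernel
theorem t16 : rng plan 16 1 = true := by decide +kernel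
theorem t17 : rng plan 17 1 = true := by decide +kernel
theorem t18 : rng plan 18 1 = true := by decide +kernel
theorem t19 : rng plan 19 1 = true := by decide +kernel
theorem t20 : rng plan 20 1 = true := by decide +kernel
theorem t21 : rng plan 21 1 = true := by decide +kernel
theorem t22 : rng plan 22 1 = true := by decide +kernel
theorem t23 : rng plan 23 1 = true := by decide +kernel
theorem t24 : rng plan 24 1 = true := by decide +kernel
theorem t25 : rng plan 25 1 = true := by decide +kernel
theorem t26 : rng plan 26 1 = true := by decide +kernel
theorem t27 : rng plan 27 1 = true := by decide +kernel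
theorem t28 : rng plan 28 1 = true := by decide +kernel
theorem t29 : rng plan 29 1 = true := by decide +kernel

theorem b00 (d : ℕ) (h1 : 0 ≤ d) (h2 : d < 30) : rng plan d 1 = true := by
  interval_cases d
  exacts [t0, t1, t2, t3, t4, t5, t6, t7, t8, t9, t10, t11, t12, t13, t14, t15, t16, t17, t18, t19, t20, t21, t22, t23, t24, t25, t26, t27, t28, t29]

end Cfsg.Agent.H908.P9.Run
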