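import Cfsg.Agent.H728.PM.Run
import Cfsg.Agent.H136.P9.PlanData

/-! # S5925, box H: digit vectors 30 .. 59 (helper908) -/

set_option autoImplicit false
set_option Elab.async false
set_option maxRecDepth 100000

namespace Cfsg.Agent.H908.P9.Run
open Cfsg.Agent.H728.PM Cfsg.Agent.H136.P9

theorem t30 : rng plan 30 1 = true := by decide +kernel
theorem t31 : rng plan 31 1 = true := by decide +kernel
theorem t32 : rng plan 32 1 = true := by decide +kernel
theorem t33 : rng plan 33 1 = true := by decide +kernel
theorem t34 : rng plan 34 1 = true := by decide +kernel
theorem t35 : rng plan 35 1 = true := by decide +kernel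
theorem t36 : rng plan 36 1 = true := by decide +kernel
theorem t37 : rng plan 37 1 = true := by decide +kernel
theorem t38 : rng plan 38 1 = true := by decide +kernel
theorem t39 : rng plan 39 1 = true := by decide +kernel
theorem t40 : rng plan 40 1 = true := by decide +kernel
theorem t41 : rng plan 41 1 = true := by decide +kernel
theorem t42 : rng plan 42 1 = true := by decide +kernel
theorem t43 : rng plan 43 1 = true := by decide +kernel
theorem t44 : rng plan 44 1 = true := by decide +kernel
theorem t45 : rng plan 45 1 = true := by decide +kernel
theorem t46 : rng plan 46 1 = true := by decide +kernel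
theorem t47 : rng plan 47 1 = true := by decide +kernel
theorem t48 : rng plan 48 1 = true := by decide +kernel
theorem t49 : rng plan 49 1 = true := by decide +kernel
theorem t50 : rng plan 50 1 = true := by decide +kernel
theorem t51 : rng plan 51 1 = true := by decide +kernel
theorem t52 : rng plan 52 1 = true := by decide +kernel
theorem t53 : rng plan 53 1 = true := by decide +kernel
theorem t54 : rng plan 54 1 = true := by decide +kernel
theorem t55 : rng plan 55 1 = true := by decide +kernel
theorem t56 : rng plan 56 1 = true := by decide +kernel
theorem t57 : rng plan 57 1 = true := by decide +kernel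
theorem t58 : rng plan 58 1 = true := by decide +kernel
theorem t59 : rng plan 59 1 = true := by decide +kernel

theorem b01 (d : ℕ) (h1 : 30 ≤ d) (h2 : d < 60) : rng plan d 1 = true := by
  interval_cases d
  exacts [t30, t31, t32, t33, t34, t35, t36, t37, t38, t39, t40, t41, t42, t43, t44, t45, t46, t47, t48, t49, t50, t51, t52, t53, t54, t55, t56, t57, t58, t59]

end Cfsg.Agent.H908.P9.Run
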