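import Cfsg.Agent.H728.PM.Run
import Cfsg.Agent.H136.P9.PlanData

/-! # S5925, box H: digit vectors 60 .. 89 (helper908) -/

set_option autoImplicit false
set_option Elab.async false
set_option maxRecDepth 100000

namespace Cfsg.Agent.H908.P9.Run
open Cfsg.Agent.H728.PM Cfsg.Agent.H136.P9

theorem t60 : rng plan 60 1 = true := by decide +kernel
theorem t61 : rng plan 61 1 = true := by decide +kernel
theorem t62 : rng plan 62 1 = true := by decide +kernel
theorem t63 : rng plan 63 1 = true := by decide +kernel
theorem t64 : rng plan 64 1 = true := by decide +kernel
theorem t65 : rng plan 65 1 = true := by decide +kernel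
theorem t66 : rng plan 66 1 = true := by decide +kernel
theorem t67 : rng plan 67 1 = true := by decide +kernel
theorem t68 : rng plan 68 1 = true := by decide +kernel
theorem t69 : rng plan 69 1 = true := by decide +kernel
theorem t70 : rng plan 70 1 = true := by decide +kernel
theorem t71 : rng plan 71 1 = true := by decide +kernel
theorem t72 : rng plan 72 1 = true := by decide +kernel
theorem t73 : rng plan 73 1 = true := by decide +kernel
theorem t74 : rng plan 74 1 = true := by decide +kernel
theorem t75 : rng plan 75 1 = true := by decide +kernel
theorem t76 : rng plan 76 1 = true := by decide +kernel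
theorem t77 : rng plan 77 1 = true := by decide +kernel
theorem t78 : rng plan 78 1 = true := by decide +kernel
theorem t79 : rng plan 79 1 = true := by decide +kernel
theorem t80 : rng plan 80 1 = true := by decide +kernel
theorem t81 : rng plan 81 1 = true := by decide +kernel
theorem t82 : rng plan 82 1 = true := by decide +kernel
theorem t83 : rng plan 83 1 = true := by decide +kernel
theorem t84 : rng plan 84 1 = true := by decide +kernel
theorem t85 : rng plan 85 1 = true := by decide +kernel
theorem t86 : rng plan 86 1 = true := by decide +kernel
theorem t87 : rng plan 87 1 = true := by decide +kernel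
theorem t88 : rng plan 88 1 = true := by decide +kernel
theorem t89 : rng plan 89 1 = true := by decide +kernel

theorem b02 (d : ℕ) (h1 : 60 ≤ d) (h2 : d < 90) : rng plan d 1 = true := by
  interval_cases d
  exacts [t60, t61, t62, t63, t64, t65, t66, t67, t68, t69, t70, t71, t72, t73, t74, t75, t76, t77, t78, t79, t80, t81, t82, t83, t84, t85, t86, t87, t88, t89]

end Cfsg.Agent.H908.P9.Run
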