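import Cfsg.Agent.H728.PM.Run
import Cfsg.Agent.H136.P9.PlanData

/-! # S5925, box H: digit vectors 90 .. 119 (helper908) -/

set_option autoImplicit false
set_option Elab.async false
set_option maxRecDepth 100000

namespace Cfsg.Agent.H908.P9.Run
open Cfsg.Agent.H728.PM Cfsg.Agent.H136.P9

theorem t90 : rng plan 90 1 = true := by decide +kernel
theorem t91 : rng plan 91 1 = true := by decide +kernel
theorem t92 : rng plan 92 1 = true := by decide +kernel
theorem t93 : rng plan 93 1 = true := by decide +kernel
theorem t94 : rng plan 94 1 = true := by decide +kernel
theorem t95 : rng plan 95 1 = true := by decide +kernel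
theorem t96 : rng plan 96 1 = true := by decide +kernel
theorem t97 : rng plan 97 1 = true := by decide +kernel
theorem t98 : rng plan 98 1 = true := by decide +kernel
theorem t99 : rng plan 99 1 = true := by decide +kernel
theorem t100 : rng plan 100 1 = true := by decide +kernel
theorem t101 : rng plan 101 1 = true := by decide +kernel
theorem t102 : rng plan 102 1 = true := by decide +kernel
theorem t103 : rng plan 103 1 = true := by decide +kernel
theorem t104 : rng plan 104 1 = true := by decide +kernel
theorem t105 : rng plan 105 1 = true := by decide +kernel
theorem t106 : rng plan 106 1 = true := by decide +kernel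
theorem t107 : rng plan 107 1 = true := by decide +kernel
theorem t108 : rng plan 108 1 = true := by decide +kernel
theorem t109 : rng plan 109 1 = true := by decide +kernel
theorem t110 : rng plan 110 1 = true := by decide +kernel
theorem t111 : rng plan 111 1 = true := by decide +kernel
theorem t112 : rng plan 112 1 = true := by decide +kernel
theorem t113 : rng plan 113 1 = true := by decide +kernel
theorem t114 : rng plan 114 1 = true := by decide +kernel
theorem t115 : rng plan 115 1 = true := by decide +kernel
theorem t116 : rng plan 116 1 = true := by decide +kernel
theorem t117 : rng plan 117 1 = true := by decide +kernel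
theorem t118 : rng plan 118 1 = true := by decide +kernel
theorem t119 : rng plan 119 1 = true := by decide +kernel

theorem b03 (d : ℕ) (h1 : 90 ≤ d) (h2 : d < 120) : rng plan d 1 = true := by
  interval_cases d
  exacts [t90, t91, t92, t93, t94, t95, t96, t97, t98, t99, t100, t101, t102, t103, t104, t105, t106, t107, t108, t109, t110, t111, t112, t113, t114, t115, t116, t117, t118, t119]

end Cfsg.Agent.H908.P9.Run
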