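import Cfsg.Agent.H728.PM.Run
import Cfsg.Agent.H136.P9.PlanData

/-! # S5925, box H: digit vectors 120 .. 149 (helper908) -/

set_option autoImplicit false
set_option Elab.async false
set_option maxRecDepth 100000

namespace Cfsg.Agent.H908.P9.Run
open Cfsg.Agent.H728.PM Cfsg.Agent.H136.P9

theorem t120 : rng plan 120 1 = true := by decide +kernel
theorem t121 : rng plan 121 1 = true := by decide +kernel
theorem t122 : rng plan 122 1 = true := by decide +kernel
theorem t123 : rng plan 123 1 = true := by decide +kernel
theorem t124 : rng plan 124 1 = true := by decide +kernel
theorem t125 : rng plan 125 1 = true := by decide +kernel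
theorem t126 : rng plan 126 1 = true := by decide +kernel
theorem t127 : rng plan 127 1 = true := by decide +kernel
theorem t128 : rng plan 128 1 = true := by decide +kernel
theorem t129 : rng plan 129 1 = true := by decide +kernel
theorem t130 : rng plan 130 1 = true := by decide +kernel
theorem t131 : rng plan 131 1 = true := by decide +kernel
theorem t132 : rng plan 132 1 = true := by decide +kernel
theorem t133 : rng plan 133 1 = true := by decide +kernel
theorem t134 : rng plan 134 1 = true := by decide +kernel
theorem t135 : rng plan 135 1 = true := by decide +kernel
theorem t136 : rng plan 136 1 = true := by decide +kernel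
theorem t137 : rng plan 137 1 = true := by decide +kernel
theorem t138 : rng plan 138 1 = true := by decide +kernel
theorem t139 : rng plan 139 1 = true := by decide +kernel
theorem t140 : rng plan 140 1 = true := by decide +kernel
theorem t141 : rng plan 141 1 = true := by decide +kernel
theorem t142 : rng plan 142 1 = true := by decide +kernel
theorem t143 : rng plan 143 1 = true := by decide +kernel
theorem t144 : rng plan 144 1 = true := by decide +kernel
theorem t145 : rng plan 145 1 = true := by decide +kernel
theorem t146 : rng plan 146 1 = true := by decide +kernel
theorem t147 : rng plan 147 1 = true := by decide +kernel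
theorem t148 : rng plan 148 1 = true := by decide +kernel
theorem t149 : rng plan 149 1 = true := by decide +kernel

theorem b04 (d : ℕ) (h1 : 120 ≤ d) (h2 : d < 150) : rng plan d 1 = true := by
  interval_cases d
  exacts [t120, t121, t122, t123, t124, t125, t126, t127, t128, t129, t130, t131, t132, t133, t134, t135, t136, t137, t138, t139, t140, t141, t142, t143, t144, t145, t146, t147, t148, t149]

end Cfsg.Agent.H908.P9.Run
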