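import Cfsg.Agent.H728.PM.Run
import Cfsg.Agent.H136.P9.PlanData

/-! # S5925, box H: digit vectors 150 .. 179 (helper908) -/

set_option autoImplicit false
set_option Elab.async false
set_option maxRecDepth 100000

namespace Cfsg.Agent.H908.P9.Run
open Cfsg.Agent.H728.PM Cfsg.Agent.H136.P9

theorem t150 : rng plan 150 1 = true := by decide +kernel
theorem t151 : rng plan 151 1 = true := by decide +kernel
theorem t152 : rng plan 152 1 = true := by decide +kernel
theorem t153 : rng plan 153 1 = true := by decide +kernel
theorem t154 : rng plan 154 1 = true := by decide +kernel
theorem t155 : rng plan 155 1 = true := by decide +kernel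
theorem t156 : rng plan 156 1 = true := by decide +kernel
theorem t157 : rng plan 157 1 = true := by decide +kernel
theorem t158 : rng plan 158 1 = true := by decide +kernel
theorem t159 : rng plan 159 1 = true := by decide +kernel
theorem t160 : rng plan 160 1 = true := by decide +kernel
theorem t161 : rng plan 161 1 = true := by decide +kernel
theorem t162 : rng plan 162 1 = true := by decide +kernel
theorem t163 : rng plan 163 1 = true := by decide +kernel
theorem t164 : rng plan 164 1 = true := by decide +kernel
theorem t165 : rng plan 165 1 = true := by decide +kernel
theorem t166 : rng plan 166 1 = true := by decide +kernel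
theorem t167 : rng plan 167 1 = true := by decide +kernel
theorem t168 : rng plan 168 1 = true := by decide +kernel
theorem t169 : rng plan 169 1 = true := by decide +kernel
theorem t170 : rng plan 170 1 = true := by decide +kernel
theorem t171 : rng plan 171 1 = true := by decide +kernel
theorem t172 : rng plan 172 1 = true := by decide +kernel
theorem t173 : rng plan 173 1 = true := by decide +kernel
theorem t174 : rng plan 174 1 = true := by decide +kernel
theorem t175 : rng plan 175 1 = true := by decide +kernel
theorem t176 : rng plan 176 1 = true := by decide +kernel
theorem t177 : rng plan 177 1 = true := by decide +kernel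
theorem t178 : rng plan 178 1 = true := by decide +kernel
theorem t179 : rng plan 179 1 = true := by decide +kernel

theorem b05 (d : ℕ) (h1 : 150 ≤ d) (h2 : d < 180) : rng plan d 1 = true := by
  interval_cases d
  exacts [t150, t151, t152, t153, t154, t155, t156, t157, t158, t159, t160, t161, t162, t163, t164, t165, t166, t167, t168, t169, t170, t171, t172, t173, t174, t175, t176, t177, t178, t179]

end Cfsg.Agent.H908.P9.Run
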