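import Cfsg.Agent.H728.PM.Run
import Cfsg.Agent.H136.P9.PlanData

/-! # S5925, box H: digit vectors 180 .. 209 (helper908) -/

set_option autoImplicit false
set_option Elab.async false
set_option maxRecDepth 100000

namespace Cfsg.Agent.H908.P9.Run
open Cfsg.Agent.H728.PM Cfsg.Agent.H136.P9

theorem t180 : rng plan 180 1 = true := by decide +kernel
theorem t181 : rng plan 181 1 = true := by decide +kernel
theorem t182 : rng plan 182 1 = true := by decide +kernel
theorem t183 : rng plan 183 1 = true := by decide +kernel
theorem t184 : rng plan 184 1 = true := by decide +kernel
theorem t185 : rng plan 185 1 = true := by decide +kernel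
theorem t186 : rng plan 186 1 = true := by decide +kernel
theorem t187 : rng plan 187 1 = true := by decide +kernel
theorem t188 : rng plan 188 1 = true := by decide +kernel
theorem t189 : rng plan 189 1 = true := by decide +kernel
theorem t190 : rng plan 190 1 = true := by decide +kernel
theorem t191 : rng plan 191 1 = true := by decide +kernel
theorem t192 : rng plan 192 1 = true := by decide +kernel
theorem t193 : rng plan 193 1 = true := by decide +kernel
theorem t194 : rng plan 194 1 = true := by decide +kernel
theorem t195 : rng plan 195 1 = true := by decide +kernel
theorem t196 : rng plan 196 1 = true := by decide +kernel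
theorem t197 : rng plan 197 1 = true := by decide +kernel
theorem t198 : rng plan 198 1 = true := by decide +kernel
theorem t199 : rng plan 199 1 = true := by decide +kernel
theorem t200 : rng plan 200 1 = true := by decide +kernel
theorem t201 : rng plan 201 1 = true := by decide +kernel
theorem t202 : rng plan 202 1 = true := by decide +kernel
theorem t203 : rng plan 203 1 = true := by decide +kernel
theorem t204 : rng plan 204 1 = true := by decide +kernel
theorem t205 : rng plan 205 1 = true := by decide +kernel
theorem t206 : rng plan 206 1 = true := by decide +kernel
theorem t207 : rng plan 207 1 = true := by decide +kernel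
theorem t208 : rng plan 208 1 = true := by decide +kernel
theorem t209 : rng plan 209 1 = true := by decide +kernel

theorem b06 (d : ℕ) (h1 : 180 ≤ d) (h2 : d < 210) : rng plan d 1 = true := by
  interval_cases d
  exacts [t180, t181, t182, t183, t184, t185, t186, t187, t188, t189, t190, t191, t192, t193, t194, t195, t196, t197, t198, t199, t200, t201, t202, t203, t204, t205, t206, t207, t208, t209]

end Cfsg.Agent.H908.P9.Run
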