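import Cfsg.Agent.H728.PM.Run
import Cfsg.Agent.H136.P9.PlanData

/-! # S5925, box H: digit vectors 210 .. 239 (helper908) -/

set_option autoImplicit false
set_option Elab.async false
set_option maxRecDepth 100000

namespace Cfsg.Agent.H908.P9.Run
open Cfsg.Agent.H728.PM Cfsg.Agent.H136.P9

theorem t210 : rng plan 210 1 = true := by decide +kernel
theorem t211 : rng plan 211 1 = true := by decide +kernel
theorem t212 : rng plan 212 1 = true := by decide +kernel
theorem t213 : rng plan 213 1 = true := by decide +kernel
theorem t214 : rng plan 214 1 = true := by decide +kernel
theorem t215 : rng plan 215 1 = true := by decide +kernel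
theorem t216 : rng plan 216 1 = true := by decide +kernel
theorem t217 : rng plan 217 1 = true := by decide +kernel
theorem t218 : rng plan 218 1 = true := by decide +kernel
theorem t219 : rng plan 219 1 = true := by decide +kernel
theorem t220 : rng plan 220 1 = true := by decide +kernel
theorem t221 : rng plan 221 1 = true := by decide +kernel
theorem t222 : rng plan 222 1 = true := by decide +kernel
theorem t223 : rng plan 223 1 = true := by decide +kernel
theorem t224 : rng plan 224 1 = true := by decide +kernel
theorem t225 : rng plan 225 1 = true := by decide +kernel
theorem t226 : rng plan 226 1 = true := by decide +kernel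
theorem t227 : rng plan 227 1 = true := by decide +kernel
theorem t228 : rng plan 228 1 = true := by decide +kernel
theorem t229 : rng plan 229 1 = true := by decide +kernel
theorem t230 : rng plan 230 1 = true := by decide +kernel
theorem t231 : rng plan 231 1 = true := by decide +kernel
theorem t232 : rng plan 232 1 = true := by decide +kernel
theorem t233 : rng plan 233 1 = true := by decide +kernel
theorem t234 : rng plan 234 1 = true := by decide +kernel
theorem t235 : rng plan 235 1 = true := by decide +kernel
theorem t236 : rng plan 236 1 = true := by decide +kernel
theorem t237 : rng plan 237 1 = true := by decide +kernel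
theorem t238 : rng plan 238 1 = true := by decide +kernel
theorem t239 : rng plan 239 1 = true := by decide +kernel

theorem b07 (d : ℕ) (h1 : 210 ≤ d) (h2 : d < 240) : rng plan d 1 = true := by
  interval_cases d
  exacts [t210, t211, t212, t213, t214, t215, t216, t217, t218, t219, t220, t221, t222, t223, t224, t225, t226, t227, t228, t229, t230, t231, t232, t233, t234, t235, t236, t237, t238, t239]

end Cfsg.Agent.H908.P9.Run
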