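import Cfsg.Agent.H728.PM.Run
import Cfsg.Agent.H136.P9.PlanData

/-! # S5925, box H: digit vectors 240 .. 269 (helper908) -/

set_option autoImplicit false
set_option Elab.async false
set_option maxRecDepth 100000

namespace Cfsg.Agent.H908.P9.Run
open Cfsg.Agent.H728.PM Cfsg.Agent.H136.P9

theorem t240 : rng plan 240 1 = true := by decide +kernel
theorem t241 : rng plan 241 1 = true := by decide +kernel
theorem t242 : rng plan 242 1 = true := by decide +kernel
theorem t243 : rng plan 243 1 = true := by decide +kernel
theorem t244 : rng plan 244 1 = true := by decide +kernel
theorem t245 : rng plan 245 1 = true := by decide +kernel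
theorem t246 : rng plan 246 1 = true := by decide +kernel
theorem t247 : rng plan 247 1 = true := by decide +kernel
theorem t248 : rng plan 248 1 = true := by decide +kernel
theorem t249 : rng plan 249 1 = true := by decide +kernel
theorem t250 : rng plan 250 1 = true := by decide +kernel
theorem t251 : rng plan 251 1 = true := by decide +kernel
theorem t252 : rng plan 252 1 = true := by decide +kernel
theorem t253 : rng plan 253 1 = true := by decide +kernel
theorem t254 : rng plan 254 1 = true := by decide +kernel
theorem t255 : rng plan 255 1 = true := by decide +kernel
theorem t256 : rng plan 256 1 = true := by decide +kernel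
theorem t257 : rng plan 257 1 = true := by decide +kernel
theorem t258 : rng plan 258 1 = true := by decide +kernel
theorem t259 : rng plan 259 1 = true := by decide +kernel
theorem t260 : rng plan 260 1 = true := by decide +kernel
theorem t261 : rng plan 261 1 = true := by decide +kernel
theorem t262 : rng plan 262 1 = true := by decide +kernel
theorem t263 : rng plan 263 1 = true := by decide +kernel
theorem t264 : rng plan 264 1 = true := by decide +kernel
theorem t265 : rng plan 265 1 = true := by decide +kernel
theorem t266 : rng plan 266 1 = true := by decide +kernel
theorem t267 : rng plan 267 1 = true := by decide +kernel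
theorem t268 : rng plan 268 1 = true := by decide +kernel
theorem t269 : rng plan 269 1 = true := by decide +kernel

theorem b08 (d : ℕ) (h1 : 240 ≤ d) (h2 : d < 270) : rng plan d 1 = true := by
  interval_cases d
  exacts [t240, t241, t242, t243, t244, t245, t246, t247, t248, t249, t250, t251, t252, t253, t254, t255, t256, t257, t258, t259, t260, t261, t262, t263, t264, t265, t266, t267, t268, t269]

end Cfsg.Agent.H908.P9.Run
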