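import Cfsg.Agent.H728.PM.Run
import Cfsg.Agent.H136.P9.PlanData

/-! # S5925, box H: digit vectors 270 .. 299 (helper908) -/

set_option autoImplicit false
set_option Elab.async false
set_option maxRecDepth 100000

namespace Cfsg.Agent.H908.P9.Run
open Cfsg.Agent.H728.PM Cfsg.Agent.H136.P9

theorem t270 : rng plan 270 1 = true := by decide +kernel
theorem t271 : rng plan 271 1 = true := by decide +kernel
theorem t272 : rng plan 272 1 = true := by decide +kernel
theorem t273 : rng plan 273 1 = true := by decide +kernel
theorem t274 : rng plan 274 1 = true := by decide +kernel
theorem t275 : rng plan 275 1 = true := by decide +kernel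
theorem t276 : rng plan 276 1 = true := by decide +kernel
theorem t277 : rng plan 277 1 = true := by decide +kernel
theorem t278 : rng plan 278 1 = true := by decide +kernel
theorem t279 : rng plan 279 1 = true := by decide +kernel
theorem t280 : rng plan 280 1 = true := by decide +kernel
theorem t281 : rng plan 281 1 = true := by decide +kernel
theorem t282 : rng plan 282 1 = true := by decide +kernel
theorem t283 : rng plan 283 1 = true := by decide +kernel
theorem t284 : rng plan 284 1 = true := by decide +kernel
theorem t285 : rng plan 285 1 = true := by decide +kernel
theorem t286 : rng plan 286 1 = true := by decide +kernel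
theorem t287 : rng plan 287 1 = true := by decide +kernel
theorem t288 : rng plan 288 1 = true := by decide +kernel
theorem t289 : rng plan 289 1 = true := by decide +kernel
theorem t290 : rng plan 290 1 = true := by decide +kernel
theorem t291 : rng plan 291 1 = true := by decide +kernel
theorem t292 : rng plan 292 1 = true := by decide +kernel
theorem t293 : rng plan 293 1 = true := by decide +kernel
theorem t294 : rng plan 294 1 = true := by decide +kernel
theorem t295 : rng plan 295 1 = true := by decide +kernel
theorem t296 : rng plan 296 1 = true := by decide +kernel
theorem t297 : rng plan 297 1 = true := by decide +kernel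
theorem t298 : rng plan 298 1 = true := by decide +kernel
theorem t299 : rng plan 299 1 = true := by decide +kernel

theorem b09 (d : ℕ) (h1 : 270 ≤ d) (h2 : d < 300) : rng plan d 1 = true := by
  interval_cases d
  exacts [t270, t271, t272, t273, t274, t275, t276, t277, t278, t279, t280, t281, t282, t283, t284, t285, t286, t287, t288, t289, t290, t291, t292, t293, t294, t295, t296, t297, t298, t299]

end Cfsg.Agent.H908.P9.Run
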