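import Cfsg.Agent.H728.PM.Run
import Cfsg.Agent.H136.P9.PlanData

/-! # S5925, box H: digit vectors 300 .. 329 (helper908) -/

set_option autoImplicit false
set_option Elab.async false
set_option maxRecDepth 100000

namespace Cfsg.Agent.H908.P9.Run
open Cfsg.Agent.H728.PM Cfsg.Agent.H136.P9

theorem t300 : rng plan 300 1 = true := by decide +kernel
theorem t301 : rng plan 301 1 = true := by decide +kernel
theorem t302 : rng plan 302 1 = true := by decide +kernel
theorem t303 : rng plan 303 1 = true := by decide +kernel
theorem t304 : rng plan 304 1 = true := by decide +kernel
theorem t305 : rng plan 305 1 = true := by decide +kernel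
theorem t306 : rng plan 306 1 = true := by decide +kernel
theorem t307 : rng plan 307 1 = true := by decide +kernel
theorem t308 : rng plan 308 1 = true := by decide +kernel
theorem t309 : rng plan 309 1 = true := by decide +kernel
theorem t310 : rng plan 310 1 = true := by decide +kernel
theorem t311 : rng plan 311 1 = true := by decide +kernel
theorem t312 : rng plan 312 1 = true := by decide +kernel
theorem t313 : rng plan 313 1 = true := by decide +kernel
theorem t314 : rng plan 314 1 = true := by decide +kernel
theorem t315 : rng plan 315 1 = true := by decide +kernel
theorem t316 : rng plan 316 1 = true := by decide +kernel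
theorem t317 : rng plan 317 1 = true := by decide +kernel
theorem t318 : rng plan 318 1 = true := by decide +kernel
theorem t319 : rng plan 319 1 = true := by decide +kernel
theorem t320 : rng plan 320 1 = true := by decide +kernel
theorem t321 : rng plan 321 1 = true := by decide +kernel
theorem t322 : rng plan 322 1 = true := by decide +kernel
theorem t323 : rng plan 323 1 = true := by decide +kernel
theorem t324 : rng plan 324 1 = true := by decide +kernel
theorem t325 : rng plan 325 1 = true := by decide +kernel
theorem t326 : rng plan 326 1 = true := by decide +kernel
theorem t327 : rng plan 327 1 = true := by decide +kernel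
theorem t328 : rng plan 328 1 = true := by decide +kernel
theorem t329 : rng plan 329 1 = true := by decide +kernel

theorem b10 (d : ℕ) (h1 : 300 ≤ d) (h2 : d < 330) : rng plan d 1 = true := by
  interval_cases d
  exacts [t300, t301, t302, t303, t304, t305, t306, t307, t308, t309, t310, t311, t312, t313, t314, t315, t316, t317, t318, t319, t320, t321, t322, t323, t324, t325, t326, t327, t328, t329]

end Cfsg.Agent.H908.P9.Run
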