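import Cfsg.Agent.H728.PM.Run
import Cfsg.Agent.H136.P9.PlanData

/-! # S5925, box H: digit vectors 330 .. 359 (helper908) -/

set_option autoImplicit false
set_option Elab.async false
set_option maxRecDepth 100000

namespace Cfsg.Agent.H908.P9.Run
open Cfsg.Agent.H728.PM Cfsg.Agent.H136.P9

theorem t330 : rng plan 330 1 = true := by decide +kernel
theorem t331 : rng plan 331 1 = true := by decide +kernel
theorem t332 : rng plan 332 1 = true := by decide +kernel
theorem t333 : rng plan 333 1 = true := by decide +kernel
theorem t334 : rng plan 334 1 = true := by decide +kernel
theorem t335 : rng plan 335 1 = true := by decide +kernel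
theorem t336 : rng plan 336 1 = true := by decide +kernel
theorem t337 : rng plan 337 1 = true := by decide +kernel
theorem t338 : rng plan 338 1 = true := by decide +kernel
theorem t339 : rng plan 339 1 = true := by decide +kernel
theorem t340 : rng plan 340 1 = true := by decide +kernel
theorem t341 : rng plan 341 1 = true := by decide +kernel
theorem t342 : rng plan 342 1 = true := by decide +kernel
theorem t343 : rng plan 343 1 = true := by decide +kernel
theorem t344 : rng plan 344 1 = true := by decide +kernel
theorem t345 : rng plan 345 1 = true := by decide +kernel
theorem t346 : rng plan 346 1 = true := by decide +kernel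
theorem t347 : rng plan 347 1 = true := by decide +kernel
theorem t348 : rng plan 348 1 = true := by decide +kernel
theorem t349 : rng plan 349 1 = true := by decide +kernel
theorem t350 : rng plan 350 1 = true := by decide +kernel
theorem t351 : rng plan 351 1 = true := by decide +kernel
theorem t352 : rng plan 352 1 = true := by decide +kernel
theorem t353 : rng plan 353 1 = true := by decide +kernel
theorem t354 : rng plan 354 1 = true := by decide +kernel
theorem t355 : rng plan 355 1 = true := by decide +kernel
theorem t356 : rng plan 356 1 = true := by decide +kernel
theorem t357 : rng plan 357 1 = true := by decide +kernel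
theorem t358 : rng plan 358 1 = true := by decide +kernel
theorem t359 : rng plan 359 1 = true := by decide +kernel

theorem b11 (d : ℕ) (h1 : 330 ≤ d) (h2 : d < 360) : rng plan d 1 = true := by
  interval_cases d
  exacts [t330, t331, t332, t333, t334, t335, t336, t337, t338, t339, t340, t341, t342, t343, t344, t345, t346, t347, t348, t349, t350, t351, t352, t353, t354, t355, t356, t357, t358, t359]

end Cfsg.Agent.H908.P9.Run
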