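import Cfsg.Agent.H728.PM.Run
import Cfsg.Agent.H136.P9.PlanData

/-! # S5925, box H: digit vectors 360 .. 389 (helper908) -/

set_option autoImplicit false
set_option Elab.async false
set_option maxRecDepth 100000

namespace Cfsg.Agent.H908.P9.Run
open Cfsg.Agent.H728.PM Cfsg.Agent.H136.P9

theorem t360 : rng plan 360 1 = true := by decide +kernel
theorem t361 : rng plan 361 1 = true := by decide +kernel
theorem t362 : rng plan 362 1 = true := by decide +kernel
theorem t363 : rng plan 363 1 = true := by decide +kernel
theorem t364 : rng plan 364 1 = true := by decide +kernel
theorem t365 : rng plan 365 1 = true := by decide +kernel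
theorem t366 : rng plan 366 1 = true := by decide +kernel
theorem t367 : rng plan 367 1 = true := by decide +kernel
theorem t368 : rng plan 368 1 = true := by decide +kernel
theorem t369 : rng plan 369 1 = true := by decide +kernel
theorem t370 : rng plan 370 1 = true := by decide +kernel
theorem t371 : rng plan 371 1 = true := by decide +kernel
theorem t372 : rng plan 372 1 = true := by decide +kernel
theorem t373 : rng plan 373 1 = true := by decide +kernel
theorem t374 : rng plan 374 1 = true := by decide +kernel
theorem t375 : rng plan 375 1 = true := by decide +kernel
theorem t376 : rng plan 376 1 = true := by decide +kernel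
theorem t377 : rng plan 377 1 = true := by decide +kernel
theorem t378 : rng plan 378 1 = true := by decide +kernel
theorem t379 : rng plan 379 1 = true := by decide +kernel
theorem t380 : rng plan 380 1 = true := by decide +kernel
theorem t381 : rng plan 381 1 = true := by decide +kernel
theorem t382 : rng plan 382 1 = true := by decide +kernel
theorem t383 : rng plan 383 1 = true := by decide +kernel
theorem t384 : rng plan 384 1 = true := by decide +kernel
theorem t385 : rng plan 385 1 = true := by decide +kernel
theorem t386 : rng plan 386 1 = true := by decide +kernel
theorem t387 : rng plan 387 1 = true := by decide +kernel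
theorem t388 : rng plan 388 1 = true := by decide +kernel
theorem t389 : rng plan 389 1 = true := by decide +kernel

theorem b12 (d : ℕ) (h1 : 360 ≤ d) (h2 : d < 390) : rng plan d 1 = true := by
  interval_cases d
  exacts [t360, t361, t362, t363, t364, t365, t366, t367, t368, t369, t370, t371, t372, t373, t374, t375, t376, t377, t378, t379, t380, t381, t382, t383, t384, t385, t386, t387, t388, t389]

end Cfsg.Agent.H908.P9.Run
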