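import Cfsg.Agent.H728.PM.Run
import Cfsg.Agent.H136.P9.PlanData

/-! # S5925, box H: digit vectors 390 .. 419 (helper908) -/

set_option autoImplicit false
set_option Elab.async false
set_option maxRecDepth 100000

namespace Cfsg.Agent.H908.P9.Run
open Cfsg.Agent.H728.PM Cfsg.Agent.H136.P9

theorem t390 : rng plan 390 1 = true := by decide +kernel
theorem t391 : rng plan 391 1 = true := by decide +kernel
theorem t392 : rng plan 392 1 = true := by decide +kernel
theorem t393 : rng plan 393 1 = true := by decide +kernel
theorem t394 : rng plan 394 1 = true := by decide +kernel
theorem t395 : rng plan 395 1 = true := by decide +kernel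
theorem t396 : rng plan 396 1 = true := by decide +kernel
theorem t397 : rng plan 397 1 = true := by decide +kernel
theorem t398 : rng plan 398 1 = true := by decide +kernel
theorem t399 : rng plan 399 1 = true := by decide +kernel
theorem t400 : rng plan 400 1 = true := by decide +kernel
theorem t401 : rng plan 401 1 = true := by decide +kernel
theorem t402 : rng plan 402 1 = true := by decide +kernel
theorem t403 : rng plan 403 1 = true := by decide +kernel
theorem t404 : rng plan 404 1 = true := by decide +kernel
theorem t405 : rng plan 405 1 = true := by decide +kernel
theorem t406 : rng plan 406 1 = true := by decide +kernel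
theorem t407 : rng plan 407 1 = true := by decide +kernel
theorem t408 : rng plan 408 1 = true := by decide +kernel
theorem t409 : rng plan 409 1 = true := by decide +kernel
theorem t410 : rng plan 410 1 = true := by decide +kernel
theorem t411 : rng plan 411 1 = true := by decide +kernel
theorem t412 : rng plan 412 1 = true := by decide +kernel
theorem t413 : rng plan 413 1 = true := by decide +kernel
theorem t414 : rng plan 414 1 = true := by decide +kernel
theorem t415 : rng plan 415 1 = true := by decide +kernel
theorem t416 : rng plan 416 1 = true := by decide +kernel
theorem t417 : rng plan 417 1 = true := by decide +kernel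
theorem t418 : rng plan 418 1 = true := by decide +kernel
theorem t419 : rng plan 419 1 = true := by decide +kernel

theorem b13 (d : ℕ) (h1 : 390 ≤ d) (h2 : d < 420) : rng plan d 1 = true := by
  interval_cases d
  exacts [t390, t391, t392, t393, t394, t395, t396, t397, t398, t399, t400, t401, t402, t403, t404, t405, t406, t407, t408, t409, t410, t411, t412, t413, t414, t415, t416, t417, t418, t419]

end Cfsg.Agent.H908.P9.Run
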