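import Cfsg.Agent.H728.PM.Run
import Cfsg.Agent.H136.P9.PlanData

/-! # S5925, box H: digit vectors 420 .. 449 (helper908) -/

set_option autoImplicit false
set_option Elab.async false
set_option maxRecDepth 100000

namespace Cfsg.Agent.H908.P9.Run
open Cfsg.Agent.H728.PM Cfsg.Agent.H136.P9

theorem t420 : rng plan 420 1 = true := by decide +kernel
theorem t421 : rng plan 421 1 = true := by decide +kernel
theorem t422 : rng plan 422 1 = true := by decide +kernel
theorem t423 : rng plan 423 1 = true := by decide +kernel
theorem t424 : rng plan 424 1 = true := by decide +kernel
theorem t425 : rng plan 425 1 = true := by decide +kernel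
theorem t426 : rng plan 426 1 = true := by decide +kernel
theorem t427 : rng plan 427 1 = true := by decide +kernel
theorem t428 : rng plan 428 1 = true := by decide +kernel
theorem t429 : rng plan 429 1 = true := by decide +kernel
theorem t430 : rng plan 430 1 = true := by decide +kernel
theorem t431 : rng plan 431 1 = true := by decide +kernel
theorem t432 : rng plan 432 1 = true := by decide +kernel
theorem t433 : rng plan 433 1 = true := by decide +kernel
theorem t434 : rng plan 434 1 = true := by decide +kernel
theorem t435 : rng plan 435 1 = true := by decide +kernel
theorem t436 : rng plan 436 1 = true := by decide +kernel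
theorem t437 : rng plan 437 1 = true := by decide +kernel
theorem t438 : rng plan 438 1 = true := by decide +kernel
theorem t439 : rng plan 439 1 = true := by decide +kernel
theorem t440 : rng plan 440 1 = true := by decide +kernel
theorem t441 : rng plan 441 1 = true := by decide +kernel
theorem t442 : rng plan 442 1 = true := by decide +kernel
theorem t443 : rng plan 443 1 = true := by decide +kernel
theorem t444 : rng plan 444 1 = true := by decide +kernel
theorem t445 : rng plan 445 1 = true := by decide +kernel
theorem t446 : rng plan 446 1 = true := by decide +kernel
theorem t447 : rng plan 447 1 = true := by decide +kernel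
theorem t448 : rng plan 448 1 = true := by decide +kernel
theorem t449 : rng plan 449 1 = true := by decide +kernel

theorem b14 (d : ℕ) (h1 : 420 ≤ d) (h2 : d < 450) : rng plan d 1 = true := by
  interval_cases d
  exacts [t420, t421, t422, t423, t424, t425, t426, t427, t428, t429, t430, t431, t432, t433, t434, t435, t436, t437, t438, t439, t440, t441, t442, t443, t444, t445, t446, t447, t448, t449]

end Cfsg.Agent.H908.P9.Run
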