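import Cfsg.Agent.H728.PM.Run
import Cfsg.Agent.H136.P9.PlanData

/-! # S5925, box H: digit vectors 450 .. 479 (helper908) -/

set_option autoImplicit false
set_option Elab.async false
set_option maxRecDepth 100000

namespace Cfsg.Agent.H908.P9.Run
open Cfsg.Agent.H728.PM Cfsg.Agent.H136.P9

theorem t450 : rng plan 450 1 = true := by decide +kernel
theorem t451 : rng plan 451 1 = true := by decide +kernel
theorem t452 : rng plan 452 1 = true := by decide +kernel
theorem t453 : rng plan 453 1 = true := by decide +kernel
theorem t454 : rng plan 454 1 = true := by decide +kernel
theorem t455 : rng plan 455 1 = true := by decide +kernel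
theorem t456 : rng plan 456 1 = true := by decide +kernel
theorem t457 : rng plan 457 1 = true := by decide +kernel
theorem t458 : rng plan 458 1 = true := by decide +kernel
theorem t459 : rng plan 459 1 = true := by decide +kernel
theorem t460 : rng plan 460 1 = true := by decide +kernel
theorem t461 : rng plan 461 1 = true := by decide +kernel
theorem t462 : rng plan 462 1 = true := by decide +kernel
theorem t463 : rng plan 463 1 = true := by decide +kernel
theorem t464 : rng plan 464 1 = true := by decide +kernel
theorem t465 : rng plan 465 1 = true := by decide +kernel
theorem t466 : rng plan 466 1 = true := by decide +kernel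
theorem t467 : rng plan 467 1 = true := by decide +kernel
theorem t468 : rng plan 468 1 = true := by decide +kernel
theorem t469 : rng plan 469 1 = true := by decide +kernel
theorem t470 : rng plan 470 1 = true := by decide +kernel
theorem t471 : rng plan 471 1 = true := by decide +kernel
theorem t472 : rng plan 472 1 = true := by decide +kernel
theorem t473 : rng plan 473 1 = true := by decide +kernel
theorem t474 : rng plan 474 1 = true := by decide +kernel
theorem t475 : rng plan 475 1 = true := by decide +kernel
theorem t476 : rng plan 476 1 = true := by decide +kernel
theorem t477 : rng plan 477 1 = true := by decide +kernel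
theorem t478 : rng plan 478 1 = true := by decide +kernel
theorem t479 : rng plan 479 1 = true := by decide +kernel

theorem b15 (d : ℕ) (h1 : 450 ≤ d) (h2 : d < 480) : rng plan d 1 = true := by
  interval_cases d
  exacts [t450, t451, t452, t453, t454, t455, t456, t457, t458, t459, t460, t461, t462, t463, t464, t465, t466, t467, t468, t469, t470, t471, t472, t473, t474, t475, t476, t477, t478, t479]

end Cfsg.Agent.H908.P9.Run
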