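import Cfsg.Agent.H728.PM.Run
import Cfsg.Agent.H136.P9.PlanData

/-! # S5925, box H: digit vectors 480 .. 509 (helper908) -/

set_option autoImplicit false
set_option Elab.async false
set_option maxRecDepth 100000

namespace Cfsg.Agent.H908.P9.Run
open Cfsg.Agent.H728.PM Cfsg.Agent.H136.P9

theorem t480 : rng plan 480 1 = true := by decide +kernel
theorem t481 : rng plan 481 1 = true := by decide +kernel
theorem t482 : rng plan 482 1 = true := by decide +kernel
theorem t483 : rng plan 483 1 = true := by decide +kernel
theorem t484 : rng plan 484 1 = true := by decide +kernel
theorem t485 : rng plan 485 1 = true := by decide +kernel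
theorem t486 : rng plan 486 1 = true := by decide +kernel
theorem t487 : rng plan 487 1 = true := by decide +kernel
theorem t488 : rng plan 488 1 = true := by decide +kernel
theorem t489 : rng plan 489 1 = true := by decide +kernel
theorem t490 : rng plan 490 1 = true := by decide +kernel
theorem t491 : rng plan 491 1 = true := by decide +kernel
theorem t492 : rng plan 492 1 = true := by decide +kernel
theorem t493 : rng plan 493 1 = true := by decide +kernel
theorem t494 : rng plan 494 1 = true := by decide +kernel
theorem t495 : rng plan 495 1 = true := by decide +kernel
theorem t496 : rng plan 496 1 = true := by decide +kernel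
theorem t497 : rng plan 497 1 = true := by decide +kernel
theorem t498 : rng plan 498 1 = true := by decide +kernel
theorem t499 : rng plan 499 1 = true := by decide +kernel
theorem t500 : rng plan 500 1 = true := by decide +kernel
theorem t501 : rng plan 501 1 = true := by decide +kernel
theorem t502 : rng plan 502 1 = true := by decide +kernel
theorem t503 : rng plan 503 1 = true := by decide +kernel
theorem t504 : rng plan 504 1 = true := by decide +kernel
theorem t505 : rng plan 505 1 = true := by decide +kernel
theorem t506 : rng plan 506 1 = true := by decide +kernel
theorem t507 : rng plan 507 1 = true := by decide +kernel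
theorem t508 : rng plan 508 1 = true := by decide +kernel
theorem t509 : rng plan 509 1 = true := by decide +kernel

theorem b16 (d : ℕ) (h1 : 480 ≤ d) (h2 : d < 510) : rng plan d 1 = true := by
  interval_cases d
  exacts [t480, t481, t482, t483, t484, t485, t486, t487, t488, t489, t490, t491, t492, t493, t494, t495, t496, t497, t498, t499, t500, t501, t502, t503, t504, t505, t506, t507, t508, t509]

end Cfsg.Agent.H908.P9.Run
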