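import Cfsg.Agent.H728.PM.Run
import Cfsg.Agent.H136.P9.PlanData

/-! # S5925, box H: digit vectors 510 .. 539 (helper908) -/

set_option autoImplicit false
set_option Elab.async false
set_option maxRecDepth 100000

namespace Cfsg.Agent.H908.P9.Run
open Cfsg.Agent.H728.PM Cfsg.Agent.H136.P9

theorem t510 : rng plan 510 1 = true := by decide +kernel
theorem t511 : rng plan 511 1 = true := by decide +kernel
theorem t512 : rng plan 512 1 = true := by decide +kernel
theorem t513 : rng plan 513 1 = true := by decide +kernel
theorem t514 : rng plan 514 1 = true := by decide +kernel
theorem t515 : rng plan 515 1 = true := by decide +kernel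
theorem t516 : rng plan 516 1 = true := by decide +kernel
theorem t517 : rng plan 517 1 = true := by decide +kernel
theorem t518 : rng plan 518 1 = true := by decide +kernel
theorem t519 : rng plan 519 1 = true := by decide +kernel
theorem t520 : rng plan 520 1 = true := by decide +kernel
theorem t521 : rng plan 521 1 = true := by decide +kernel
theorem t522 : rng plan 522 1 = true := by decide +kernel
theorem t523 : rng plan 523 1 = true := by decide +kernel
theorem t524 : rng plan 524 1 = true := by decide +kernel
theorem t525 : rng plan 525 1 = true := by decide +kernel
theorem t526 : rng plan 526 1 = true := by decide +kernel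
theorem t527 : rng plan 527 1 = true := by decide +kernel
theorem t528 : rng plan 528 1 = true := by decide +kernel
theorem t529 : rng plan 529 1 = true := by decide +kernel
theorem t530 : rng plan 530 1 = true := by decide +kernel
theorem t531 : rng plan 531 1 = true := by decide +kernel
theorem t532 : rng plan 532 1 = true := by decide +kernel
theorem t533 : rng plan 533 1 = true := by decide +kernel
theorem t534 : rng plan 534 1 = true := by decide +kernel
theorem t535 : rng plan 535 1 = true := by decide +kernel
theorem t536 : rng plan 536 1 = true := by decide +kernel
theorem t537 : rng plan 537 1 = true := by decide +kernel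
theorem t538 : rng plan 538 1 = true := by decide +kernel
theorem t539 : rng plan 539 1 = true := by decide +kernel

theorem b17 (d : ℕ) (h1 : 510 ≤ d) (h2 : d < 540) : rng plan d 1 = true := by
  interval_cases d
  exacts [t510, t511, t512, t513, t514, t515, t516, t517, t518, t519, t520, t521, t522, t523, t524, t525, t526, t527, t528, t529, t530, t531, t532, t533, t534, t535, t536, t537, t538, t539]

end Cfsg.Agent.H908.P9.Run
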