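import Cfsg.Agent.H728.PM.Run
import Cfsg.Agent.H136.P9.PlanData

/-! # S5925, box H: digit vectors 540 .. 569 (helper908) -/

set_option autoImplicit false
set_option Elab.async false
set_option maxRecDepth 100000

namespace Cfsg.Agent.H908.P9.Run
open Cfsg.Agent.H728.PM Cfsg.Agent.H136.P9

theorem t540 : rng plan 540 1 = true := by decide +kernel
theorem t541 : rng plan 541 1 = true := by decide +kernel
theorem t542 : rng plan 542 1 = true := by decide +kernel
theorem t543 : rng plan 543 1 = true := by decide +kernel
theorem t544 : rng plan 544 1 = true := by decide +kernel
theorem t545 : rng plan 545 1 = true := by decide +kernel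
theorem t546 : rng plan 546 1 = true := by decide +kernel
theorem t547 : rng plan 547 1 = true := by decide +kernel
theorem t548 : rng plan 548 1 = true := by decide +kernel
theorem t549 : rng plan 549 1 = true := by decide +kernel
theorem t550 : rng plan 550 1 = true := by decide +kernel
theorem t551 : rng plan 551 1 = true := by decide +kernel
theorem t552 : rng plan 552 1 = true := by decide +kernel
theorem t553 : rng plan 553 1 = true := by decide +kernel
theorem t554 : rng plan 554 1 = true := by decide +kernel
theorem t555 : rng plan 555 1 = true := by decide +kernel
theorem t556 : rng plan 556 1 = true := by decide +kernel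
theorem t557 : rng plan 557 1 = true := by decide +kernel
theorem t558 : rng plan 558 1 = true := by decide +kernel
theorem t559 : rng plan 559 1 = true := by decide +kernel
theorem t560 : rng plan 560 1 = true := by decide +kernel
theorem t561 : rng plan 561 1 = true := by decide +kernel
theorem t562 : rng plan 562 1 = true := by decide +kernel
theorem t563 : rng plan 563 1 = true := by decide +kernel
theorem t564 : rng plan 564 1 = true := by decide +kernel
theorem t565 : rng plan 565 1 = true := by decide +kernel
theorem t566 : rng plan 566 1 = true := by decide +kernel
theorem t567 : rng plan 567 1 = true := by decide +kernel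
theorem t568 : rng plan 568 1 = true := by decide +kernel
theorem t569 : rng plan 569 1 = true := by decide +kernel

theorem b18 (d : ℕ) (h1 : 540 ≤ d) (h2 : d < 570) : rng plan d 1 = true := by
  interval_cases d
  exacts [t540, t541, t542, t543, t544, t545, t546, t547, t548, t549, t550, t551, t552, t553, t554, t555, t556, t557, t558, t559, t560, t561, t562, t563, t564, t565, t566, t567, t568, t569]

end Cfsg.Agent.H908.P9.Run
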