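import Cfsg.Agent.H728.PM.Run
import Cfsg.Agent.H136.P9.PlanData

/-! # S5925, box H: digit vectors 570 .. 599 (helper908) -/

set_option autoImplicit false
set_option Elab.async false
set_option maxRecDepth 100000

namespace Cfsg.Agent.H908.P9.Run
open Cfsg.Agent.H728.PM Cfsg.Agent.H136.P9

theorem t570 : rng plan 570 1 = true := by decide +kernel
theorem t571 : rng plan 571 1 = true := by decide +kernel
theorem t572 : rng plan 572 1 = true := by decide +kernel
theorem t573 : rng plan 573 1 = true := by decide +kernel
theorem t574 : rng plan 574 1 = true := by decide +kernel
theorem t575 : rng plan 575 1 = true := by decide +kernel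
theorem t576 : rng plan 576 1 = true := by decide +kernel
theorem t577 : rng plan 577 1 = true := by decide +kernel
theorem t578 : rng plan 578 1 = true := by decide +kernel
theorem t579 : rng plan 579 1 = true := by decide +kernel
theorem t580 : rng plan 580 1 = true := by decide +kernel
theorem t581 : rng plan 581 1 = true := by decide +kernel
theorem t582 : rng plan 582 1 = true := by decide +kernel
theorem t583 : rng plan 583 1 = true := by decide +kernel
theorem t584 : rng plan 584 1 = true := by decide +kernel
theorem t585 : rng plan 585 1 = true := by decide +kernel
theorem t586 : rng plan 586 1 = true := by decide +kernel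
theorem t587 : rng plan 587 1 = true := by decide +kernel
theorem t588 : rng plan 588 1 = true := by decide +kernel
theorem t589 : rng plan 589 1 = true := by decide +kernel
theorem t590 : rng plan 590 1 = true := by decide +kernel
theorem t591 : rng plan 591 1 = true := by decide +kernel
theorem t592 : rng plan 592 1 = true := by decide +kernel
theorem t593 : rng plan 593 1 = true := by decide +kernel
theorem t594 : rng plan 594 1 = true := by decide +kernel
theorem t595 : rng plan 595 1 = true := by decide +kernel
theorem t596 : rng plan 596 1 = true := by decide +kernel
theorem t597 : rng plan 597 1 = true := by decide +kernel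
theorem t598 : rng plan 598 1 = true := by decide +kernel
theorem t599 : rng plan 599 1 = true := by decide +kernel

theorem b19 (d : ℕ) (h1 : 570 ≤ d) (h2 : d < 600) : rng plan d 1 = true := by
  interval_cases d
  exacts [t570, t571, t572, t573, t574, t575, t576, t577, t578, t579, t580, t581, t582, t583, t584, t585, t586, t587, t588, t589, t590, t591, t592, t593, t594, t595, t596, t597, t598, t599]

end Cfsg.Agent.H908.P9.Run
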