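import Cfsg.Agent.H728.PM.Run
import Cfsg.Agent.H136.P9.PlanData

/-! # S5925, box H: digit vectors 600 .. 629 (helper908) -/

set_option autoImplicit false
set_option Elab.async false
set_option maxRecDepth 100000

namespace Cfsg.Agent.H908.P9.Run
open Cfsg.Agent.H728.PM Cfsg.Agent.H136.P9

theorem t600 : rng plan 600 1 = true := by decide +kernel
theorem t601 : rng plan 601 1 = true := by decide +kernel
theorem t602 : rng plan 602 1 = true := by decide +kernel
theorem t603 : rng plan 603 1 = true := by decide +kernel
theorem t604 : rng plan 604 1 = true := by decide +kernel
theorem t605 : rng plan 605 1 = true := by decide +kernel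
theorem t606 : rng plan 606 1 = true := by decide +kernel
theorem t607 : rng plan 607 1 = true := by decide +kernel
theorem t608 : rng plan 608 1 = true := by decide +kernel
theorem t609 : rng plan 609 1 = true := by decide +kernel
theorem t610 : rng plan 610 1 = true := by decide +kernel
theorem t611 : rng plan 611 1 = true := by decide +kernel
theorem t612 : rng plan 612 1 = true := by decide +kernel
theorem t613 : rng plan 613 1 = true := by decide +kernel
theorem t614 : rng plan 614 1 = true := by decide +kernel
theorem t615 : rng plan 615 1 = true := by decide +kernel
theorem t616 : rng plan 616 1 = true := by decide +kernel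
theorem t617 : rng plan 617 1 = true := by decide +kernel
theorem t618 : rng plan 618 1 = true := by decide +kernel
theorem t619 : rng plan 619 1 = true := by decide +kernel
theorem t620 : rng plan 620 1 = true := by decide +kernel
theorem t621 : rng plan 621 1 = true := by decide +kernel
theorem t622 : rng plan 622 1 = true := by decide +kernel
theorem t623 : rng plan 623 1 = true := by decide +kernel
theorem t624 : rng plan 624 1 = true := by decide +kernel
theorem t625 : rng plan 625 1 = true := by decide +kernel
theorem t626 : rng plan 626 1 = true := by decide +kernel
theorem t627 : rng plan 627 1 = true := by decide +kernel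
theorem t628 : rng plan 628 1 = true := by decide +kernel
theorem t629 : rng plan 629 1 = true := by decide +kernel

theorem b20 (d : ℕ) (h1 : 600 ≤ d) (h2 : d < 630) : rng plan d 1 = true := by
  interval_cases d
  exacts [t600, t601, t602, t603, t604, t605, t606, t607, t608, t609, t610, t611, t612, t613, t614, t615, t616, t617, t618, t619, t620, t621, t622, t623, t624, t625, t626, t627, t628, t629]

end Cfsg.Agent.H908.P9.Run
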