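import Cfsg.Agent.H728.PM.Run
import Cfsg.Agent.H136.P9.PlanData

/-! # S5925, box H: digit vectors 630 .. 659 (helper908) -/

set_option autoImplicit false
set_option Elab.async false
set_option maxRecDepth 100000

namespace Cfsg.Agent.H908.P9.Run
open Cfsg.Agent.H728.PM Cfsg.Agent.H136.P9

theorem t630 : rng plan 630 1 = true := by decide +kernel
theorem t631 : rng plan 631 1 = true := by decide +kernel
theorem t632 : rng plan 632 1 = true := by decide +kernel
theorem t633 : rng plan 633 1 = true := by decide +kernel
theorem t634 : rng plan 634 1 = true := by decide +kernel
theorem t635 : rng plan 635 1 = true := by decide +kernel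
theorem t636 : rng plan 636 1 = true := by decide +kernel
theorem t637 : rng plan 637 1 = true := by decide +kernel
theorem t638 : rng plan 638 1 = true := by decide +kernel
theorem t639 : rng plan 639 1 = true := by decide +kernel
theorem t640 : rng plan 640 1 = true := by decide +kernel
theorem t641 : rng plan 641 1 = true := by decide +kernel
theorem t642 : rng plan 642 1 = true := by decide +kernel
theorem t643 : rng plan 643 1 = true := by decide +kernel
theorem t644 : rng plan 644 1 = true := by decide +kernel
theorem t645 : rng plan 645 1 = true := by decide +kernel
theorem t646 : rng plan 646 1 = true := by decide +kernel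
theorem t647 : rng plan 647 1 = true := by decide +kernel
theorem t648 : rng plan 648 1 = true := by decide +kernel
theorem t649 : rng plan 649 1 = true := by decide +kernel
theorem t650 : rng plan 650 1 = true := by decide +kernel
theorem t651 : rng plan 651 1 = true := by decide +kernel
theorem t652 : rng plan 652 1 = true := by decide +kernel
theorem t653 : rng plan 653 1 = true := by decide +kernel
theorem t654 : rng plan 654 1 = true := by decide +kernel
theorem t655 : rng plan 655 1 = true := by decide +kernel
theorem t656 : rng plan 656 1 = true := by decide +kernel
theorem t657 : rng plan 657 1 = true := by decide +kernel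
theorem t658 : rng plan 658 1 = true := by decide +kernel
theorem t659 : rng plan 659 1 = true := by decide +kernel

theorem b21 (d : ℕ) (h1 : 630 ≤ d) (h2 : d < 660) : rng plan d 1 = true := by
  interval_cases d
  exacts [t630, t631, t632, t633, t634, t635, t636, t637, t638, t639, t640, t641, t642, t643, t644, t645, t646, t647, t648, t649, t650, t651, t652, t653, t654, t655, t656, t657, t658, t659]

end Cfsg.Agent.H908.P9.Run
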