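import Cfsg.Agent.H728.PM.Run
import Cfsg.Agent.H136.P9.PlanData

/-! # S5925, box H: digit vectors 660 .. 689 (helper908) -/

set_option autoImplicit false
set_option Elab.async false
set_option maxRecDepth 100000

namespace Cfsg.Agent.H908.P9.Run
open Cfsg.Agent.H728.PM Cfsg.Agent.H136.P9

theorem t660 : rng plan 660 1 = true := by decide +kernel
theorem t661 : rng plan 661 1 = true := by decide +kernel
theorem t662 : rng plan 662 1 = true := by decide +kernel
theorem t663 : rng plan 663 1 = true := by decide +kernel
theorem t664 : rng plan 664 1 = true := by decide +kernel
theorem t665 : rng plan 665 1 = true := by decide +kernel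
theorem t666 : rng plan 666 1 = true := by decide +kernel
theorem t667 : rng plan 667 1 = true := by decide +kernel
theorem t668 : rng plan 668 1 = true := by decide +kernel
theorem t669 : rng plan 669 1 = true := by decide +kernel
theorem t670 : rng plan 670 1 = true := by decide +kernel
theorem t671 : rng plan 671 1 = true := by decide +kernel
theorem t672 : rng plan 672 1 = true := by decide +kernel
theorem t673 : rng plan 673 1 = true := by decide +kernel
theorem t674 : rng plan 674 1 = true := by decide +kernel
theorem t675 : rng plan 675 1 = true := by decide +kernel
theorem t676 : rng plan 676 1 = true := by decide +kernel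
theorem t677 : rng plan 677 1 = true := by decide +kernel
theorem t678 : rng plan 678 1 = true := by decide +kernel
theorem t679 : rng plan 679 1 = true := by decide +kernel
theorem t680 : rng plan 680 1 = true := by decide +kernel
theorem t681 : rng plan 681 1 = true := by decide +kernel
theorem t682 : rng plan 682 1 = true := by decide +kernel
theorem t683 : rng plan 683 1 = true := by decide +kernel
theorem t684 : rng plan 684 1 = true := by decide +kernel
theorem t685 : rng plan 685 1 = true := by decide +kernel
theorem t686 : rng plan 686 1 = true := by decide +kernel
theorem t687 : rng plan 687 1 = true := by decide +kernel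
theorem t688 : rng plan 688 1 = true := by decide +kernel
theorem t689 : rng plan 689 1 = true := by decide +kernel

theorem b22 (d : ℕ) (h1 : 660 ≤ d) (h2 : d < 690) : rng plan d 1 = true := by
  interval_cases d
  exacts [t660, t661, t662, t663, t664, t665, t666, t667, t668, t669, t670, t671, t672, t673, t674, t675, t676, t677, t678, t679, t680, t681, t682, t683, t684, t685, t686, t687, t688, t689]

end Cfsg.Agent.H908.P9.Run
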