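import Cfsg.Agent.H728.PM.Run
import Cfsg.Agent.H136.P9.PlanData

/-! # S5925, box H: digit vectors 690 .. 719 (helper908) -/

set_option autoImplicit false
set_option Elab.async false
set_option maxRecDepth 100000

namespace Cfsg.Agent.H908.P9.Run
open Cfsg.Agent.H728.PM Cfsg.Agent.H136.P9

theorem t690 : rng plan 690 1 = true := by decide +kernel
theorem t691 : rng plan 691 1 = true := by decide +kernel
theorem t692 : rng plan 692 1 = true := by decide +kernel
theorem t693 : rng plan 693 1 = true := by decide +kernel
theorem t694 : rng plan 694 1 = true := by decide +kernel
theorem t695 : rng plan 695 1 = true := by decide +kernel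
theorem t696 : rng plan 696 1 = true := by decide +kernel
theorem t697 : rng plan 697 1 = true := by decide +kernel
theorem t698 : rng plan 698 1 = true := by decide +kernel
theorem t699 : rng plan 699 1 = true := by decide +kernel
theorem t700 : rng plan 700 1 = true := by decide +kernel
theorem t701 : rng plan 701 1 = true := by decide +kernel
theorem t702 : rng plan 702 1 = true := by decide +kernel
theorem t703 : rng plan 703 1 = true := by decide +kernel
theorem t704 : rng plan 704 1 = true := by decide +kernel
theorem t705 : rng plan 705 1 = true := by decide +kernel
theorem t706 : rng plan 706 1 = true := by decide +kernel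
theorem t707 : rng plan 707 1 = true := by decide +kernel
theorem t708 : rng plan 708 1 = true := by decide +kernel
theorem t709 : rng plan 709 1 = true := by decide +kernel
theorem t710 : rng plan 710 1 = true := by decide +kernel
theorem t711 : rng plan 711 1 = true := by decide +kernel
theorem t712 : rng plan 712 1 = true := by decide +kernel
theorem t713 : rng plan 713 1 = true := by decide +kernel
theorem t714 : rng plan 714 1 = true := by decide +kernel
theorem t715 : rng plan 715 1 = true := by decide +kernel
theorem t716 : rng plan 716 1 = true := by decide +kernel
theorem t717 : rng plan 717 1 = true := by decide +kernel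
theorem t718 : rng plan 718 1 = true := by decide +kernel
theorem t719 : rng plan 719 1 = true := by decide +kernel

theorem b23 (d : ℕ) (h1 : 690 ≤ d) (h2 : d < 720) : rng plan d 1 = true := by
  interval_cases d
  exacts [t690, t691, t692, t693, t694, t695, t696, t697, t698, t699, t700, t701, t702, t703, t704, t705, t706, t707, t708, t709, t710, t711, t712, t713, t714, t715, t716, t717, t718, t719]

end Cfsg.Agent.H908.P9.Run
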