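import Cfsg.Agent.H728.PM.Run
import Cfsg.Agent.H136.P9.PlanData

/-! # S5925, box H: digit vectors 720 .. 749 (helper908) -/

set_option autoImplicit false
set_option Elab.async false
set_option maxRecDepth 100000

namespace Cfsg.Agent.H908.P9.Run
open Cfsg.Agent.H728.PM Cfsg.Agent.H136.P9

theorem t720 : rng plan 720 1 = true := by decide +kernel
theorem t721 : rng plan 721 1 = true := by decide +kernel
theorem t722 : rng plan 722 1 = true := by decide +kernel
theorem t723 : rng plan 723 1 = true := by decide +kernel
theorem t724 : rng plan 724 1 = true := by decide +kernel
theorem t725 : rng plan 725 1 = true := by decide +kernel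
theorem t726 : rng plan 726 1 = true := by decide +kernel
theorem t727 : rng plan 727 1 = true := by decide +kernel
theorem t728 : rng plan 728 1 = true := by decide +kernel
theorem t729 : rng plan 729 1 = true := by decide +kernel
theorem t730 : rng plan 730 1 = true := by decide +kernel
theorem t731 : rng plan 731 1 = true := by decide +kernel
theorem t732 : rng plan 732 1 = true := by decide +kernel
theorem t733 : rng plan 733 1 = true := by decide +kernel
theorem t734 : rng plan 734 1 = true := by decide +kernel
theorem t735 : rng plan 735 1 = true := by decide +kernel
theorem t736 : rng plan 736 1 = true := by decide +kernel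
theorem t737 : rng plan 737 1 = true := by decide +kernel
theorem t738 : rng plan 738 1 = true := by decide +kernel
theorem t739 : rng plan 739 1 = true := by decide +kernel
theorem t740 : rng plan 740 1 = true := by decide +kernel
theorem t741 : rng plan 741 1 = true := by decide +kernel
theorem t742 : rng plan 742 1 = true := by decide +kernel
theorem t743 : rng plan 743 1 = true := by decide +kernel
theorem t744 : rng plan 744 1 = true := by decide +kernel
theorem t745 : rng plan 745 1 = true := by decide +kernel
theorem t746 : rng plan 746 1 = true := by decide +kernel
theorem t747 : rng plan 747 1 = true := by decide +kernel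
theorem t748 : rng plan 748 1 = true := by decide +kernel
theorem t749 : rng plan 749 1 = true := by decide +kernel

theorem b24 (d : ℕ) (h1 : 720 ≤ d) (h2 : d < 750) : rng plan d 1 = true := by
  interval_cases d
  exacts [t720, t721, t722, t723, t724, t725, t726, t727, t728, t729, t730, t731, t732, t733, t734, t735, t736, t737, t738, t739, t740, t741, t742, t743, t744, t745, t746, t747, t748, t749]

end Cfsg.Agent.H908.P9.Run
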