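import Cfsg.Agent.H728.PM.Run
import Cfsg.Agent.H136.P9.PlanData

/-! # S5925, box H: digit vectors 750 .. 779 (helper908) -/

set_option autoImplicit false
set_option Elab.async false
set_option maxRecDepth 100000

namespace Cfsg.Agent.H908.P9.Run
open Cfsg.Agent.H728.PM Cfsg.Agent.H136.P9

theorem t750 : rng plan 750 1 = true := by decide +kernel
theorem t751 : rng plan 751 1 = true := by decide +kernel
theorem t752 : rng plan 752 1 = true := by decide +kernel
theorem t753 : rng plan 753 1 = true := by decide +kernel
theorem t754 : rng plan 754 1 = true := by decide +kernel
theorem t755 : rng plan 755 1 = true := by decide +kernel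
theorem t756 : rng plan 756 1 = true := by decide +kernel
theorem t757 : rng plan 757 1 = true := by decide +kernel
theorem t758 : rng plan 758 1 = true := by decide +kernel
theorem t759 : rng plan 759 1 = true := by decide +kernel
theorem t760 : rng plan 760 1 = true := by decide +kernel
theorem t761 : rng plan 761 1 = true := by decide +kernel
theorem t762 : rng plan 762 1 = true := by decide +kernel
theorem t763 : rng plan 763 1 = true := by decide +kernel
theorem t764 : rng plan 764 1 = true := by decide +kernel
theorem t765 : rng plan 765 1 = true := by decide +kernel
theorem t766 : rng plan 766 1 = true := by decide +kernel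
theorem t767 : rng plan 767 1 = true := by decide +kernel
theorem t768 : rng plan 768 1 = true := by decide +kernel
theorem t769 : rng plan 769 1 = true := by decide +kernel
theorem t770 : rng plan 770 1 = true := by decide +kernel
theorem t771 : rng plan 771 1 = true := by decide +kernel
theorem t772 : rng plan 772 1 = true := by decide +kernel
theorem t773 : rng plan 773 1 = true := by decide +kernel
theorem t774 : rng plan 774 1 = true := by decide +kernel
theorem t775 : rng plan 775 1 = true := by decide +kernel
theorem t776 : rng plan 776 1 = true := by decide +kernel
theorem t777 : rng plan 777 1 = true := by decide +kernel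
theorem t778 : rng plan 778 1 = true := by decide +kernel
theorem t779 : rng plan 779 1 = true := by decide +kernel

theorem b25 (d : ℕ) (h1 : 750 ≤ d) (h2 : d < 780) : rng plan d 1 = true := by
  interval_cases d
  exacts [t750, t751, t752, t753, t754, t755, t756, t757, t758, t759, t760, t761, t762, t763, t764, t765, t766, t767, t768, t769, t770, t771, t772, t773, t774, t775, t776, t777, t778, t779]

end Cfsg.Agent.H908.P9.Run
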