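import Cfsg.Agent.H728.PM.Run
import Cfsg.Agent.H136.P9.PlanData

/-! # S5925, box H: digit vectors 780 .. 809 (helper908) -/

set_option autoImplicit false
set_option Elab.async false
set_option maxRecDepth 100000

namespace Cfsg.Agent.H908.P9.Run
open Cfsg.Agent.H728.PM Cfsg.Agent.H136.P9

theorem t780 : rng plan 780 1 = true := by decide +kernel
theorem t781 : rng plan 781 1 = true := by decide +kernel
theorem t782 : rng plan 782 1 = true := by decide +kernel
theorem t783 : rng plan 783 1 = true := by decide +kernel
theorem t784 : rng plan 784 1 = true := by decide +kernel
theorem t785 : rng plan 785 1 = true := by decide +kernel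
theorem t786 : rng plan 786 1 = true := by decide +kernel
theorem t787 : rng plan 787 1 = true := by decide +kernel
theorem t788 : rng plan 788 1 = true := by decide +kernel
theorem t789 : rng plan 789 1 = true := by decide +kernel
theorem t790 : rng plan 790 1 = true := by decide +kernel
theorem t791 : rng plan 791 1 = true := by decide +kernel
theorem t792 : rng plan 792 1 = true := by decide +kernel
theorem t793 : rng plan 793 1 = true := by decide +kernel
theorem t794 : rng plan 794 1 = true := by decide +kernel
theorem t795 : rng plan 795 1 = true := by decide +kernel
theorem t796 : rng plan 796 1 = true := by decide +kernel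
theorem t797 : rng plan 797 1 = true := by decide +kernel
theorem t798 : rng plan 798 1 = true := by decide +kernel
theorem t799 : rng plan 799 1 = true := by decide +kernel
theorem t800 : rng plan 800 1 = true := by decide +kernel
theorem t801 : rng plan 801 1 = true := by decide +kernel
theorem t802 : rng plan 802 1 = true := by decide +kernel
theorem t803 : rng plan 803 1 = true := by decide +kernel
theorem t804 : rng plan 804 1 = true := by decide +kernel
theorem t805 : rng plan 805 1 = true := by decide +kernel
theorem t806 : rng plan 806 1 = true := by decide +kernel
theorem t807 : rng plan 807 1 = true := by decide +kernel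
theorem t808 : rng plan 808 1 = true := by decide +kernel
theorem t809 : rng plan 809 1 = true := by decide +kernel

theorem b26 (d : ℕ) (h1 : 780 ≤ d) (h2 : d < 810) : rng plan d 1 = true := by
  interval_cases d
  exacts [t780, t781, t782, t783, t784, t785, t786, t787, t788, t789, t790, t791, t792, t793, t794, t795, t796, t797, t798, t799, t800, t801, t802, t803, t804, t805, t806, t807, t808, t809]

end Cfsg.Agent.H908.P9.Run
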