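import Cfsg.Agent.H728.PM.Run
import Cfsg.Agent.H136.P9.PlanData

/-! # S5925, box H: digit vectors 810 .. 839 (helper908) -/

set_option autoImplicit false
set_option Elab.async false
set_option maxRecDepth 100000

namespace Cfsg.Agent.H908.P9.Run
open Cfsg.Agent.H728.PM Cfsg.Agent.H136.P9

theorem t810 : rng plan 810 1 = true := by decide +kernel
theorem t811 : rng plan 811 1 = true := by decide +kernel
theorem t812 : rng plan 812 1 = true := by decide +kernel
theorem t813 : rng plan 813 1 = true := by decide +kernel
theorem t814 : rng plan 814 1 = true := by decide +kernel
theorem t815 : rng plan 815 1 = true := by decide +kernel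
theorem t816 : rng plan 816 1 = true := by decide +kernel
theorem t817 : rng plan 817 1 = true := by decide +kernel
theorem t818 : rng plan 818 1 = true := by decide +kernel
theorem t819 : rng plan 819 1 = true := by decide +kernel
theorem t820 : rng plan 820 1 = true := by decide +kernel
theorem t821 : rng plan 821 1 = true := by decide +kernel
theorem t822 : rng plan 822 1 = true := by decide +kernel
theorem t823 : rng plan 823 1 = true := by decide +kernel
theorem t824 : rng plan 824 1 = true := by decide +kernel
theorem t825 : rng plan 825 1 = true := by decide +kernel
theorem t826 : rng plan 826 1 = true := by decide +kernel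
theorem t827 : rng plan 827 1 = true := by decide +kernel
theorem t828 : rng plan 828 1 = true := by decide +kernel
theorem t829 : rng plan 829 1 = true := by decide +kernel
theorem t830 : rng plan 830 1 = true := by decide +kernel
theorem t831 : rng plan 831 1 = true := by decide +kernel
theorem t832 : rng plan 832 1 = true := by decide +kernel
theorem t833 : rng plan 833 1 = true := by decide +kernel
theorem t834 : rng plan 834 1 = true := by decide +kernel
theorem t835 : rng plan 835 1 = true := by decide +kernel
theorem t836 : rng plan 836 1 = true := by decide +kernel
theorem t837 : rng plan 837 1 = true := by decide +kernel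
theorem t838 : rng plan 838 1 = true := by decide +kernel
theorem t839 : rng plan 839 1 = true := by decide +kernel

theorem b27 (d : ℕ) (h1 : 810 ≤ d) (h2 : d < 840) : rng plan d 1 = true := by
  interval_cases d
  exacts [t810, t811, t812, t813, t814, t815, t816, t817, t818, t819, t820, t821, t822, t823, t824, t825, t826, t827, t828, t829, t830, t831, t832, t833, t834, t835, t836, t837, t838, t839]

end Cfsg.Agent.H908.P9.Run
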