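import Cfsg.Agent.H728.PM.Run
import Cfsg.Agent.H136.P9.PlanData

/-! # S5925, box H: digit vectors 840 .. 869 (helper908) -/

set_option autoImplicit false
set_option Elab.async false
set_option maxRecDepth 100000

namespace Cfsg.Agent.H908.P9.Run
open Cfsg.Agent.H728.PM Cfsg.Agent.H136.P9

theorem t840 : rng plan 840 1 = true := by decide +kernel
theorem t841 : rng plan 841 1 = true := by decide +kernel
theorem t842 : rng plan 842 1 = true := by decide +kernel
theorem t843 : rng plan 843 1 = true := by decide +kernel
theorem t844 : rng plan 844 1 = true := by decide +kernel
theorem t845 : rng plan 845 1 = true := by decide +kernel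
theorem t846 : rng plan 846 1 = true := by decide +kernel
theorem t847 : rng plan 847 1 = true := by decide +kernel
theorem t848 : rng plan 848 1 = true := by decide +kernel
theorem t849 : rng plan 849 1 = true := by decide +kernel
theorem t850 : rng plan 850 1 = true := by decide +kernel
theorem t851 : rng plan 851 1 = true := by decide +kernel
theorem t852 : rng plan 852 1 = true := by decide +kernel
theorem t853 : rng plan 853 1 = true := by decide +kernel
theorem t854 : rng plan 854 1 = true := by decide +kernel
theorem t855 : rng plan 855 1 = true := by decide +kernel
theorem t856 : rng plan 856 1 = true := by decide +kernel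
theorem t857 : rng plan 857 1 = true := by decide +kernel
theorem t858 : rng plan 858 1 = true := by decide +kernel
theorem t859 : rng plan 859 1 = true := by decide +kernel
theorem t860 : rng plan 860 1 = true := by decide +kernel
theorem t861 : rng plan 861 1 = true := by decide +kernel
theorem t862 : rng plan 862 1 = true := by decide +kernel
theorem t863 : rng plan 863 1 = true := by decide +kernel
theorem t864 : rng plan 864 1 = true := by decide +kernel
theorem t865 : rng plan 865 1 = true := by decide +kernel
theorem t866 : rng plan 866 1 = true := by decide +kernel
theorem t867 : rng plan 867 1 = true := by decide +kernel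
theorem t868 : rng plan 868 1 = true := by decide +kernel
theorem t869 : rng plan 869 1 = true := by decide +kernel

theorem b28 (d : ℕ) (h1 : 840 ≤ d) (h2 : d < 870) : rng plan d 1 = true := by
  interval_cases d
  exacts [t840, t841, t842, t843, t844, t845, t846, t847, t848, t849, t850, t851, t852, t853, t854, t855, t856, t857, t858, t859, t860, t861, t862, t863, t864, t865, t866, t867, t868, t869]

end Cfsg.Agent.H908.P9.Run
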