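import Cfsg.Agent.H728.PM.Run
import Cfsg.Agent.H136.P9.PlanData

/-! # S5925, box H: digit vectors 870 .. 899 (helper908) -/

set_option autoImplicit false
set_option Elab.async false
set_option maxRecDepth 100000

namespace Cfsg.Agent.H908.P9.Run
open Cfsg.Agent.H728.PM Cfsg.Agent.H136.P9

theorem t870 : rng plan 870 1 = true := by decide +kernel
theorem t871 : rng plan 871 1 = true := by decide +kernel
theorem t872 : rng plan 872 1 = true := by decide +kernel
theorem t873 : rng plan 873 1 = true := by decide +kernel
theorem t874 : rng plan 874 1 = true := by decide +kernel
theorem t875 : rng plan 875 1 = true := by decide +kernel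
theorem t876 : rng plan 876 1 = true := by decide +kernel
theorem t877 : rng plan 877 1 = true := by decide +kernel
theorem t878 : rng plan 878 1 = true := by decide +kernel
theorem t879 : rng plan 879 1 = true := by decide +kernel
theorem t880 : rng plan 880 1 = true := by decide +kernel
theorem t881 : rng plan 881 1 = true := by decide +kernel
theorem t882 : rng plan 882 1 = true := by decide +kernel
theorem t883 : rng plan 883 1 = true := by decide +kernel
theorem t884 : rng plan 884 1 = true := by decide +kernel
theorem t885 : rng plan 885 1 = true := by decide +kernel
theorem t886 : rng plan 886 1 = true := by decide +kernel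
theorem t887 : rng plan 887 1 = true := by decide +kernel
theorem t888 : rng plan 888 1 = true := by decide +kernel
theorem t889 : rng plan 889 1 = true := by decide +kernel
theorem t890 : rng plan 890 1 = true := by decide +kernel
theorem t891 : rng plan 891 1 = true := by decide +kernel
theorem t892 : rng plan 892 1 = true := by decide +kernel
theorem t893 : rng plan 893 1 = true := by decide +kernel
theorem t894 : rng plan 894 1 = true := by decide +kernel
theorem t895 : rng plan 895 1 = true := by decide +kernel
theorem t896 : rng plan 896 1 = true := by decide +kernel
theorem t897 : rng plan 897 1 = true := by decide +kernel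
theorem t898 : rng plan 898 1 = true := by decide +kernel
theorem t899 : rng plan 899 1 = true := by decide +kernel

theorem b29 (d : ℕ) (h1 : 870 ≤ d) (h2 : d < 900) : rng plan d 1 = true := by
  interval_cases d
  exacts [t870, t871, t872, t873, t874, t875, t876, t877, t878, t879, t880, t881, t882, t883, t884, t885, t886, t887, t888, t889, t890, t891, t892, t893, t894, t895, t896, t897, t898, t899]

end Cfsg.Agent.H908.P9.Run
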