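import Cfsg.Agent.H728.PM.Run
import Cfsg.Agent.H136.P9.PlanData

/-! # S5925, box H: digit vectors 900 .. 929 (helper908) -/

set_option autoImplicit false
set_option Elab.async false
set_option maxRecDepth 100000

namespace Cfsg.Agent.H908.P9.Run
open Cfsg.Agent.H728.PM Cfsg.Agent.H136.P9

theorem t900 : rng plan 900 1 = true := by decide +kernel
theorem t901 : rng plan 901 1 = true := by decide +kernel
theorem t902 : rng plan 902 1 = true := by decide +kernel
theorem t903 : rng plan 903 1 = true := by decide +kernel
theorem t904 : rng plan 904 1 = true := by decide +kernel
theorem t905 : rng plan 905 1 = true := by decide +kernel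
theorem t906 : rng plan 906 1 = true := by decide +kernel
theorem t907 : rng plan 907 1 = true := by decide +kernel
theorem t908 : rng plan 908 1 = true := by decide +kernel
theorem t909 : rng plan 909 1 = true := by decide +kernel
theorem t910 : rng plan 910 1 = true := by decide +kernel
theorem t911 : rng plan 911 1 = true := by decide +kernel
theorem t912 : rng plan 912 1 = true := by decide +kernel
theorem t913 : rng plan 913 1 = true := by decide +kernel
theorem t914 : rng plan 914 1 = true := by decide +kernel
theorem t915 : rng plan 915 1 = true := by decide +kernel
theorem t916 : rng plan 916 1 = true := by decide +kernel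
theorem t917 : rng plan 917 1 = true := by decide +kernel
theorem t918 : rng plan 918 1 = true := by decide +kernel
theorem t919 : rng plan 919 1 = true := by decide +kernel
theorem t920 : rng plan 920 1 = true := by decide +kernel
theorem t921 : rng plan 921 1 = true := by decide +kernel
theorem t922 : rng plan 922 1 = true := by decide +kernel
theorem t923 : rng plan 923 1 = true := by decide +kernel
theorem t924 : rng plan 924 1 = true := by decide +kernel
theorem t925 : rng plan 925 1 = true := by decide +kernel
theorem t926 : rng plan 926 1 = true := by decide +kernel
theorem t927 : rng plan 927 1 = true := by decide +kernel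
theorem t928 : rng plan 928 1 = true := by decide +kernel
theorem t929 : rng plan 929 1 = true := by decide +kernel

theorem b30 (d : ℕ) (h1 : 900 ≤ d) (h2 : d < 930) : rng plan d 1 = true := by
  interval_cases d
  exacts [t900, t901, t902, t903, t904, t905, t906, t907, t908, t909, t910, t911, t912, t913, t914, t915, t916, t917, t918, t919, t920, t921, t922, t923, t924, t925, t926, t927, t928, t929]

end Cfsg.Agent.H908.P9.Run
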