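import Cfsg.Agent.H728.PM.Run
import Cfsg.Agent.H136.P9.PlanData

/-! # S5925, box H: digit vectors 930 .. 959 (helper908) -/

set_option autoImplicit false
set_option Elab.async false
set_option maxRecDepth 100000

namespace Cfsg.Agent.H908.P9.Run
open Cfsg.Agent.H728.PM Cfsg.Agent.H136.P9

theorem t930 : rng plan 930 1 = true := by decide +kernel
theorem t931 : rng plan 931 1 = true := by decide +kernel
theorem t932 : rng plan 932 1 = true := by decide +kernel
theorem t933 : rng plan 933 1 = true := by decide +kernel
theorem t934 : rng plan 934 1 = true := by decide +kernel
theorem t935 : rng plan 935 1 = true := by decide +kernel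
theorem t936 : rng plan 936 1 = true := by decide +kernel
theorem t937 : rng plan 937 1 = true := by decide +kernel
theorem t938 : rng plan 938 1 = true := by decide +kernel
theorem t939 : rng plan 939 1 = true := by decide +kernel
theorem t940 : rng plan 940 1 = true := by decide +kernel
theorem t941 : rng plan 941 1 = true := by decide +kernel
theorem t942 : rng plan 942 1 = true := by decide +kernel
theorem t943 : rng plan 943 1 = true := by decide +kernel
theorem t944 : rng plan 944 1 = true := by decide +kernel
theorem t945 : rng plan 945 1 = true := by decide +kernel
theorem t946 : rng plan 946 1 = true := by decide +kernel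
theorem t947 : rng plan 947 1 = true := by decide +kernel
theorem t948 : rng plan 948 1 = true := by decide +kernel
theorem t949 : rng plan 949 1 = true := by decide +kernel
theorem t950 : rng plan 950 1 = true := by decide +kernel
theorem t951 : rng plan 951 1 = true := by decide +kernel
theorem t952 : rng plan 952 1 = true := by decide +kernel
theorem t953 : rng plan 953 1 = true := by decide +kernel
theorem t954 : rng plan 954 1 = true := by decide +kernel
theorem t955 : rng plan 955 1 = true := by decide +kernel
theorem t956 : rng plan 956 1 = true := by decide +kernel
theorem t957 : rng plan 957 1 = true := by decide +kernel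
theorem t958 : rng plan 958 1 = true := by decide +kernel
theorem t959 : rng plan 959 1 = true := by decide +kernel

theorem b31 (d : ℕ) (h1 : 930 ≤ d) (h2 : d < 960) : rng plan d 1 = true := by
  interval_cases d
  exacts [t930, t931, t932, t933, t934, t935, t936, t937, t938, t939, t940, t941, t942, t943, t944, t945, t946, t947, t948, t949, t950, t951, t952, t953, t954, t955, t956, t957, t958, t959]

end Cfsg.Agent.H908.P9.Run
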