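import Cfsg.Agent.H728.PM.Run
import Cfsg.Agent.H136.P9.PlanData

/-! # S5925, box H: digit vectors 960 .. 989 (helper908) -/

set_option autoImplicit false
set_option Elab.async false
set_option maxRecDepth 100000

namespace Cfsg.Agent.H908.P9.Run
open Cfsg.Agent.H728.PM Cfsg.Agent.H136.P9

theorem t960 : rng plan 960 1 = true := by decide +kernel
theorem t961 : rng plan 961 1 = true := by decide +kernel
theorem t962 : rng plan 962 1 = true := by decide +kernel
theorem t963 : rng plan 963 1 = true := by decide +kernel
theorem t964 : rng plan 964 1 = true := by decide +kernel
theorem t965 : rng plan 965 1 = true := by decide +kernel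
theorem t966 : rng plan 966 1 = true := by decide +kernel
theorem t967 : rng plan 967 1 = true := by decide +kernel
theorem t968 : rng plan 968 1 = true := by decide +kernel
theorem t969 : rng plan 969 1 = true := by decide +kernel
theorem t970 : rng plan 970 1 = true := by decide +kernel
theorem t971 : rng plan 971 1 = true := by decide +kernel
theorem t972 : rng plan 972 1 = true := by decide +kernel
theorem t973 : rng plan 973 1 = true := by decide +kernel
theorem t974 : rng plan 974 1 = true := by decide +kernel
theorem t975 : rng plan 975 1 = true := by decide +kernel
theorem t976 : rng plan 976 1 = true := by decide +kernel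
theorem t977 : rng plan 977 1 = true := by decide +kernel
theorem t978 : rng plan 978 1 = true := by decide +kernel
theorem t979 : rng plan 979 1 = true := by decide +kernel
theorem t980 : rng plan 980 1 = true := by decide +kernel
theorem t981 : rng plan 981 1 = true := by decide +kernel
theorem t982 : rng plan 982 1 = true := by decide +kernel
theorem t983 : rng plan 983 1 = true := by decide +kernel
theorem t984 : rng plan 984 1 = true := by decide +kernel
theorem t985 : rng plan 985 1 = true := by decide +kernel
theorem t986 : rng plan 986 1 = true := by decide +kernel
theorem t987 : rng plan 987 1 = true := by decide +kernel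
theorem t988 : rng plan 988 1 = true := by decide +kernel
theorem t989 : rng plan 989 1 = true := by decide +kernel

theorem b32 (d : ℕ) (h1 : 960 ≤ d) (h2 : d < 990) : rng plan d 1 = true := by
  interval_cases d
  exacts [t960, t961, t962, t963, t964, t965, t966, t967, t968, t969, t970, t971, t972, t973, t974, t975, t976, t977, t978, t979, t980, t981, t982, t983, t984, t985, t986, t987, t988, t989]

end Cfsg.Agent.H908.P9.Run
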