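import Cfsg.Agent.H728.PM.Run
import Cfsg.Agent.H136.P9.PlanData

/-! # S5925, box H: digit vectors 990 .. 1019 (helper908) -/

set_option autoImplicit false
set_option Elab.async false
set_option maxRecDepth 100000

namespace Cfsg.Agent.H908.P9.Run
open Cfsg.Agent.H728.PM Cfsg.Agent.H136.P9

theorem t990 : rng plan 990 1 = true := by decide +kernel
theorem t991 : rng plan 991 1 = true := by decide +kernel
theorem t992 : rng plan 992 1 = true := by decide +kernel
theorem t993 : rng plan 993 1 = true := by decide +kernel
theorem t994 : rng plan 994 1 = true := by decide +kernel
theorem t995 : rng plan 995 1 = true := by decide +kernel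
theorem t996 : rng plan 996 1 = true := by decide +kernel
theorem t997 : rng plan 997 1 = true := by decide +kernel
theorem t998 : rng plan 998 1 = true := by decide +kernel
theorem t999 : rng plan 999 1 = true := by decide +kernel
theorem t1000 : rng plan 1000 1 = true := by decide +kernel
theorem t1001 : rng plan 1001 1 = true := by decide +kernel
theorem t1002 : rng plan 1002 1 = true := by decide +kernel
theorem t1003 : rng plan 1003 1 = true := by decide +kernel
theorem t1004 : rng plan 1004 1 = true := by decide +kernel
theorem t1005 : rng plan 1005 1 = true := by decide +kernel
theorem t1006 : rng plan 1006 1 = true := by decide +kernel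
theorem t1007 : rng plan 1007 1 = true := by decide +kernel
theorem t1008 : rng plan 1008 1 = true := by decide +kernel
theorem t1009 : rng plan 1009 1 = true := by decide +kernel
theorem t1010 : rng plan 1010 1 = true := by decide +kernel
theorem t1011 : rng plan 1011 1 = true := by decide +kernel
theorem t1012 : rng plan 1012 1 = true := by decide +kernel
theorem t1013 : rng plan 1013 1 = true := by decide +kernel
theorem t1014 : rng plan 1014 1 = true := by decide +kernel
theorem t1015 : rng plan 1015 1 = true := by decide +kernel
theorem t1016 : rng plan 1016 1 = true := by decide +kernel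
theorem t1017 : rng plan 1017 1 = true := by decide +kernel
theorem t1018 : rng plan 1018 1 = true := by decide +kernel
theorem t1019 : rng plan 1019 1 = true := by decide +kernel

theorem b33 (d : ℕ) (h1 : 990 ≤ d) (h2 : d < 1020) : rng plan d 1 = true := by
  interval_cases d
  exacts [t990, t991, t992, t993, t994, t995, t996, t997, t998, t999, t1000, t1001, t1002, t1003, t1004, t1005, t1006, t1007, t1008, t1009, t1010, t1011, t1012, t1013, t1014, t1015, t1016, t1017, t1018, t1019]

end Cfsg.Agent.H908.P9.Run
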