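import Cfsg.Agent.H728.PM.Run
import Cfsg.Agent.H136.P9.PlanData

/-! # S5925, box H: digit vectors 1020 .. 1049 (helper908) -/

set_option autoImplicit false
set_option Elab.async false
set_option maxRecDepth 100000

namespace Cfsg.Agent.H908.P9.Run
open Cfsg.Agent.H728.PM Cfsg.Agent.H136.P9

theorem t1020 : rng plan 1020 1 = true := by decide +kernel
theorem t1021 : rng plan 1021 1 = true := by decide +kernel
theorem t1022 : rng plan 1022 1 = true := by decide +kernel
theorem t1023 : rng plan 1023 1 = true := by decide +kernel
theorem t1024 : rng plan 1024 1 = true := by decide +kernel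
theorem t1025 : rng plan 1025 1 = true := by decide +kernel
theorem t1026 : rng plan 1026 1 = true := by decide +kernel
theorem t1027 : rng plan 1027 1 = true := by decide +kernel
theorem t1028 : rng plan 1028 1 = true := by decide +kernel
theorem t1029 : rng plan 1029 1 = true := by decide +kernel
theorem t1030 : rng plan 1030 1 = true := by decide +kernel
theorem t1031 : rng plan 1031 1 = true := by decide +kernel
theorem t1032 : rng plan 1032 1 = true := by decide +kernel
theorem t1033 : rng plan 1033 1 = true := by decide +kernel
theorem t1034 : rng plan 1034 1 = true := by decide +kernel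
theorem t1035 : rng plan 1035 1 = true := by decide +kernel
theorem t1036 : rng plan 1036 1 = true := by decide +kernel
theorem t1037 : rng plan 1037 1 = true := by decide +kernel
theorem t1038 : rng plan 1038 1 = true := by decide +kernel
theorem t1039 : rng plan 1039 1 = true := by decide +kernel
theorem t1040 : rng plan 1040 1 = true := by decide +kernel
theorem t1041 : rng plan 1041 1 = true := by decide +kernel
theorem t1042 : rng plan 1042 1 = true := by decide +kernel
theorem t1043 : rng plan 1043 1 = true := by decide +kernel
theorem t1044 : rng plan 1044 1 = true := by decide +kernel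
theorem t1045 : rng plan 1045 1 = true := by decide +kernel
theorem t1046 : rng plan 1046 1 = true := by decide +kernel
theorem t1047 : rng plan 1047 1 = true := by decide +kernel
theorem t1048 : rng plan 1048 1 = true := by decide +kernel
theorem t1049 : rng plan 1049 1 = true := by decide +kernel

theorem b34 (d : ℕ) (h1 : 1020 ≤ d) (h2 : d < 1050) : rng plan d 1 = true := by
  interval_cases d
  exacts [t1020, t1021, t1022, t1023, t1024, t1025, t1026, t1027, t1028, t1029, t1030, t1031, t1032, t1033, t1034, t1035, t1036, t1037, t1038, t1039, t1040, t1041, t1042, t1043, t1044, t1045, t1046, t1047, t1048, t1049]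

end Cfsg.Agent.H908.P9.Run
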