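import Cfsg.Agent.H728.PM.Run
import Cfsg.Agent.H136.P9.PlanData

/-! # S5925, box H: digit vectors 1050 .. 1079 (helper908) -/

set_option autoImplicit false
set_option Elab.async false
set_option maxRecDepth 100000

namespace Cfsg.Agent.H908.P9.Run
open Cfsg.Agent.H728.PM Cfsg.Agent.H136.P9

theorem t1050 : rng plan 1050 1 = true := by decide +kernel
theorem t1051 : rng plan 1051 1 = true := by decide +kernel
theorem t1052 : rng plan 1052 1 = true := by decide +kernel
theorem t1053 : rng plan 1053 1 = true := by decide +kernel
theorem t1054 : rng plan 1054 1 = true := by decide +kernel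
theorem t1055 : rng plan 1055 1 = true := by decide +kernel
theorem t1056 : rng plan 1056 1 = true := by decide +kernel
theorem t1057 : rng plan 1057 1 = true := by decide +kernel
theorem t1058 : rng plan 1058 1 = true := by decide +kernel
theorem t1059 : rng plan 1059 1 = true := by decide +kernel
theorem t1060 : rng plan 1060 1 = true := by decide +kernel
theorem t1061 : rng plan 1061 1 = true := by decide +kernel
theorem t1062 : rng plan 1062 1 = true := by decide +kernel
theorem t1063 : rng plan 1063 1 = true := by decide +kernel
theorem t1064 : rng plan 1064 1 = true := by decide +kernel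
theorem t1065 : rng plan 1065 1 = true := by decide +kernel
theorem t1066 : rng plan 1066 1 = true := by decide +kernel
theorem t1067 : rng plan 1067 1 = true := by decide +kernel
theorem t1068 : rng plan 1068 1 = true := by decide +kernel
theorem t1069 : rng plan 1069 1 = true := by decide +kernel
theorem t1070 : rng plan 1070 1 = true := by decide +kernel
theorem t1071 : rng plan 1071 1 = true := by decide +kernel
theorem t1072 : rng plan 1072 1 = true := by decide +kernel
theorem t1073 : rng plan 1073 1 = true := by decide +kernel
theorem t1074 : rng plan 1074 1 = true := by decide +kernel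
theorem t1075 : rng plan 1075 1 = true := by decide +kernel
theorem t1076 : rng plan 1076 1 = true := by decide +kernel
theorem t1077 : rng plan 1077 1 = true := by decide +kernel
theorem t1078 : rng plan 1078 1 = true := by decide +kernel
theorem t1079 : rng plan 1079 1 = true := by decide +kernel

theorem b35 (d : ℕ) (h1 : 1050 ≤ d) (h2 : d < 1080) : rng plan d 1 = true := by
  interval_cases d
  exacts [t1050, t1051, t1052, t1053, t1054, t1055, t1056, t1057, t1058, t1059, t1060, t1061, t1062, t1063, t1064, t1065, t1066, t1067, t1068, t1069, t1070, t1071, t1072, t1073, t1074, t1075, t1076, t1077, t1078, t1079]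

end Cfsg.Agent.H908.P9.Run
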