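import Cfsg.Agent.H728.PM.Run
import Cfsg.Agent.H136.P9.PlanData

/-! # S5925, box H: digit vectors 1080 .. 1109 (helper908) -/

set_option autoImplicit false
set_option Elab.async false
set_option maxRecDepth 100000

namespace Cfsg.Agent.H908.P9.Run
open Cfsg.Agent.H728.PM Cfsg.Agent.H136.P9

theorem t1080 : rng plan 1080 1 = true := by decide +kernel
theorem t1081 : rng plan 1081 1 = true := by decide +kernel
theorem t1082 : rng plan 1082 1 = true := by decide +kernel
theorem t1083 : rng plan 1083 1 = true := by decide +kernel
theorem t1084 : rng plan 1084 1 = true := by decide +kernel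
theorem t1085 : rng plan 1085 1 = true := by decide +kernel
theorem t1086 : rng plan 1086 1 = true := by decide +kernel
theorem t1087 : rng plan 1087 1 = true := by decide +kernel
theorem t1088 : rng plan 1088 1 = true := by decide +kernel
theorem t1089 : rng plan 1089 1 = true := by decide +kernel
theorem t1090 : rng plan 1090 1 = true := by decide +kernel
theorem t1091 : rng plan 1091 1 = true := by decide +kernel
theorem t1092 : rng plan 1092 1 = true := by decide +kernel
theorem t1093 : rng plan 1093 1 = true := by decide +kernel
theorem t1094 : rng plan 1094 1 = true := by decide +kernel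
theorem t1095 : rng plan 1095 1 = true := by decide +kernel
theorem t1096 : rng plan 1096 1 = true := by decide +kernel
theorem t1097 : rng plan 1097 1 = true := by decide +kernel
theorem t1098 : rng plan 1098 1 = true := by decide +kernel
theorem t1099 : rng plan 1099 1 = true := by decide +kernel
theorem t1100 : rng plan 1100 1 = true := by decide +kernel
theorem t1101 : rng plan 1101 1 = true := by decide +kernel
theorem t1102 : rng plan 1102 1 = true := by decide +kernel
theorem t1103 : rng plan 1103 1 = true := by decide +kernel
theorem t1104 : rng plan 1104 1 = true := by decide +kernel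
theorem t1105 : rng plan 1105 1 = true := by decide +kernel
theorem t1106 : rng plan 1106 1 = true := by decide +kernel
theorem t1107 : rng plan 1107 1 = true := by decide +kernel
theorem t1108 : rng plan 1108 1 = true := by decide +kernel
theorem t1109 : rng plan 1109 1 = true := by decide +kernel

theorem b36 (d : ℕ) (h1 : 1080 ≤ d) (h2 : d < 1110) : rng plan d 1 = true := by
  interval_cases d
  exacts [t1080, t1081, t1082, t1083, t1084, t1085, t1086, t1087, t1088, t1089, t1090, t1091, t1092, t1093, t1094, t1095, t1096, t1097, t1098, t1099, t1100, t1101, t1102, t1103, t1104, t1105, t1106, t1107, t1108, t1109]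

end Cfsg.Agent.H908.P9.Run
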