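import Cfsg.Agent.H728.PM.Run
import Cfsg.Agent.H136.P9.PlanData

/-! # S5925, box H: digit vectors 1110 .. 1139 (helper908) -/

set_option autoImplicit false
set_option Elab.async false
set_option maxRecDepth 100000

namespace Cfsg.Agent.H908.P9.Run
open Cfsg.Agent.H728.PM Cfsg.Agent.H136.P9

theorem t1110 : rng plan 1110 1 = true := by decide +kernel
theorem t1111 : rng plan 1111 1 = true := by decide +kernel
theorem t1112 : rng plan 1112 1 = true := by decide +kernel
theorem t1113 : rng plan 1113 1 = true := by decide +kernel
theorem t1114 : rng plan 1114 1 = true := by decide +kernel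
theorem t1115 : rng plan 1115 1 = true := by decide +kernel
theorem t1116 : rng plan 1116 1 = true := by decide +kernel
theorem t1117 : rng plan 1117 1 = true := by decide +kernel
theorem t1118 : rng plan 1118 1 = true := by decide +kernel
theorem t1119 : rng plan 1119 1 = true := by decide +kernel
theorem t1120 : rng plan 1120 1 = true := by decide +kernel
theorem t1121 : rng plan 1121 1 = true := by decide +kernel
theorem t1122 : rng plan 1122 1 = true := by decide +kernel
theorem t1123 : rng plan 1123 1 = true := by decide +kernel
theorem t1124 : rng plan 1124 1 = true := by decide +kernel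
theorem t1125 : rng plan 1125 1 = true := by decide +kernel
theorem t1126 : rng plan 1126 1 = true := by decide +kernel
theorem t1127 : rng plan 1127 1 = true := by decide +kernel
theorem t1128 : rng plan 1128 1 = true := by decide +kernel
theorem t1129 : rng plan 1129 1 = true := by decide +kernel
theorem t1130 : rng plan 1130 1 = true := by decide +kernel
theorem t1131 : rng plan 1131 1 = true := by decide +kernel
theorem t1132 : rng plan 1132 1 = true := by decide +kernel
theorem t1133 : rng plan 1133 1 = true := by decide +kernel
theorem t1134 : rng plan 1134 1 = true := by decide +kernel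
theorem t1135 : rng plan 1135 1 = true := by decide +kernel
theorem t1136 : rng plan 1136 1 = true := by decide +kernel
theorem t1137 : rng plan 1137 1 = true := by decide +kernel
theorem t1138 : rng plan 1138 1 = true := by decide +kernel
theorem t1139 : rng plan 1139 1 = true := by decide +kernel

theorem b37 (d : ℕ) (h1 : 1110 ≤ d) (h2 : d < 1140) : rng plan d 1 = true := by
  interval_cases d
  exacts [t1110, t1111, t1112, t1113, t1114, t1115, t1116, t1117, t1118, t1119, t1120, t1121, t1122, t1123, t1124, t1125, t1126, t1127, t1128, t1129, t1130, t1131, t1132, t1133, t1134, t1135, t1136, t1137, t1138, t1139]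

end Cfsg.Agent.H908.P9.Run
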