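import Cfsg.Agent.H728.PM.Run
import Cfsg.Agent.H136.P9.PlanData

/-! # S5925, box H: digit vectors 1140 .. 1169 (helper908) -/

set_option autoImplicit false
set_option Elab.async false
set_option maxRecDepth 100000

namespace Cfsg.Agent.H908.P9.Run
open Cfsg.Agent.H728.PM Cfsg.Agent.H136.P9

theorem t1140 : rng plan 1140 1 = true := by decide +kernel
theorem t1141 : rng plan 1141 1 = true := by decide +kernel
theorem t1142 : rng plan 1142 1 = true := by decide +kernel
theorem t1143 : rng plan 1143 1 = true := by decide +kernel
theorem t1144 : rng plan 1144 1 = true := by decide +kernel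
theorem t1145 : rng plan 1145 1 = true := by decide +kernel
theorem t1146 : rng plan 1146 1 = true := by decide +kernel
theorem t1147 : rng plan 1147 1 = true := by decide +kernel
theorem t1148 : rng plan 1148 1 = true := by decide +kernel
theorem t1149 : rng plan 1149 1 = true := by decide +kernel
theorem t1150 : rng plan 1150 1 = true := by decide +kernel
theorem t1151 : rng plan 1151 1 = true := by decide +kernel
theorem t1152 : rng plan 1152 1 = true := by decide +kernel
theorem t1153 : rng plan 1153 1 = true := by decide +kernel
theorem t1154 : rng plan 1154 1 = true := by decide +kernel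
theorem t1155 : rng plan 1155 1 = true := by decide +kernel
theorem t1156 : rng plan 1156 1 = true := by decide +kernel
theorem t1157 : rng plan 1157 1 = true := by decide +kernel
theorem t1158 : rng plan 1158 1 = true := by decide +kernel
theorem t1159 : rng plan 1159 1 = true := by decide +kernel
theorem t1160 : rng plan 1160 1 = true := by decide +kernel
theorem t1161 : rng plan 1161 1 = true := by decide +kernel
theorem t1162 : rng plan 1162 1 = true := by decide +kernel
theorem t1163 : rng plan 1163 1 = true := by decide +kernel
theorem t1164 : rng plan 1164 1 = true := by decide +kernel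
theorem t1165 : rng plan 1165 1 = true := by decide +kernel
theorem t1166 : rng plan 1166 1 = true := by decide +kernel
theorem t1167 : rng plan 1167 1 = true := by decide +kernel
theorem t1168 : rng plan 1168 1 = true := by decide +kernel
theorem t1169 : rng plan 1169 1 = true := by decide +kernel

theorem b38 (d : ℕ) (h1 : 1140 ≤ d) (h2 : d < 1170) : rng plan d 1 = true := by
  interval_cases d
  exacts [t1140, t1141, t1142, t1143, t1144, t1145, t1146, t1147, t1148, t1149, t1150, t1151, t1152, t1153, t1154, t1155, t1156, t1157, t1158, t1159, t1160, t1161, t1162, t1163, t1164, t1165, t1166, t1167, t1168, t1169]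

end Cfsg.Agent.H908.P9.Run
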