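import Cfsg.Agent.H728.PM.Run
import Cfsg.Agent.H136.P9.PlanData

/-! # S5925, box H: digit vectors 1170 .. 1199 (helper908) -/

set_option autoImplicit false
set_option Elab.async false
set_option maxRecDepth 100000

namespace Cfsg.Agent.H908.P9.Run
open Cfsg.Agent.H728.PM Cfsg.Agent.H136.P9

theorem t1170 : rng plan 1170 1 = true := by decide +kernel
theorem t1171 : rng plan 1171 1 = true := by decide +kernel
theorem t1172 : rng plan 1172 1 = true := by decide +kernel
theorem t1173 : rng plan 1173 1 = true := by decide +kernel
theorem t1174 : rng plan 1174 1 = true := by decide +kernel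
theorem t1175 : rng plan 1175 1 = true := by decide +kernel
theorem t1176 : rng plan 1176 1 = true := by decide +kernel
theorem t1177 : rng plan 1177 1 = true := by decide +kernel
theorem t1178 : rng plan 1178 1 = true := by decide +kernel
theorem t1179 : rng plan 1179 1 = true := by decide +kernel
theorem t1180 : rng plan 1180 1 = true := by decide +kernel
theorem t1181 : rng plan 1181 1 = true := by decide +kernel
theorem t1182 : rng plan 1182 1 = true := by decide +kernel
theorem t1183 : rng plan 1183 1 = true := by decide +kernel
theorem t1184 : rng plan 1184 1 = true := by decide +kernel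
theorem t1185 : rng plan 1185 1 = true := by decide +kernel
theorem t1186 : rng plan 1186 1 = true := by decide +kernel
theorem t1187 : rng plan 1187 1 = true := by decide +kernel
theorem t1188 : rng plan 1188 1 = true := by decide +kernel
theorem t1189 : rng plan 1189 1 = true := by decide +kernel
theorem t1190 : rng plan 1190 1 = true := by decide +kernel
theorem t1191 : rng plan 1191 1 = true := by decide +kernel
theorem t1192 : rng plan 1192 1 = true := by decide +kernel
theorem t1193 : rng plan 1193 1 = true := by decide +kernel
theorem t1194 : rng plan 1194 1 = true := by decide +kernel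
theorem t1195 : rng plan 1195 1 = true := by decide +kernel
theorem t1196 : rng plan 1196 1 = true := by decide +kernel
theorem t1197 : rng plan 1197 1 = true := by decide +kernel
theorem t1198 : rng plan 1198 1 = true := by decide +kernel
theorem t1199 : rng plan 1199 1 = true := by decide +kernel

theorem b39 (d : ℕ) (h1 : 1170 ≤ d) (h2 : d < 1200) : rng plan d 1 = true := by
  interval_cases d
  exacts [t1170, t1171, t1172, t1173, t1174, t1175, t1176, t1177, t1178, t1179, t1180, t1181, t1182, t1183, t1184, t1185, t1186, t1187, t1188, t1189, t1190, t1191, t1192, t1193, t1194, t1195, t1196, t1197, t1198, t1199]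

end Cfsg.Agent.H908.P9.Run
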