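import Cfsg.Agent.H728.PM.Run
import Cfsg.Agent.H136.P9.PlanData

/-! # S5925, box H: digit vectors 1200 .. 1229 (helper908) -/

set_option autoImplicit false
set_option Elab.async false
set_option maxRecDepth 100000

namespace Cfsg.Agent.H908.P9.Run
open Cfsg.Agent.H728.PM Cfsg.Agent.H136.P9

theorem t1200 : rng plan 1200 1 = true := by decide +kernel
theorem t1201 : rng plan 1201 1 = true := by decide +kernel
theorem t1202 : rng plan 1202 1 = true := by decide +kernel
theorem t1203 : rng plan 1203 1 = true := by decide +kernel
theorem t1204 : rng plan 1204 1 = true := by decide +kernel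
theorem t1205 : rng plan 1205 1 = true := by decide +kernel
theorem t1206 : rng plan 1206 1 = true := by decide +kernel
theorem t1207 : rng plan 1207 1 = true := by decide +kernel
theorem t1208 : rng plan 1208 1 = true := by decide +kernel
theorem t1209 : rng plan 1209 1 = true := by decide +kernel
theorem t1210 : rng plan 1210 1 = true := by decide +kernel
theorem t1211 : rng plan 1211 1 = true := by decide +kernel
theorem t1212 : rng plan 1212 1 = true := by decide +kernel
theorem t1213 : rng plan 1213 1 = true := by decide +kernel
theorem t1214 : rng plan 1214 1 = true := by decide +kernel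
theorem t1215 : rng plan 1215 1 = true := by decide +kernel
theorem t1216 : rng plan 1216 1 = true := by decide +kernel
theorem t1217 : rng plan 1217 1 = true := by decide +kernel
theorem t1218 : rng plan 1218 1 = true := by decide +kernel
theorem t1219 : rng plan 1219 1 = true := by decide +kernel
theorem t1220 : rng plan 1220 1 = true := by decide +kernel
theorem t1221 : rng plan 1221 1 = true := by decide +kernel
theorem t1222 : rng plan 1222 1 = true := by decide +kernel
theorem t1223 : rng plan 1223 1 = true := by decide +kernel
theorem t1224 : rng plan 1224 1 = true := by decide +kernel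
theorem t1225 : rng plan 1225 1 = true := by decide +kernel
theorem t1226 : rng plan 1226 1 = true := by decide +kernel
theorem t1227 : rng plan 1227 1 = true := by decide +kernel
theorem t1228 : rng plan 1228 1 = true := by decide +kernel
theorem t1229 : rng plan 1229 1 = true := by decide +kernel

theorem b40 (d : ℕ) (h1 : 1200 ≤ d) (h2 : d < 1230) : rng plan d 1 = true := by
  interval_cases d
  exacts [t1200, t1201, t1202, t1203, t1204, t1205, t1206, t1207, t1208, t1209, t1210, t1211, t1212, t1213, t1214, t1215, t1216, t1217, t1218, t1219, t1220, t1221, t1222, t1223, t1224, t1225, t1226, t1227, t1228, t1229]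

end Cfsg.Agent.H908.P9.Run
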