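import Cfsg.Agent.H728.PM.Run
import Cfsg.Agent.H136.P9.PlanData

/-! # S5925, box H: digit vectors 1230 .. 1259 (helper908) -/

set_option autoImplicit false
set_option Elab.async false
set_option maxRecDepth 100000

namespace Cfsg.Agent.H908.P9.Run
open Cfsg.Agent.H728.PM Cfsg.Agent.H136.P9

theorem t1230 : rng plan 1230 1 = true := by decide +kernel
theorem t1231 : rng plan 1231 1 = true := by decide +kernel
theorem t1232 : rng plan 1232 1 = true := by decide +kernel
theorem t1233 : rng plan 1233 1 = true := by decide +kernel
theorem t1234 : rng plan 1234 1 = true := by decide +kernel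
theorem t1235 : rng plan 1235 1 = true := by decide +kernel
theorem t1236 : rng plan 1236 1 = true := by decide +kernel
theorem t1237 : rng plan 1237 1 = true := by decide +kernel
theorem t1238 : rng plan 1238 1 = true := by decide +kernel
theorem t1239 : rng plan 1239 1 = true := by decide +kernel
theorem t1240 : rng plan 1240 1 = true := by decide +kernel
theorem t1241 : rng plan 1241 1 = true := by decide +kernel
theorem t1242 : rng plan 1242 1 = true := by decide +kernel
theorem t1243 : rng plan 1243 1 = true := by decide +kernel
theorem t1244 : rng plan 1244 1 = true := by decide +kernel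
theorem t1245 : rng plan 1245 1 = true := by decide +kernel
theorem t1246 : rng plan 1246 1 = true := by decide +kernel
theorem t1247 : rng plan 1247 1 = true := by decide +kernel
theorem t1248 : rng plan 1248 1 = true := by decide +kernel
theorem t1249 : rng plan 1249 1 = true := by decide +kernel
theorem t1250 : rng plan 1250 1 = true := by decide +kernel
theorem t1251 : rng plan 1251 1 = true := by decide +kernel
theorem t1252 : rng plan 1252 1 = true := by decide +kernel
theorem t1253 : rng plan 1253 1 = true := by decide +kernel
theorem t1254 : rng plan 1254 1 = true := by decide +kernel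
theorem t1255 : rng plan 1255 1 = true := by decide +kernel
theorem t1256 : rng plan 1256 1 = true := by decide +kernel
theorem t1257 : rng plan 1257 1 = true := by decide +kernel
theorem t1258 : rng plan 1258 1 = true := by decide +kernel
theorem t1259 : rng plan 1259 1 = true := by decide +kernel

theorem b41 (d : ℕ) (h1 : 1230 ≤ d) (h2 : d < 1260) : rng plan d 1 = true := by
  interval_cases d
  exacts [t1230, t1231, t1232, t1233, t1234, t1235, t1236, t1237, t1238, t1239, t1240, t1241, t1242, t1243, t1244, t1245, t1246, t1247, t1248, t1249, t1250, t1251, t1252, t1253, t1254, t1255, t1256, t1257, t1258, t1259]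

end Cfsg.Agent.H908.P9.Run
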