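import Cfsg.Agent.H728.PM.Run
import Cfsg.Agent.H136.P9.PlanData

/-! # S5925, box H: digit vectors 1260 .. 1289 (helper908) -/

set_option autoImplicit false
set_option Elab.async false
set_option maxRecDepth 100000

namespace Cfsg.Agent.H908.P9.Run
open Cfsg.Agent.H728.PM Cfsg.Agent.H136.P9

theorem t1260 : rng plan 1260 1 = true := by decide +kernel
theorem t1261 : rng plan 1261 1 = true := by decide +kernel
theorem t1262 : rng plan 1262 1 = true := by decide +kernel
theorem t1263 : rng plan 1263 1 = true := by decide +kernel
theorem t1264 : rng plan 1264 1 = true := by decide +kernel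
theorem t1265 : rng plan 1265 1 = true := by decide +kernel
theorem t1266 : rng plan 1266 1 = true := by decide +kernel
theorem t1267 : rng plan 1267 1 = true := by decide +kernel
theorem t1268 : rng plan 1268 1 = true := by decide +kernel
theorem t1269 : rng plan 1269 1 = true := by decide +kernel
theorem t1270 : rng plan 1270 1 = true := by decide +kernel
theorem t1271 : rng plan 1271 1 = true := by decide +kernel
theorem t1272 : rng plan 1272 1 = true := by decide +kernel
theorem t1273 : rng plan 1273 1 = true := by decide +kernel
theorem t1274 : rng plan 1274 1 = true := by decide +kernel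
theorem t1275 : rng plan 1275 1 = true := by decide +kernel
theorem t1276 : rng plan 1276 1 = true := by decide +kernel
theorem t1277 : rng plan 1277 1 = true := by decide +kernel
theorem t1278 : rng plan 1278 1 = true := by decide +kernel
theorem t1279 : rng plan 1279 1 = true := by decide +kernel
theorem t1280 : rng plan 1280 1 = true := by decide +kernel
theorem t1281 : rng plan 1281 1 = true := by decide +kernel
theorem t1282 : rng plan 1282 1 = true := by decide +kernel
theorem t1283 : rng plan 1283 1 = true := by decide +kernel
theorem t1284 : rng plan 1284 1 = true := by decide +kernel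
theorem t1285 : rng plan 1285 1 = true := by decide +kernel
theorem t1286 : rng plan 1286 1 = true := by decide +kernel
theorem t1287 : rng plan 1287 1 = true := by decide +kernel
theorem t1288 : rng plan 1288 1 = true := by decide +kernel
theorem t1289 : rng plan 1289 1 = true := by decide +kernel

theorem b42 (d : ℕ) (h1 : 1260 ≤ d) (h2 : d < 1290) : rng plan d 1 = true := by
  interval_cases d
  exacts [t1260, t1261, t1262, t1263, t1264, t1265, t1266, t1267, t1268, t1269, t1270, t1271, t1272, t1273, t1274, t1275, t1276, t1277, t1278, t1279, t1280, t1281, t1282, t1283, t1284, t1285, t1286, t1287, t1288, t1289]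

end Cfsg.Agent.H908.P9.Run
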