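import Cfsg.Agent.H728.PM.Run
import Cfsg.Agent.H136.P9.PlanData

/-! # S5925, box H: digit vectors 1290 .. 1319 (helper908) -/

set_option autoImplicit false
set_option Elab.async false
set_option maxRecDepth 100000

namespace Cfsg.Agent.H908.P9.Run
open Cfsg.Agent.H728.PM Cfsg.Agent.H136.P9

theorem t1290 : rng plan 1290 1 = true := by decide +kernel
theorem t1291 : rng plan 1291 1 = true := by decide +kernel
theorem t1292 : rng plan 1292 1 = true := by decide +kernel
theorem t1293 : rng plan 1293 1 = true := by decide +kernel
theorem t1294 : rng plan 1294 1 = true := by decide +kernel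
theorem t1295 : rng plan 1295 1 = true := by decide +kernel
theorem t1296 : rng plan 1296 1 = true := by decide +kernel
theorem t1297 : rng plan 1297 1 = true := by decide +kernel
theorem t1298 : rng plan 1298 1 = true := by decide +kernel
theorem t1299 : rng plan 1299 1 = true := by decide +kernel
theorem t1300 : rng plan 1300 1 = true := by decide +kernel
theorem t1301 : rng plan 1301 1 = true := by decide +kernel
theorem t1302 : rng plan 1302 1 = true := by decide +kernel
theorem t1303 : rng plan 1303 1 = true := by decide +kernel
theorem t1304 : rng plan 1304 1 = true := by decide +kernel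
theorem t1305 : rng plan 1305 1 = true := by decide +kernel
theorem t1306 : rng plan 1306 1 = true := by decide +kernel
theorem t1307 : rng plan 1307 1 = true := by decide +kernel
theorem t1308 : rng plan 1308 1 = true := by decide +kernel
theorem t1309 : rng plan 1309 1 = true := by decide +kernel
theorem t1310 : rng plan 1310 1 = true := by decide +kernel
theorem t1311 : rng plan 1311 1 = true := by decide +kernel
theorem t1312 : rng plan 1312 1 = true := by decide +kernel
theorem t1313 : rng plan 1313 1 = true := by decide +kernel
theorem t1314 : rng plan 1314 1 = true := by decide +kernel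
theorem t1315 : rng plan 1315 1 = true := by decide +kernel
theorem t1316 : rng plan 1316 1 = true := by decide +kernel
theorem t1317 : rng plan 1317 1 = true := by decide +kernel
theorem t1318 : rng plan 1318 1 = true := by decide +kernel
theorem t1319 : rng plan 1319 1 = true := by decide +kernel

theorem b43 (d : ℕ) (h1 : 1290 ≤ d) (h2 : d < 1320) : rng plan d 1 = true := by
  interval_cases d
  exacts [t1290, t1291, t1292, t1293, t1294, t1295, t1296, t1297, t1298, t1299, t1300, t1301, t1302, t1303, t1304, t1305, t1306, t1307, t1308, t1309, t1310, t1311, t1312, t1313, t1314, t1315, t1316, t1317, t1318, t1319]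

end Cfsg.Agent.H908.P9.Run
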