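import Cfsg.Agent.H728.PM.Run
import Cfsg.Agent.H136.P9.PlanData

/-! # S5925, box H: digit vectors 1320 .. 1349 (helper908) -/

set_option autoImplicit false
set_option Elab.async false
set_option maxRecDepth 100000

namespace Cfsg.Agent.H908.P9.Run
open Cfsg.Agent.H728.PM Cfsg.Agent.H136.P9

theorem t1320 : rng plan 1320 1 = true := by decide +kernel
theorem t1321 : rng plan 1321 1 = true := by decide +kernel
theorem t1322 : rng plan 1322 1 = true := by decide +kernel
theorem t1323 : rng plan 1323 1 = true := by decide +kernel
theorem t1324 : rng plan 1324 1 = true := by decide +kernel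
theorem t1325 : rng plan 1325 1 = true := by decide +kernel
theorem t1326 : rng plan 1326 1 = true := by decide +kernel
theorem t1327 : rng plan 1327 1 = true := by decide +kernel
theorem t1328 : rng plan 1328 1 = true := by decide +kernel
theorem t1329 : rng plan 1329 1 = true := by decide +kernel
theorem t1330 : rng plan 1330 1 = true := by decide +kernel
theorem t1331 : rng plan 1331 1 = true := by decide +kernel
theorem t1332 : rng plan 1332 1 = true := by decide +kernel
theorem t1333 : rng plan 1333 1 = true := by decide +kernel
theorem t1334 : rng plan 1334 1 = true := by decide +kernel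
theorem t1335 : rng plan 1335 1 = true := by decide +kernel
theorem t1336 : rng plan 1336 1 = true := by decide +kernel
theorem t1337 : rng plan 1337 1 = true := by decide +kernel
theorem t1338 : rng plan 1338 1 = true := by decide +kernel
theorem t1339 : rng plan 1339 1 = true := by decide +kernel
theorem t1340 : rng plan 1340 1 = true := by decide +kernel
theorem t1341 : rng plan 1341 1 = true := by decide +kernel
theorem t1342 : rng plan 1342 1 = true := by decide +kernel
theorem t1343 : rng plan 1343 1 = true := by decide +kernel
theorem t1344 : rng plan 1344 1 = true := by decide +kernel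
theorem t1345 : rng plan 1345 1 = true := by decide +kernel
theorem t1346 : rng plan 1346 1 = true := by decide +kernel
theorem t1347 : rng plan 1347 1 = true := by decide +kernel
theorem t1348 : rng plan 1348 1 = true := by decide +kernel
theorem t1349 : rng plan 1349 1 = true := by decide +kernel

theorem b44 (d : ℕ) (h1 : 1320 ≤ d) (h2 : d < 1350) : rng plan d 1 = true := by
  interval_cases d
  exacts [t1320, t1321, t1322, t1323, t1324, t1325, t1326, t1327, t1328, t1329, t1330, t1331, t1332, t1333, t1334, t1335, t1336, t1337, t1338, t1339, t1340, t1341, t1342, t1343, t1344, t1345, t1346, t1347, t1348, t1349]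

end Cfsg.Agent.H908.P9.Run
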