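import Cfsg.Agent.H728.PM.Run
import Cfsg.Agent.H136.P9.PlanData

/-! # S5925, box H: digit vectors 1350 .. 1379 (helper908) -/

set_option autoImplicit false
set_option Elab.async false
set_option maxRecDepth 100000

namespace Cfsg.Agent.H908.P9.Run
open Cfsg.Agent.H728.PM Cfsg.Agent.H136.P9

theorem t1350 : rng plan 1350 1 = true := by decide +kernel
theorem t1351 : rng plan 1351 1 = true := by decide +kernel
theorem t1352 : rng plan 1352 1 = true := by decide +kernel
theorem t1353 : rng plan 1353 1 = true := by decide +kernel
theorem t1354 : rng plan 1354 1 = true := by decide +kernel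
theorem t1355 : rng plan 1355 1 = true := by decide +kernel
theorem t1356 : rng plan 1356 1 = true := by decide +kernel
theorem t1357 : rng plan 1357 1 = true := by decide +kernel
theorem t1358 : rng plan 1358 1 = true := by decide +kernel
theorem t1359 : rng plan 1359 1 = true := by decide +kernel
theorem t1360 : rng plan 1360 1 = true := by decide +kernel
theorem t1361 : rng plan 1361 1 = true := by decide +kernel
theorem t1362 : rng plan 1362 1 = true := by decide +kernel
theorem t1363 : rng plan 1363 1 = true := by decide +kernel
theorem t1364 : rng plan 1364 1 = true := by decide +kernel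
theorem t1365 : rng plan 1365 1 = true := by decide +kernel
theorem t1366 : rng plan 1366 1 = true := by decide +kernel
theorem t1367 : rng plan 1367 1 = true := by decide +kernel
theorem t1368 : rng plan 1368 1 = true := by decide +kernel
theorem t1369 : rng plan 1369 1 = true := by decide +kernel
theorem t1370 : rng plan 1370 1 = true := by decide +kernel
theorem t1371 : rng plan 1371 1 = true := by decide +kernel
theorem t1372 : rng plan 1372 1 = true := by decide +kernel
theorem t1373 : rng plan 1373 1 = true := by decide +kernel
theorem t1374 : rng plan 1374 1 = true := by decide +kernel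
theorem t1375 : rng plan 1375 1 = true := by decide +kernel
theorem t1376 : rng plan 1376 1 = true := by decide +kernel
theorem t1377 : rng plan 1377 1 = true := by decide +kernel
theorem t1378 : rng plan 1378 1 = true := by decide +kernel
theorem t1379 : rng plan 1379 1 = true := by decide +kernel

theorem b45 (d : ℕ) (h1 : 1350 ≤ d) (h2 : d < 1380) : rng plan d 1 = true := by
  interval_cases d
  exacts [t1350, t1351, t1352, t1353, t1354, t1355, t1356, t1357, t1358, t1359, t1360, t1361, t1362, t1363, t1364, t1365, t1366, t1367, t1368, t1369, t1370, t1371, t1372, t1373, t1374, t1375, t1376, t1377, t1378, t1379]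

end Cfsg.Agent.H908.P9.Run
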