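import Cfsg.Agent.H728.PM.Run
import Cfsg.Agent.H136.P9.PlanData

/-! # S5925, box H: digit vectors 1380 .. 1409 (helper908) -/

set_option autoImplicit false
set_option Elab.async false
set_option maxRecDepth 100000

namespace Cfsg.Agent.H908.P9.Run
open Cfsg.Agent.H728.PM Cfsg.Agent.H136.P9

theorem t1380 : rng plan 1380 1 = true := by decide +kernel
theorem t1381 : rng plan 1381 1 = true := by decide +kernel
theorem t1382 : rng plan 1382 1 = true := by decide +kernel
theorem t1383 : rng plan 1383 1 = true := by decide +kernel
theorem t1384 : rng plan 1384 1 = true := by decide +kernel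
theorem t1385 : rng plan 1385 1 = true := by decide +kernel
theorem t1386 : rng plan 1386 1 = true := by decide +kernel
theorem t1387 : rng plan 1387 1 = true := by decide +kernel
theorem t1388 : rng plan 1388 1 = true := by decide +kernel
theorem t1389 : rng plan 1389 1 = true := by decide +kernel
theorem t1390 : rng plan 1390 1 = true := by decide +kernel
theorem t1391 : rng plan 1391 1 = true := by decide +kernel
theorem t1392 : rng plan 1392 1 = true := by decide +kernel
theorem t1393 : rng plan 1393 1 = true := by decide +kernel
theorem t1394 : rng plan 1394 1 = true := by decide +kernel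
theorem t1395 : rng plan 1395 1 = true := by decide +kernel
theorem t1396 : rng plan 1396 1 = true := by decide +kernel
theorem t1397 : rng plan 1397 1 = true := by decide +kernel
theorem t1398 : rng plan 1398 1 = true := by decide +kernel
theorem t1399 : rng plan 1399 1 = true := by decide +kernel
theorem t1400 : rng plan 1400 1 = true := by decide +kernel
theorem t1401 : rng plan 1401 1 = true := by decide +kernel
theorem t1402 : rng plan 1402 1 = true := by decide +kernel
theorem t1403 : rng plan 1403 1 = true := by decide +kernel
theorem t1404 : rng plan 1404 1 = true := by decide +kernel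
theorem t1405 : rng plan 1405 1 = true := by decide +kernel
theorem t1406 : rng plan 1406 1 = true := by decide +kernel
theorem t1407 : rng plan 1407 1 = true := by decide +kernel
theorem t1408 : rng plan 1408 1 = true := by decide +kernel
theorem t1409 : rng plan 1409 1 = true := by decide +kernel

theorem b46 (d : ℕ) (h1 : 1380 ≤ d) (h2 : d < 1410) : rng plan d 1 = true := by
  interval_cases d
  exacts [t1380, t1381, t1382, t1383, t1384, t1385, t1386, t1387, t1388, t1389, t1390, t1391, t1392, t1393, t1394, t1395, t1396, t1397, t1398, t1399, t1400, t1401, t1402, t1403, t1404, t1405, t1406, t1407, t1408, t1409]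

end Cfsg.Agent.H908.P9.Run
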