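import Cfsg.Agent.H728.PM.Run
import Cfsg.Agent.H136.P9.PlanData

/-! # S5925, box H: digit vectors 1410 .. 1439 (helper908) -/

set_option autoImplicit false
set_option Elab.async false
set_option maxRecDepth 100000

namespace Cfsg.Agent.H908.P9.Run
open Cfsg.Agent.H728.PM Cfsg.Agent.H136.P9

theorem t1410 : rng plan 1410 1 = true := by decide +kernel
theorem t1411 : rng plan 1411 1 = true := by decide +kernel
theorem t1412 : rng plan 1412 1 = true := by decide +kernel
theorem t1413 : rng plan 1413 1 = true := by decide +kernel
theorem t1414 : rng plan 1414 1 = true := by decide +kernel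
theorem t1415 : rng plan 1415 1 = true := by decide +kernel
theorem t1416 : rng plan 1416 1 = true := by decide +kernel
theorem t1417 : rng plan 1417 1 = true := by decide +kernel
theorem t1418 : rng plan 1418 1 = true := by decide +kernel
theorem t1419 : rng plan 1419 1 = true := by decide +kernel
theorem t1420 : rng plan 1420 1 = true := by decide +kernel
theorem t1421 : rng plan 1421 1 = true := by decide +kernel
theorem t1422 : rng plan 1422 1 = true := by decide +kernel
theorem t1423 : rng plan 1423 1 = true := by decide +kernel
theorem t1424 : rng plan 1424 1 = true := by decide +kernel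
theorem t1425 : rng plan 1425 1 = true := by decide +kernel
theorem t1426 : rng plan 1426 1 = true := by decide +kernel
theorem t1427 : rng plan 1427 1 = true := by decide +kernel
theorem t1428 : rng plan 1428 1 = true := by decide +kernel
theorem t1429 : rng plan 1429 1 = true := by decide +kernel
theorem t1430 : rng plan 1430 1 = true := by decide +kernel
theorem t1431 : rng plan 1431 1 = true := by decide +kernel
theorem t1432 : rng plan 1432 1 = true := by decide +kernel
theorem t1433 : rng plan 1433 1 = true := by decide +kernel
theorem t1434 : rng plan 1434 1 = true := by decide +kernel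
theorem t1435 : rng plan 1435 1 = true := by decide +kernel
theorem t1436 : rng plan 1436 1 = true := by decide +kernel
theorem t1437 : rng plan 1437 1 = true := by decide +kernel
theorem t1438 : rng plan 1438 1 = true := by decide +kernel
theorem t1439 : rng plan 1439 1 = true := by decide +kernel

theorem b47 (d : ℕ) (h1 : 1410 ≤ d) (h2 : d < 1440) : rng plan d 1 = true := by
  interval_cases d
  exacts [t1410, t1411, t1412, t1413, t1414, t1415, t1416, t1417, t1418, t1419, t1420, t1421, t1422, t1423, t1424, t1425, t1426, t1427, t1428, t1429, t1430, t1431, t1432, t1433, t1434, t1435, t1436, t1437, t1438, t1439]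

end Cfsg.Agent.H908.P9.Run
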