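import Cfsg.Agent.H728.PM.Run
import Cfsg.Agent.H136.P9.PlanData

/-! # S5925, box H: digit vectors 1440 .. 1469 (helper908) -/

set_option autoImplicit false
set_option Elab.async false
set_option maxRecDepth 100000

namespace Cfsg.Agent.H908.P9.Run
open Cfsg.Agent.H728.PM Cfsg.Agent.H136.P9

theorem t1440 : rng plan 1440 1 = true := by decide +kernel
theorem t1441 : rng plan 1441 1 = true := by decide +kernel
theorem t1442 : rng plan 1442 1 = true := by decide +kernel
theorem t1443 : rng plan 1443 1 = true := by decide +kernel
theorem t1444 : rng plan 1444 1 = true := by decide +kernel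
theorem t1445 : rng plan 1445 1 = true := by decide +kernel
theorem t1446 : rng plan 1446 1 = true := by decide +kernel
theorem t1447 : rng plan 1447 1 = true := by decide +kernel
theorem t1448 : rng plan 1448 1 = true := by decide +kernel
theorem t1449 : rng plan 1449 1 = true := by decide +kernel
theorem t1450 : rng plan 1450 1 = true := by decide +kernel
theorem t1451 : rng plan 1451 1 = true := by decide +kernel
theorem t1452 : rng plan 1452 1 = true := by decide +kernel
theorem t1453 : rng plan 1453 1 = true := by decide +kernel
theorem t1454 : rng plan 1454 1 = true := by decide +kernel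
theorem t1455 : rng plan 1455 1 = true := by decide +kernel
theorem t1456 : rng plan 1456 1 = true := by decide +kernel
theorem t1457 : rng plan 1457 1 = true := by decide +kernel
theorem t1458 : rng plan 1458 1 = true := by decide +kernel
theorem t1459 : rng plan 1459 1 = true := by decide +kernel
theorem t1460 : rng plan 1460 1 = true := by decide +kernel
theorem t1461 : rng plan 1461 1 = true := by decide +kernel
theorem t1462 : rng plan 1462 1 = true := by decide +kernel
theorem t1463 : rng plan 1463 1 = true := by decide +kernel
theorem t1464 : rng plan 1464 1 = true := by decide +kernel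
theorem t1465 : rng plan 1465 1 = true := by decide +kernel
theorem t1466 : rng plan 1466 1 = true := by decide +kernel
theorem t1467 : rng plan 1467 1 = true := by decide +kernel
theorem t1468 : rng plan 1468 1 = true := by decide +kernel
theorem t1469 : rng plan 1469 1 = true := by decide +kernel

theorem b48 (d : ℕ) (h1 : 1440 ≤ d) (h2 : d < 1470) : rng plan d 1 = true := by
  interval_cases d
  exacts [t1440, t1441, t1442, t1443, t1444, t1445, t1446, t1447, t1448, t1449, t1450, t1451, t1452, t1453, t1454, t1455, t1456, t1457, t1458, t1459, t1460, t1461, t1462, t1463, t1464, t1465, t1466, t1467, t1468, t1469]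

end Cfsg.Agent.H908.P9.Run
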