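import Cfsg.Agent.H728.PM.Run
import Cfsg.Agent.H136.P9.PlanData

/-! # S5925, box H: digit vectors 1470 .. 1499 (helper908) -/

set_option autoImplicit false
set_option Elab.async false
set_option maxRecDepth 100000

namespace Cfsg.Agent.H908.P9.Run
open Cfsg.Agent.H728.PM Cfsg.Agent.H136.P9

theorem t1470 : rng plan 1470 1 = true := by decide +kernel
theorem t1471 : rng plan 1471 1 = true := by decide +kernel
theorem t1472 : rng plan 1472 1 = true := by decide +kernel
theorem t1473 : rng plan 1473 1 = true := by decide +kernel
theorem t1474 : rng plan 1474 1 = true := by decide +kernel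
theorem t1475 : rng plan 1475 1 = true := by decide +kernel
theorem t1476 : rng plan 1476 1 = true := by decide +kernel
theorem t1477 : rng plan 1477 1 = true := by decide +kernel
theorem t1478 : rng plan 1478 1 = true := by decide +kernel
theorem t1479 : rng plan 1479 1 = true := by decide +kernel
theorem t1480 : rng plan 1480 1 = true := by decide +kernel
theorem t1481 : rng plan 1481 1 = true := by decide +kernel
theorem t1482 : rng plan 1482 1 = true := by decide +kernel
theorem t1483 : rng plan 1483 1 = true := by decide +kernel
theorem t1484 : rng plan 1484 1 = true := by decide +kernel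
theorem t1485 : rng plan 1485 1 = true := by decide +kernel
theorem t1486 : rng plan 1486 1 = true := by decide +kernel
theorem t1487 : rng plan 1487 1 = true := by decide +kernel
theorem t1488 : rng plan 1488 1 = true := by decide +kernel
theorem t1489 : rng plan 1489 1 = true := by decide +kernel
theorem t1490 : rng plan 1490 1 = true := by decide +kernel
theorem t1491 : rng plan 1491 1 = true := by decide +kernel
theorem t1492 : rng plan 1492 1 = true := by decide +kernel
theorem t1493 : rng plan 1493 1 = true := by decide +kernel
theorem t1494 : rng plan 1494 1 = true := by decide +kernel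
theorem t1495 : rng plan 1495 1 = true := by decide +kernel
theorem t1496 : rng plan 1496 1 = true := by decide +kernel
theorem t1497 : rng plan 1497 1 = true := by decide +kernel
theorem t1498 : rng plan 1498 1 = true := by decide +kernel
theorem t1499 : rng plan 1499 1 = true := by decide +kernel

theorem b49 (d : ℕ) (h1 : 1470 ≤ d) (h2 : d < 1500) : rng plan d 1 = true := by
  interval_cases d
  exacts [t1470, t1471, t1472, t1473, t1474, t1475, t1476, t1477, t1478, t1479, t1480, t1481, t1482, t1483, t1484, t1485, t1486, t1487, t1488, t1489, t1490, t1491, t1492, t1493, t1494, t1495, t1496, t1497, t1498, t1499]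

end Cfsg.Agent.H908.P9.Run
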