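import Cfsg.Agent.H728.PM.Run
import Cfsg.Agent.H136.P9.PlanData

/-! # S5925, box H: digit vectors 1500 .. 1529 (helper908) -/

set_option autoImplicit false
set_option Elab.async false
set_option maxRecDepth 100000

namespace Cfsg.Agent.H908.P9.Run
open Cfsg.Agent.H728.PM Cfsg.Agent.H136.P9

theorem t1500 : rng plan 1500 1 = true := by decide +kernel
theorem t1501 : rng plan 1501 1 = true := by decide +kernel
theorem t1502 : rng plan 1502 1 = true := by decide +kernel
theorem t1503 : rng plan 1503 1 = true := by decide +kernel
theorem t1504 : rng plan 1504 1 = true := by decide +kernel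
theorem t1505 : rng plan 1505 1 = true := by decide +kernel
theorem t1506 : rng plan 1506 1 = true := by decide +kernel
theorem t1507 : rng plan 1507 1 = true := by decide +kernel
theorem t1508 : rng plan 1508 1 = true := by decide +kernel
theorem t1509 : rng plan 1509 1 = true := by decide +kernel
theorem t1510 : rng plan 1510 1 = true := by decide +kernel
theorem t1511 : rng plan 1511 1 = true := by decide +kernel
theorem t1512 : rng plan 1512 1 = true := by decide +kernel
theorem t1513 : rng plan 1513 1 = true := by decide +kernel
theorem t1514 : rng plan 1514 1 = true := by decide +kernel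
theorem t1515 : rng plan 1515 1 = true := by decide +kernel
theorem t1516 : rng plan 1516 1 = true := by decide +kernel
theorem t1517 : rng plan 1517 1 = true := by decide +kernel
theorem t1518 : rng plan 1518 1 = true := by decide +kernel
theorem t1519 : rng plan 1519 1 = true := by decide +kernel
theorem t1520 : rng plan 1520 1 = true := by decide +kernel
theorem t1521 : rng plan 1521 1 = true := by decide +kernel
theorem t1522 : rng plan 1522 1 = true := by decide +kernel
theorem t1523 : rng plan 1523 1 = true := by decide +kernel
theorem t1524 : rng plan 1524 1 = true := by decide +kernel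
theorem t1525 : rng plan 1525 1 = true := by decide +kernel
theorem t1526 : rng plan 1526 1 = true := by decide +kernel
theorem t1527 : rng plan 1527 1 = true := by decide +kernel
theorem t1528 : rng plan 1528 1 = true := by decide +kernel
theorem t1529 : rng plan 1529 1 = true := by decide +kernel

theorem b50 (d : ℕ) (h1 : 1500 ≤ d) (h2 : d < 1530) : rng plan d 1 = true := by
  interval_cases d
  exacts [t1500, t1501, t1502, t1503, t1504, t1505, t1506, t1507, t1508, t1509, t1510, t1511, t1512, t1513, t1514, t1515, t1516, t1517, t1518, t1519, t1520, t1521, t1522, t1523, t1524, t1525, t1526, t1527, t1528, t1529]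

end Cfsg.Agent.H908.P9.Run
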