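import Cfsg.Agent.H728.PM.Run
import Cfsg.Agent.H136.P9.PlanData

/-! # S5925, box H: digit vectors 1530 .. 1559 (helper908) -/

set_option autoImplicit false
set_option Elab.async false
set_option maxRecDepth 100000

namespace Cfsg.Agent.H908.P9.Run
open Cfsg.Agent.H728.PM Cfsg.Agent.H136.P9

theorem t1530 : rng plan 1530 1 = true := by decide +kernel
theorem t1531 : rng plan 1531 1 = true := by decide +kernel
theorem t1532 : rng plan 1532 1 = true := by decide +kernel
theorem t1533 : rng plan 1533 1 = true := by decide +kernel
theorem t1534 : rng plan 1534 1 = true := by decide +kernel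
theorem t1535 : rng plan 1535 1 = true := by decide +kernel
theorem t1536 : rng plan 1536 1 = true := by decide +kernel
theorem t1537 : rng plan 1537 1 = true := by decide +kernel
theorem t1538 : rng plan 1538 1 = true := by decide +kernel
theorem t1539 : rng plan 1539 1 = true := by decide +kernel
theorem t1540 : rng plan 1540 1 = true := by decide +kernel
theorem t1541 : rng plan 1541 1 = true := by decide +kernel
theorem t1542 : rng plan 1542 1 = true := by decide +kernel
theorem t1543 : rng plan 1543 1 = true := by decide +kernel
theorem t1544 : rng plan 1544 1 = true := by decide +kernel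
theorem t1545 : rng plan 1545 1 = true := by decide +kernel
theorem t1546 : rng plan 1546 1 = true := by decide +kernel
theorem t1547 : rng plan 1547 1 = true := by decide +kernel
theorem t1548 : rng plan 1548 1 = true := by decide +kernel
theorem t1549 : rng plan 1549 1 = true := by decide +kernel
theorem t1550 : rng plan 1550 1 = true := by decide +kernel
theorem t1551 : rng plan 1551 1 = true := by decide +kernel
theorem t1552 : rng plan 1552 1 = true := by decide +kernel
theorem t1553 : rng plan 1553 1 = true := by decide +kernel
theorem t1554 : rng plan 1554 1 = true := by decide +kernel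
theorem t1555 : rng plan 1555 1 = true := by decide +kernel
theorem t1556 : rng plan 1556 1 = true := by decide +kernel
theorem t1557 : rng plan 1557 1 = true := by decide +kernel
theorem t1558 : rng plan 1558 1 = true := by decide +kernel
theorem t1559 : rng plan 1559 1 = true := by decide +kernel

theorem b51 (d : ℕ) (h1 : 1530 ≤ d) (h2 : d < 1560) : rng plan d 1 = true := by
  interval_cases d
  exacts [t1530, t1531, t1532, t1533, t1534, t1535, t1536, t1537, t1538, t1539, t1540, t1541, t1542, t1543, t1544, t1545, t1546, t1547, t1548, t1549, t1550, t1551, t1552, t1553, t1554, t1555, t1556, t1557, t1558, t1559]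

end Cfsg.Agent.H908.P9.Run
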