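import Cfsg.Agent.H728.PM.Run
import Cfsg.Agent.H136.P9.PlanData

/-! # S5925, box H: digit vectors 1560 .. 1589 (helper908) -/

set_option autoImplicit false
set_option Elab.async false
set_option maxRecDepth 100000

namespace Cfsg.Agent.H908.P9.Run
open Cfsg.Agent.H728.PM Cfsg.Agent.H136.P9

theorem t1560 : rng plan 1560 1 = true := by decide +kernel
theorem t1561 : rng plan 1561 1 = true := by decide +kernel
theorem t1562 : rng plan 1562 1 = true := by decide +kernel
theorem t1563 : rng plan 1563 1 = true := by decide +kernel
theorem t1564 : rng plan 1564 1 = true := by decide +kernel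
theorem t1565 : rng plan 1565 1 = true := by decide +kernel
theorem t1566 : rng plan 1566 1 = true := by decide +kernel
theorem t1567 : rng plan 1567 1 = true := by decide +kernel
theorem t1568 : rng plan 1568 1 = true := by decide +kernel
theorem t1569 : rng plan 1569 1 = true := by decide +kernel
theorem t1570 : rng plan 1570 1 = true := by decide +kernel
theorem t1571 : rng plan 1571 1 = true := by decide +kernel
theorem t1572 : rng plan 1572 1 = true := by decide +kernel
theorem t1573 : rng plan 1573 1 = true := by decide +kernel
theorem t1574 : rng plan 1574 1 = true := by decide +kernel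
theorem t1575 : rng plan 1575 1 = true := by decide +kernel
theorem t1576 : rng plan 1576 1 = true := by decide +kernel
theorem t1577 : rng plan 1577 1 = true := by decide +kernel
theorem t1578 : rng plan 1578 1 = true := by decide +kernel
theorem t1579 : rng plan 1579 1 = true := by decide +kernel
theorem t1580 : rng plan 1580 1 = true := by decide +kernel
theorem t1581 : rng plan 1581 1 = true := by decide +kernel
theorem t1582 : rng plan 1582 1 = true := by decide +kernel
theorem t1583 : rng plan 1583 1 = true := by decide +kernel
theorem t1584 : rng plan 1584 1 = true := by decide +kernel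
theorem t1585 : rng plan 1585 1 = true := by decide +kernel
theorem t1586 : rng plan 1586 1 = true := by decide +kernel
theorem t1587 : rng plan 1587 1 = true := by decide +kernel
theorem t1588 : rng plan 1588 1 = true := by decide +kernel
theorem t1589 : rng plan 1589 1 = true := by decide +kernel

theorem b52 (d : ℕ) (h1 : 1560 ≤ d) (h2 : d < 1590) : rng plan d 1 = true := by
  interval_cases d
  exacts [t1560, t1561, t1562, t1563, t1564, t1565, t1566, t1567, t1568, t1569, t1570, t1571, t1572, t1573, t1574, t1575, t1576, t1577, t1578, t1579, t1580, t1581, t1582, t1583, t1584, t1585, t1586, t1587, t1588, t1589]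

end Cfsg.Agent.H908.P9.Run
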