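import Cfsg.Agent.H728.PM.Run
import Cfsg.Agent.H136.P9.PlanData

/-! # S5925, box H: digit vectors 1590 .. 1619 (helper908) -/

set_option autoImplicit false
set_option Elab.async false
set_option maxRecDepth 100000

namespace Cfsg.Agent.H908.P9.Run
open Cfsg.Agent.H728.PM Cfsg.Agent.H136.P9

theorem t1590 : rng plan 1590 1 = true := by decide +kernel
theorem t1591 : rng plan 1591 1 = true := by decide +kernel
theorem t1592 : rng plan 1592 1 = true := by decide +kernel
theorem t1593 : rng plan 1593 1 = true := by decide +kernel
theorem t1594 : rng plan 1594 1 = true := by decide +kernel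
theorem t1595 : rng plan 1595 1 = true := by decide +kernel
theorem t1596 : rng plan 1596 1 = true := by decide +kernel
theorem t1597 : rng plan 1597 1 = true := by decide +kernel
theorem t1598 : rng plan 1598 1 = true := by decide +kernel
theorem t1599 : rng plan 1599 1 = true := by decide +kernel
theorem t1600 : rng plan 1600 1 = true := by decide +kernel
theorem t1601 : rng plan 1601 1 = true := by decide +kernel
theorem t1602 : rng plan 1602 1 = true := by decide +kernel
theorem t1603 : rng plan 1603 1 = true := by decide +kernel
theorem t1604 : rng plan 1604 1 = true := by decide +kernel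
theorem t1605 : rng plan 1605 1 = true := by decide +kernel
theorem t1606 : rng plan 1606 1 = true := by decide +kernel
theorem t1607 : rng plan 1607 1 = true := by decide +kernel
theorem t1608 : rng plan 1608 1 = true := by decide +kernel
theorem t1609 : rng plan 1609 1 = true := by decide +kernel
theorem t1610 : rng plan 1610 1 = true := by decide +kernel
theorem t1611 : rng plan 1611 1 = true := by decide +kernel
theorem t1612 : rng plan 1612 1 = true := by decide +kernel
theorem t1613 : rng plan 1613 1 = true := by decide +kernel
theorem t1614 : rng plan 1614 1 = true := by decide +kernel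
theorem t1615 : rng plan 1615 1 = true := by decide +kernel
theorem t1616 : rng plan 1616 1 = true := by decide +kernel
theorem t1617 : rng plan 1617 1 = true := by decide +kernel
theorem t1618 : rng plan 1618 1 = true := by decide +kernel
theorem t1619 : rng plan 1619 1 = true := by decide +kernel

theorem b53 (d : ℕ) (h1 : 1590 ≤ d) (h2 : d < 1620) : rng plan d 1 = true := by
  interval_cases d
  exacts [t1590, t1591, t1592, t1593, t1594, t1595, t1596, t1597, t1598, t1599, t1600, t1601, t1602, t1603, t1604, t1605, t1606, t1607, t1608, t1609, t1610, t1611, t1612, t1613, t1614, t1615, t1616, t1617, t1618, t1619]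

end Cfsg.Agent.H908.P9.Run
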