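import Cfsg.Agent.H728.PM.Run
import Cfsg.Agent.H136.P9.PlanData

/-! # S5925, box H: digit vectors 1620 .. 1649 (helper908) -/

set_option autoImplicit false
set_option Elab.async false
set_option maxRecDepth 100000

namespace Cfsg.Agent.H908.P9.Run
open Cfsg.Agent.H728.PM Cfsg.Agent.H136.P9

theorem t1620 : rng plan 1620 1 = true := by decide +kernel
theorem t1621 : rng plan 1621 1 = true := by decide +kernel
theorem t1622 : rng plan 1622 1 = true := by decide +kernel
theorem t1623 : rng plan 1623 1 = true := by decide +kernel
theorem t1624 : rng plan 1624 1 = true := by decide +kernel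
theorem t1625 : rng plan 1625 1 = true := by decide +kernel
theorem t1626 : rng plan 1626 1 = true := by decide +kernel
theorem t1627 : rng plan 1627 1 = true := by decide +kernel
theorem t1628 : rng plan 1628 1 = true := by decide +kernel
theorem t1629 : rng plan 1629 1 = true := by decide +kernel
theorem t1630 : rng plan 1630 1 = true := by decide +kernel
theorem t1631 : rng plan 1631 1 = true := by decide +kernel
theorem t1632 : rng plan 1632 1 = true := by decide +kernel
theorem t1633 : rng plan 1633 1 = true := by decide +kernel
theorem t1634 : rng plan 1634 1 = true := by decide +kernel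
theorem t1635 : rng plan 1635 1 = true := by decide +kernel
theorem t1636 : rng plan 1636 1 = true := by decide +kernel
theorem t1637 : rng plan 1637 1 = true := by decide +kernel
theorem t1638 : rng plan 1638 1 = true := by decide +kernel
theorem t1639 : rng plan 1639 1 = true := by decide +kernel
theorem t1640 : rng plan 1640 1 = true := by decide +kernel
theorem t1641 : rng plan 1641 1 = true := by decide +kernel
theorem t1642 : rng plan 1642 1 = true := by decide +kernel
theorem t1643 : rng plan 1643 1 = true := by decide +kernel
theorem t1644 : rng plan 1644 1 = true := by decide +kernel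
theorem t1645 : rng plan 1645 1 = true := by decide +kernel
theorem t1646 : rng plan 1646 1 = true := by decide +kernel
theorem t1647 : rng plan 1647 1 = true := by decide +kernel
theorem t1648 : rng plan 1648 1 = true := by decide +kernel
theorem t1649 : rng plan 1649 1 = true := by decide +kernel

theorem b54 (d : ℕ) (h1 : 1620 ≤ d) (h2 : d < 1650) : rng plan d 1 = true := by
  interval_cases d
  exacts [t1620, t1621, t1622, t1623, t1624, t1625, t1626, t1627, t1628, t1629, t1630, t1631, t1632, t1633, t1634, t1635, t1636, t1637, t1638, t1639, t1640, t1641, t1642, t1643, t1644, t1645, t1646, t1647, t1648, t1649]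

end Cfsg.Agent.H908.P9.Run
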