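import Cfsg.Agent.H728.PM.Run
import Cfsg.Agent.H136.P9.PlanData

/-! # S5925, box H: digit vectors 1650 .. 1679 (helper908) -/

set_option autoImplicit false
set_option Elab.async false
set_option maxRecDepth 100000

namespace Cfsg.Agent.H908.P9.Run
open Cfsg.Agent.H728.PM Cfsg.Agent.H136.P9

theorem t1650 : rng plan 1650 1 = true := by decide +kernel
theorem t1651 : rng plan 1651 1 = true := by decide +kernel
theorem t1652 : rng plan 1652 1 = true := by decide +kernel
theorem t1653 : rng plan 1653 1 = true := by decide +kernel
theorem t1654 : rng plan 1654 1 = true := by decide +kernel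
theorem t1655 : rng plan 1655 1 = true := by decide +kernel
theorem t1656 : rng plan 1656 1 = true := by decide +kernel
theorem t1657 : rng plan 1657 1 = true := by decide +kernel
theorem t1658 : rng plan 1658 1 = true := by decide +kernel
theorem t1659 : rng plan 1659 1 = true := by decide +kernel
theorem t1660 : rng plan 1660 1 = true := by decide +kernel
theorem t1661 : rng plan 1661 1 = true := by decide +kernel
theorem t1662 : rng plan 1662 1 = true := by decide +kernel
theorem t1663 : rng plan 1663 1 = true := by decide +kernel
theorem t1664 : rng plan 1664 1 = true := by decide +kernel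
theorem t1665 : rng plan 1665 1 = true := by decide +kernel
theorem t1666 : rng plan 1666 1 = true := by decide +kernel
theorem t1667 : rng plan 1667 1 = true := by decide +kernel
theorem t1668 : rng plan 1668 1 = true := by decide +kernel
theorem t1669 : rng plan 1669 1 = true := by decide +kernel
theorem t1670 : rng plan 1670 1 = true := by decide +kernel
theorem t1671 : rng plan 1671 1 = true := by decide +kernel
theorem t1672 : rng plan 1672 1 = true := by decide +kernel
theorem t1673 : rng plan 1673 1 = true := by decide +kernel
theorem t1674 : rng plan 1674 1 = true := by decide +kernel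
theorem t1675 : rng plan 1675 1 = true := by decide +kernel
theorem t1676 : rng plan 1676 1 = true := by decide +kernel
theorem t1677 : rng plan 1677 1 = true := by decide +kernel
theorem t1678 : rng plan 1678 1 = true := by decide +kernel
theorem t1679 : rng plan 1679 1 = true := by decide +kernel

theorem b55 (d : ℕ) (h1 : 1650 ≤ d) (h2 : d < 1680) : rng plan d 1 = true := by
  interval_cases d
  exacts [t1650, t1651, t1652, t1653, t1654, t1655, t1656, t1657, t1658, t1659, t1660, t1661, t1662, t1663, t1664, t1665, t1666, t1667, t1668, t1669, t1670, t1671, t1672, t1673, t1674, t1675, t1676, t1677, t1678, t1679]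

end Cfsg.Agent.H908.P9.Run
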