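import Cfsg.Agent.H728.PM.Run
import Cfsg.Agent.H136.P9.PlanData

/-! # S5925, box H: digit vectors 1680 .. 1709 (helper908) -/

set_option autoImplicit false
set_option Elab.async false
set_option maxRecDepth 100000

namespace Cfsg.Agent.H908.P9.Run
open Cfsg.Agent.H728.PM Cfsg.Agent.H136.P9

theorem t1680 : rng plan 1680 1 = true := by decide +kernel
theorem t1681 : rng plan 1681 1 = true := by decide +kernel
theorem t1682 : rng plan 1682 1 = true := by decide +kernel
theorem t1683 : rng plan 1683 1 = true := by decide +kernel
theorem t1684 : rng plan 1684 1 = true := by decide +kernel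
theorem t1685 : rng plan 1685 1 = true := by decide +kernel
theorem t1686 : rng plan 1686 1 = true := by decide +kernel
theorem t1687 : rng plan 1687 1 = true := by decide +kernel
theorem t1688 : rng plan 1688 1 = true := by decide +kernel
theorem t1689 : rng plan 1689 1 = true := by decide +kernel
theorem t1690 : rng plan 1690 1 = true := by decide +kernel
theorem t1691 : rng plan 1691 1 = true := by decide +kernel
theorem t1692 : rng plan 1692 1 = true := by decide +kernel
theorem t1693 : rng plan 1693 1 = true := by decide +kernel
theorem t1694 : rng plan 1694 1 = true := by decide +kernel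
theorem t1695 : rng plan 1695 1 = true := by decide +kernel
theorem t1696 : rng plan 1696 1 = true := by decide +kernel
theorem t1697 : rng plan 1697 1 = true := by decide +kernel
theorem t1698 : rng plan 1698 1 = true := by decide +kernel
theorem t1699 : rng plan 1699 1 = true := by decide +kernel
theorem t1700 : rng plan 1700 1 = true := by decide +kernel
theorem t1701 : rng plan 1701 1 = true := by decide +kernel
theorem t1702 : rng plan 1702 1 = true := by decide +kernel
theorem t1703 : rng plan 1703 1 = true := by decide +kernel
theorem t1704 : rng plan 1704 1 = true := by decide +kernel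
theorem t1705 : rng plan 1705 1 = true := by decide +kernel
theorem t1706 : rng plan 1706 1 = true := by decide +kernel
theorem t1707 : rng plan 1707 1 = true := by decide +kernel
theorem t1708 : rng plan 1708 1 = true := by decide +kernel
theorem t1709 : rng plan 1709 1 = true := by decide +kernel

theorem b56 (d : ℕ) (h1 : 1680 ≤ d) (h2 : d < 1710) : rng plan d 1 = true := by
  interval_cases d
  exacts [t1680, t1681, t1682, t1683, t1684, t1685, t1686, t1687, t1688, t1689, t1690, t1691, t1692, t1693, t1694, t1695, t1696, t1697, t1698, t1699, t1700, t1701, t1702, t1703, t1704, t1705, t1706, t1707, t1708, t1709]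

end Cfsg.Agent.H908.P9.Run
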