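import Cfsg.Agent.H728.PM.Run
import Cfsg.Agent.H136.P9.PlanData

/-! # S5925, box H: digit vectors 1710 .. 1739 (helper908) -/

set_option autoImplicit false
set_option Elab.async false
set_option maxRecDepth 100000

namespace Cfsg.Agent.H908.P9.Run
open Cfsg.Agent.H728.PM Cfsg.Agent.H136.P9

theorem t1710 : rng plan 1710 1 = true := by decide +kernel
theorem t1711 : rng plan 1711 1 = true := by decide +kernel
theorem t1712 : rng plan 1712 1 = true := by decide +kernel
theorem t1713 : rng plan 1713 1 = true := by decide +kernel
theorem t1714 : rng plan 1714 1 = true := by decide +kernel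
theorem t1715 : rng plan 1715 1 = true := by decide +kernel
theorem t1716 : rng plan 1716 1 = true := by decide +kernel
theorem t1717 : rng plan 1717 1 = true := by decide +kernel
theorem t1718 : rng plan 1718 1 = true := by decide +kernel
theorem t1719 : rng plan 1719 1 = true := by decide +kernel
theorem t1720 : rng plan 1720 1 = true := by decide +kernel
theorem t1721 : rng plan 1721 1 = true := by decide +kernel
theorem t1722 : rng plan 1722 1 = true := by decide +kernel
theorem t1723 : rng plan 1723 1 = true := by decide +kernel
theorem t1724 : rng plan 1724 1 = true := by decide +kernel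
theorem t1725 : rng plan 1725 1 = true := by decide +kernel
theorem t1726 : rng plan 1726 1 = true := by decide +kernel
theorem t1727 : rng plan 1727 1 = true := by decide +kernel
theorem t1728 : rng plan 1728 1 = true := by decide +kernel
theorem t1729 : rng plan 1729 1 = true := by decide +kernel
theorem t1730 : rng plan 1730 1 = true := by decide +kernel
theorem t1731 : rng plan 1731 1 = true := by decide +kernel
theorem t1732 : rng plan 1732 1 = true := by decide +kernel
theorem t1733 : rng plan 1733 1 = true := by decide +kernel
theorem t1734 : rng plan 1734 1 = true := by decide +kernel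
theorem t1735 : rng plan 1735 1 = true := by decide +kernel
theorem t1736 : rng plan 1736 1 = true := by decide +kernel
theorem t1737 : rng plan 1737 1 = true := by decide +kernel
theorem t1738 : rng plan 1738 1 = true := by decide +kernel
theorem t1739 : rng plan 1739 1 = true := by decide +kernel

theorem b57 (d : ℕ) (h1 : 1710 ≤ d) (h2 : d < 1740) : rng plan d 1 = true := by
  interval_cases d
  exacts [t1710, t1711, t1712, t1713, t1714, t1715, t1716, t1717, t1718, t1719, t1720, t1721, t1722, t1723, t1724, t1725, t1726, t1727, t1728, t1729, t1730, t1731, t1732, t1733, t1734, t1735, t1736, t1737, t1738, t1739]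

end Cfsg.Agent.H908.P9.Run
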