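import Cfsg.Agent.H728.PM.Run
import Cfsg.Agent.H136.P9.PlanData

/-! # S5925, box H: digit vectors 1740 .. 1769 (helper908) -/

set_option autoImplicit false
set_option Elab.async false
set_option maxRecDepth 100000

namespace Cfsg.Agent.H908.P9.Run
open Cfsg.Agent.H728.PM Cfsg.Agent.H136.P9

theorem t1740 : rng plan 1740 1 = true := by decide +kernel
theorem t1741 : rng plan 1741 1 = true := by decide +kernel
theorem t1742 : rng plan 1742 1 = true := by decide +kernel
theorem t1743 : rng plan 1743 1 = true := by decide +kernel
theorem t1744 : rng plan 1744 1 = true := by decide +kernel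
theorem t1745 : rng plan 1745 1 = true := by decide +kernel
theorem t1746 : rng plan 1746 1 = true := by decide +kernel
theorem t1747 : rng plan 1747 1 = true := by decide +kernel
theorem t1748 : rng plan 1748 1 = true := by decide +kernel
theorem t1749 : rng plan 1749 1 = true := by decide +kernel
theorem t1750 : rng plan 1750 1 = true := by decide +kernel
theorem t1751 : rng plan 1751 1 = true := by decide +kernel
theorem t1752 : rng plan 1752 1 = true := by decide +kernel
theorem t1753 : rng plan 1753 1 = true := by decide +kernel
theorem t1754 : rng plan 1754 1 = true := by decide +kernel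
theorem t1755 : rng plan 1755 1 = true := by decide +kernel
theorem t1756 : rng plan 1756 1 = true := by decide +kernel
theorem t1757 : rng plan 1757 1 = true := by decide +kernel
theorem t1758 : rng plan 1758 1 = true := by decide +kernel
theorem t1759 : rng plan 1759 1 = true := by decide +kernel
theorem t1760 : rng plan 1760 1 = true := by decide +kernel
theorem t1761 : rng plan 1761 1 = true := by decide +kernel
theorem t1762 : rng plan 1762 1 = true := by decide +kernel
theorem t1763 : rng plan 1763 1 = true := by decide +kernel
theorem t1764 : rng plan 1764 1 = true := by decide +kernel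
theorem t1765 : rng plan 1765 1 = true := by decide +kernel
theorem t1766 : rng plan 1766 1 = true := by decide +kernel
theorem t1767 : rng plan 1767 1 = true := by decide +kernel
theorem t1768 : rng plan 1768 1 = true := by decide +kernel
theorem t1769 : rng plan 1769 1 = true := by decide +kernel

theorem b58 (d : ℕ) (h1 : 1740 ≤ d) (h2 : d < 1770) : rng plan d 1 = true := by
  interval_cases d
  exacts [t1740, t1741, t1742, t1743, t1744, t1745, t1746, t1747, t1748, t1749, t1750, t1751, t1752, t1753, t1754, t1755, t1756, t1757, t1758, t1759, t1760, t1761, t1762, t1763, t1764, t1765, t1766, t1767, t1768, t1769]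

end Cfsg.Agent.H908.P9.Run
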