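import Cfsg.Agent.H728.PM.Run
import Cfsg.Agent.H136.P9.PlanData

/-! # S5925, box H: digit vectors 1770 .. 1799 (helper908) -/

set_option autoImplicit false
set_option Elab.async false
set_option maxRecDepth 100000

namespace Cfsg.Agent.H908.P9.Run
open Cfsg.Agent.H728.PM Cfsg.Agent.H136.P9

theorem t1770 : rng plan 1770 1 = true := by decide +kernel
theorem t1771 : rng plan 1771 1 = true := by decide +kernel
theorem t1772 : rng plan 1772 1 = true := by decide +kernel
theorem t1773 : rng plan 1773 1 = true := by decide +kernel
theorem t1774 : rng plan 1774 1 = true := by decide +kernel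
theorem t1775 : rng plan 1775 1 = true := by decide +kernel
theorem t1776 : rng plan 1776 1 = true := by decide +kernel
theorem t1777 : rng plan 1777 1 = true := by decide +kernel
theorem t1778 : rng plan 1778 1 = true := by decide +kernel
theorem t1779 : rng plan 1779 1 = true := by decide +kernel
theorem t1780 : rng plan 1780 1 = true := by decide +kernel
theorem t1781 : rng plan 1781 1 = true := by decide +kernel
theorem t1782 : rng plan 1782 1 = true := by decide +kernel
theorem t1783 : rng plan 1783 1 = true := by decide +kernel
theorem t1784 : rng plan 1784 1 = true := by decide +kernel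
theorem t1785 : rng plan 1785 1 = true := by decide +kernel
theorem t1786 : rng plan 1786 1 = true := by decide +kernel
theorem t1787 : rng plan 1787 1 = true := by decide +kernel
theorem t1788 : rng plan 1788 1 = true := by decide +kernel
theorem t1789 : rng plan 1789 1 = true := by decide +kernel
theorem t1790 : rng plan 1790 1 = true := by decide +kernel
theorem t1791 : rng plan 1791 1 = true := by decide +kernel
theorem t1792 : rng plan 1792 1 = true := by decide +kernel
theorem t1793 : rng plan 1793 1 = true := by decide +kernel
theorem t1794 : rng plan 1794 1 = true := by decide +kernel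
theorem t1795 : rng plan 1795 1 = true := by decide +kernel
theorem t1796 : rng plan 1796 1 = true := by decide +kernel
theorem t1797 : rng plan 1797 1 = true := by decide +kernel
theorem t1798 : rng plan 1798 1 = true := by decide +kernel
theorem t1799 : rng plan 1799 1 = true := by decide +kernel

theorem b59 (d : ℕ) (h1 : 1770 ≤ d) (h2 : d < 1800) : rng plan d 1 = true := by
  interval_cases d
  exacts [t1770, t1771, t1772, t1773, t1774, t1775, t1776, t1777, t1778, t1779, t1780, t1781, t1782, t1783, t1784, t1785, t1786, t1787, t1788, t1789, t1790, t1791, t1792, t1793, t1794, t1795, t1796, t1797, t1798, t1799]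

end Cfsg.Agent.H908.P9.Run
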