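import Cfsg.Agent.H728.PM.Run
import Cfsg.Agent.H136.P9.PlanData

/-! # S5925, box H: digit vectors 1800 .. 1829 (helper908) -/

set_option autoImplicit false
set_option Elab.async false
set_option maxRecDepth 100000

namespace Cfsg.Agent.H908.P9.Run
open Cfsg.Agent.H728.PM Cfsg.Agent.H136.P9

theorem t1800 : rng plan 1800 1 = true := by decide +kernel
theorem t1801 : rng plan 1801 1 = true := by decide +kernel
theorem t1802 : rng plan 1802 1 = true := by decide +kernel
theorem t1803 : rng plan 1803 1 = true := by decide +kernel
theorem t1804 : rng plan 1804 1 = true := by decide +kernel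
theorem t1805 : rng plan 1805 1 = true := by decide +kernel
theorem t1806 : rng plan 1806 1 = true := by decide +kernel
theorem t1807 : rng plan 1807 1 = true := by decide +kernel
theorem t1808 : rng plan 1808 1 = true := by decide +kernel
theorem t1809 : rng plan 1809 1 = true := by decide +kernel
theorem t1810 : rng plan 1810 1 = true := by decide +kernel
theorem t1811 : rng plan 1811 1 = true := by decide +kernel
theorem t1812 : rng plan 1812 1 = true := by decide +kernel
theorem t1813 : rng plan 1813 1 = true := by decide +kernel
theorem t1814 : rng plan 1814 1 = true := by decide +kernel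
theorem t1815 : rng plan 1815 1 = true := by decide +kernel
theorem t1816 : rng plan 1816 1 = true := by decide +kernel
theorem t1817 : rng plan 1817 1 = true := by decide +kernel
theorem t1818 : rng plan 1818 1 = true := by decide +kernel
theorem t1819 : rng plan 1819 1 = true := by decide +kernel
theorem t1820 : rng plan 1820 1 = true := by decide +kernel
theorem t1821 : rng plan 1821 1 = true := by decide +kernel
theorem t1822 : rng plan 1822 1 = true := by decide +kernel
theorem t1823 : rng plan 1823 1 = true := by decide +kernel
theorem t1824 : rng plan 1824 1 = true := by decide +kernel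
theorem t1825 : rng plan 1825 1 = true := by decide +kernel
theorem t1826 : rng plan 1826 1 = true := by decide +kernel
theorem t1827 : rng plan 1827 1 = true := by decide +kernel
theorem t1828 : rng plan 1828 1 = true := by decide +kernel
theorem t1829 : rng plan 1829 1 = true := by decide +kernel

theorem b60 (d : ℕ) (h1 : 1800 ≤ d) (h2 : d < 1830) : rng plan d 1 = true := by
  interval_cases d
  exacts [t1800, t1801, t1802, t1803, t1804, t1805, t1806, t1807, t1808, t1809, t1810, t1811, t1812, t1813, t1814, t1815, t1816, t1817, t1818, t1819, t1820, t1821, t1822, t1823, t1824, t1825, t1826, t1827, t1828, t1829]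

end Cfsg.Agent.H908.P9.Run
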