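import Cfsg.Agent.H728.PM.Run
import Cfsg.Agent.H136.P9.PlanData

/-! # S5925, box H: digit vectors 1830 .. 1859 (helper908) -/

set_option autoImplicit false
set_option Elab.async false
set_option maxRecDepth 100000

namespace Cfsg.Agent.H908.P9.Run
open Cfsg.Agent.H728.PM Cfsg.Agent.H136.P9

theorem t1830 : rng plan 1830 1 = true := by decide +kernel
theorem t1831 : rng plan 1831 1 = true := by decide +kernel
theorem t1832 : rng plan 1832 1 = true := by decide +kernel
theorem t1833 : rng plan 1833 1 = true := by decide +kernel
theorem t1834 : rng plan 1834 1 = true := by decide +kernel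
theorem t1835 : rng plan 1835 1 = true := by decide +kernel
theorem t1836 : rng plan 1836 1 = true := by decide +kernel
theorem t1837 : rng plan 1837 1 = true := by decide +kernel
theorem t1838 : rng plan 1838 1 = true := by decide +kernel
theorem t1839 : rng plan 1839 1 = true := by decide +kernel
theorem t1840 : rng plan 1840 1 = true := by decide +kernel
theorem t1841 : rng plan 1841 1 = true := by decide +kernel
theorem t1842 : rng plan 1842 1 = true := by decide +kernel
theorem t1843 : rng plan 1843 1 = true := by decide +kernel
theorem t1844 : rng plan 1844 1 = true := by decide +kernel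
theorem t1845 : rng plan 1845 1 = true := by decide +kernel
theorem t1846 : rng plan 1846 1 = true := by decide +kernel
theorem t1847 : rng plan 1847 1 = true := by decide +kernel
theorem t1848 : rng plan 1848 1 = true := by decide +kernel
theorem t1849 : rng plan 1849 1 = true := by decide +kernel
theorem t1850 : rng plan 1850 1 = true := by decide +kernel
theorem t1851 : rng plan 1851 1 = true := by decide +kernel
theorem t1852 : rng plan 1852 1 = true := by decide +kernel
theorem t1853 : rng plan 1853 1 = true := by decide +kernel
theorem t1854 : rng plan 1854 1 = true := by decide +kernel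
theorem t1855 : rng plan 1855 1 = true := by decide +kernel
theorem t1856 : rng plan 1856 1 = true := by decide +kernel
theorem t1857 : rng plan 1857 1 = true := by decide +kernel
theorem t1858 : rng plan 1858 1 = true := by decide +kernel
theorem t1859 : rng plan 1859 1 = true := by decide +kernel

theorem b61 (d : ℕ) (h1 : 1830 ≤ d) (h2 : d < 1860) : rng plan d 1 = true := by
  interval_cases d
  exacts [t1830, t1831, t1832, t1833, t1834, t1835, t1836, t1837, t1838, t1839, t1840, t1841, t1842, t1843, t1844, t1845, t1846, t1847, t1848, t1849, t1850, t1851, t1852, t1853, t1854, t1855, t1856, t1857, t1858, t1859]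

end Cfsg.Agent.H908.P9.Run
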