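import Cfsg.Agent.H728.PM.Run
import Cfsg.Agent.H136.P9.PlanData

/-! # S5925, box H: digit vectors 1860 .. 1889 (helper908) -/

set_option autoImplicit false
set_option Elab.async false
set_option maxRecDepth 100000

namespace Cfsg.Agent.H908.P9.Run
open Cfsg.Agent.H728.PM Cfsg.Agent.H136.P9

theorem t1860 : rng plan 1860 1 = true := by decide +kernel
theorem t1861 : rng plan 1861 1 = true := by decide +kernel
theorem t1862 : rng plan 1862 1 = true := by decide +kernel
theorem t1863 : rng plan 1863 1 = true := by decide +kernel
theorem t1864 : rng plan 1864 1 = true := by decide +kernel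
theorem t1865 : rng plan 1865 1 = true := by decide +kernel
theorem t1866 : rng plan 1866 1 = true := by decide +kernel
theorem t1867 : rng plan 1867 1 = true := by decide +kernel
theorem t1868 : rng plan 1868 1 = true := by decide +kernel
theorem t1869 : rng plan 1869 1 = true := by decide +kernel
theorem t1870 : rng plan 1870 1 = true := by decide +kernel
theorem t1871 : rng plan 1871 1 = true := by decide +kernel
theorem t1872 : rng plan 1872 1 = true := by decide +kernel
theorem t1873 : rng plan 1873 1 = true := by decide +kernel
theorem t1874 : rng plan 1874 1 = true := by decide +kernel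
theorem t1875 : rng plan 1875 1 = true := by decide +kernel
theorem t1876 : rng plan 1876 1 = true := by decide +kernel
theorem t1877 : rng plan 1877 1 = true := by decide +kernel
theorem t1878 : rng plan 1878 1 = true := by decide +kernel
theorem t1879 : rng plan 1879 1 = true := by decide +kernel
theorem t1880 : rng plan 1880 1 = true := by decide +kernel
theorem t1881 : rng plan 1881 1 = true := by decide +kernel
theorem t1882 : rng plan 1882 1 = true := by decide +kernel
theorem t1883 : rng plan 1883 1 = true := by decide +kernel
theorem t1884 : rng plan 1884 1 = true := by decide +kernel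
theorem t1885 : rng plan 1885 1 = true := by decide +kernel
theorem t1886 : rng plan 1886 1 = true := by decide +kernel
theorem t1887 : rng plan 1887 1 = true := by decide +kernel
theorem t1888 : rng plan 1888 1 = true := by decide +kernel
theorem t1889 : rng plan 1889 1 = true := by decide +kernel

theorem b62 (d : ℕ) (h1 : 1860 ≤ d) (h2 : d < 1890) : rng plan d 1 = true := by
  interval_cases d
  exacts [t1860, t1861, t1862, t1863, t1864, t1865, t1866, t1867, t1868, t1869, t1870, t1871, t1872, t1873, t1874, t1875, t1876, t1877, t1878, t1879, t1880, t1881, t1882, t1883, t1884, t1885, t1886, t1887, t1888, t1889]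

end Cfsg.Agent.H908.P9.Run
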