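import Cfsg.Agent.H728.PM.Run
import Cfsg.Agent.H136.P9.PlanData

/-! # S5925, box H: digit vectors 1890 .. 1919 (helper908) -/

set_option autoImplicit false
set_option Elab.async false
set_option maxRecDepth 100000

namespace Cfsg.Agent.H908.P9.Run
open Cfsg.Agent.H728.PM Cfsg.Agent.H136.P9

theorem t1890 : rng plan 1890 1 = true := by decide +kernel
theorem t1891 : rng plan 1891 1 = true := by decide +kernel
theorem t1892 : rng plan 1892 1 = true := by decide +kernel
theorem t1893 : rng plan 1893 1 = true := by decide +kernel
theorem t1894 : rng plan 1894 1 = true := by decide +kernel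
theorem t1895 : rng plan 1895 1 = true := by decide +kernel
theorem t1896 : rng plan 1896 1 = true := by decide +kernel
theorem t1897 : rng plan 1897 1 = true := by decide +kernel
theorem t1898 : rng plan 1898 1 = true := by decide +kernel
theorem t1899 : rng plan 1899 1 = true := by decide +kernel
theorem t1900 : rng plan 1900 1 = true := by decide +kernel
theorem t1901 : rng plan 1901 1 = true := by decide +kernel
theorem t1902 : rng plan 1902 1 = true := by decide +kernel
theorem t1903 : rng plan 1903 1 = true := by decide +kernel
theorem t1904 : rng plan 1904 1 = true := by decide +kernel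
theorem t1905 : rng plan 1905 1 = true := by decide +kernel
theorem t1906 : rng plan 1906 1 = true := by decide +kernel
theorem t1907 : rng plan 1907 1 = true := by decide +kernel
theorem t1908 : rng plan 1908 1 = true := by decide +kernel
theorem t1909 : rng plan 1909 1 = true := by decide +kernel
theorem t1910 : rng plan 1910 1 = true := by decide +kernel
theorem t1911 : rng plan 1911 1 = true := by decide +kernel
theorem t1912 : rng plan 1912 1 = true := by decide +kernel
theorem t1913 : rng plan 1913 1 = true := by decide +kernel
theorem t1914 : rng plan 1914 1 = true := by decide +kernel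
theorem t1915 : rng plan 1915 1 = true := by decide +kernel
theorem t1916 : rng plan 1916 1 = true := by decide +kernel
theorem t1917 : rng plan 1917 1 = true := by decide +kernel
theorem t1918 : rng plan 1918 1 = true := by decide +kernel
theorem t1919 : rng plan 1919 1 = true := by decide +kernel

theorem b63 (d : ℕ) (h1 : 1890 ≤ d) (h2 : d < 1920) : rng plan d 1 = true := by
  interval_cases d
  exacts [t1890, t1891, t1892, t1893, t1894, t1895, t1896, t1897, t1898, t1899, t1900, t1901, t1902, t1903, t1904, t1905, t1906, t1907, t1908, t1909, t1910, t1911, t1912, t1913, t1914, t1915, t1916, t1917, t1918, t1919]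

end Cfsg.Agent.H908.P9.Run
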