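import Cfsg.Agent.H728.PM.Run
import Cfsg.Agent.H136.P9.PlanData

/-! # S5925, box H: digit vectors 1920 .. 1949 (helper908) -/

set_option autoImplicit false
set_option Elab.async false
set_option maxRecDepth 100000

namespace Cfsg.Agent.H908.P9.Run
open Cfsg.Agent.H728.PM Cfsg.Agent.H136.P9

theorem t1920 : rng plan 1920 1 = true := by decide +kernel
theorem t1921 : rng plan 1921 1 = true := by decide +kernel
theorem t1922 : rng plan 1922 1 = true := by decide +kernel
theorem t1923 : rng plan 1923 1 = true := by decide +kernel
theorem t1924 : rng plan 1924 1 = true := by decide +kernel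
theorem t1925 : rng plan 1925 1 = true := by decide +kernel
theorem t1926 : rng plan 1926 1 = true := by decide +kernel
theorem t1927 : rng plan 1927 1 = true := by decide +kernel
theorem t1928 : rng plan 1928 1 = true := by decide +kernel
theorem t1929 : rng plan 1929 1 = true := by decide +kernel
theorem t1930 : rng plan 1930 1 = true := by decide +kernel
theorem t1931 : rng plan 1931 1 = true := by decide +kernel
theorem t1932 : rng plan 1932 1 = true := by decide +kernel
theorem t1933 : rng plan 1933 1 = true := by decide +kernel
theorem t1934 : rng plan 1934 1 = true := by decide +kernel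
theorem t1935 : rng plan 1935 1 = true := by decide +kernel
theorem t1936 : rng plan 1936 1 = true := by decide +kernel
theorem t1937 : rng plan 1937 1 = true := by decide +kernel
theorem t1938 : rng plan 1938 1 = true := by decide +kernel
theorem t1939 : rng plan 1939 1 = true := by decide +kernel
theorem t1940 : rng plan 1940 1 = true := by decide +kernel
theorem t1941 : rng plan 1941 1 = true := by decide +kernel
theorem t1942 : rng plan 1942 1 = true := by decide +kernel
theorem t1943 : rng plan 1943 1 = true := by decide +kernel
theorem t1944 : rng plan 1944 1 = true := by decide +kernel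
theorem t1945 : rng plan 1945 1 = true := by decide +kernel
theorem t1946 : rng plan 1946 1 = true := by decide +kernel
theorem t1947 : rng plan 1947 1 = true := by decide +kernel
theorem t1948 : rng plan 1948 1 = true := by decide +kernel
theorem t1949 : rng plan 1949 1 = true := by decide +kernel

theorem b64 (d : ℕ) (h1 : 1920 ≤ d) (h2 : d < 1950) : rng plan d 1 = true := by
  interval_cases d
  exacts [t1920, t1921, t1922, t1923, t1924, t1925, t1926, t1927, t1928, t1929, t1930, t1931, t1932, t1933, t1934, t1935, t1936, t1937, t1938, t1939, t1940, t1941, t1942, t1943, t1944, t1945, t1946, t1947, t1948, t1949]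

end Cfsg.Agent.H908.P9.Run
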