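import Cfsg.Agent.H728.PM.Run
import Cfsg.Agent.H136.P9.PlanData

/-! # S5925, box H: digit vectors 1950 .. 1979 (helper908) -/

set_option autoImplicit false
set_option Elab.async false
set_option maxRecDepth 100000

namespace Cfsg.Agent.H908.P9.Run
open Cfsg.Agent.H728.PM Cfsg.Agent.H136.P9

theorem t1950 : rng plan 1950 1 = true := by decide +kernel
theorem t1951 : rng plan 1951 1 = true := by decide +kernel
theorem t1952 : rng plan 1952 1 = true := by decide +kernel
theorem t1953 : rng plan 1953 1 = true := by decide +kernel
theorem t1954 : rng plan 1954 1 = true := by decide +kernel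
theorem t1955 : rng plan 1955 1 = true := by decide +kernel
theorem t1956 : rng plan 1956 1 = true := by decide +kernel
theorem t1957 : rng plan 1957 1 = true := by decide +kernel
theorem t1958 : rng plan 1958 1 = true := by decide +kernel
theorem t1959 : rng plan 1959 1 = true := by decide +kernel
theorem t1960 : rng plan 1960 1 = true := by decide +kernel
theorem t1961 : rng plan 1961 1 = true := by decide +kernel
theorem t1962 : rng plan 1962 1 = true := by decide +kernel
theorem t1963 : rng plan 1963 1 = true := by decide +kernel
theorem t1964 : rng plan 1964 1 = true := by decide +kernel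
theorem t1965 : rng plan 1965 1 = true := by decide +kernel
theorem t1966 : rng plan 1966 1 = true := by decide +kernel
theorem t1967 : rng plan 1967 1 = true := by decide +kernel
theorem t1968 : rng plan 1968 1 = true := by decide +kernel
theorem t1969 : rng plan 1969 1 = true := by decide +kernel
theorem t1970 : rng plan 1970 1 = true := by decide +kernel
theorem t1971 : rng plan 1971 1 = true := by decide +kernel
theorem t1972 : rng plan 1972 1 = true := by decide +kernel
theorem t1973 : rng plan 1973 1 = true := by decide +kernel
theorem t1974 : rng plan 1974 1 = true := by decide +kernel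
theorem t1975 : rng plan 1975 1 = true := by decide +kernel
theorem t1976 : rng plan 1976 1 = true := by decide +kernel
theorem t1977 : rng plan 1977 1 = true := by decide +kernel
theorem t1978 : rng plan 1978 1 = true := by decide +kernel
theorem t1979 : rng plan 1979 1 = true := by decide +kernel

theorem b65 (d : ℕ) (h1 : 1950 ≤ d) (h2 : d < 1980) : rng plan d 1 = true := by
  interval_cases d
  exacts [t1950, t1951, t1952, t1953, t1954, t1955, t1956, t1957, t1958, t1959, t1960, t1961, t1962, t1963, t1964, t1965, t1966, t1967, t1968, t1969, t1970, t1971, t1972, t1973, t1974, t1975, t1976, t1977, t1978, t1979]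

end Cfsg.Agent.H908.P9.Run
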