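import Cfsg.Agent.H728.PM.Run
import Cfsg.Agent.H136.P9.PlanData

/-! # S5925, box H: digit vectors 1980 .. 2009 (helper908) -/

set_option autoImplicit false
set_option Elab.async false
set_option maxRecDepth 100000

namespace Cfsg.Agent.H908.P9.Run
open Cfsg.Agent.H728.PM Cfsg.Agent.H136.P9

theorem t1980 : rng plan 1980 1 = true := by decide +kernel
theorem t1981 : rng plan 1981 1 = true := by decide +kernel
theorem t1982 : rng plan 1982 1 = true := by decide +kernel
theorem t1983 : rng plan 1983 1 = true := by decide +kernel
theorem t1984 : rng plan 1984 1 = true := by decide +kernel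
theorem t1985 : rng plan 1985 1 = true := by decide +kernel
theorem t1986 : rng plan 1986 1 = true := by decide +kernel
theorem t1987 : rng plan 1987 1 = true := by decide +kernel
theorem t1988 : rng plan 1988 1 = true := by decide +kernel
theorem t1989 : rng plan 1989 1 = true := by decide +kernel
theorem t1990 : rng plan 1990 1 = true := by decide +kernel
theorem t1991 : rng plan 1991 1 = true := by decide +kernel
theorem t1992 : rng plan 1992 1 = true := by decide +kernel
theorem t1993 : rng plan 1993 1 = true := by decide +kernel
theorem t1994 : rng plan 1994 1 = true := by decide +kernel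
theorem t1995 : rng plan 1995 1 = true := by decide +kernel
theorem t1996 : rng plan 1996 1 = true := by decide +kernel
theorem t1997 : rng plan 1997 1 = true := by decide +kernel
theorem t1998 : rng plan 1998 1 = true := by decide +kernel
theorem t1999 : rng plan 1999 1 = true := by decide +kernel
theorem t2000 : rng plan 2000 1 = true := by decide +kernel
theorem t2001 : rng plan 2001 1 = true := by decide +kernel
theorem t2002 : rng plan 2002 1 = true := by decide +kernel
theorem t2003 : rng plan 2003 1 = true := by decide +kernel
theorem t2004 : rng plan 2004 1 = true := by decide +kernel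
theorem t2005 : rng plan 2005 1 = true := by decide +kernel
theorem t2006 : rng plan 2006 1 = true := by decide +kernel
theorem t2007 : rng plan 2007 1 = true := by decide +kernel
theorem t2008 : rng plan 2008 1 = true := by decide +kernel
theorem t2009 : rng plan 2009 1 = true := by decide +kernel

theorem b66 (d : ℕ) (h1 : 1980 ≤ d) (h2 : d < 2010) : rng plan d 1 = true := by
  interval_cases d
  exacts [t1980, t1981, t1982, t1983, t1984, t1985, t1986, t1987, t1988, t1989, t1990, t1991, t1992, t1993, t1994, t1995, t1996, t1997, t1998, t1999, t2000, t2001, t2002, t2003, t2004, t2005, t2006, t2007, t2008, t2009]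

end Cfsg.Agent.H908.P9.Run
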