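import Cfsg.Agent.H728.PM.Run
import Cfsg.Agent.H136.P9.PlanData

/-! # S5925, box H: digit vectors 2010 .. 2039 (helper908) -/

set_option autoImplicit false
set_option Elab.async false
set_option maxRecDepth 100000

namespace Cfsg.Agent.H908.P9.Run
open Cfsg.Agent.H728.PM Cfsg.Agent.H136.P9

theorem t2010 : rng plan 2010 1 = true := by decide +kernel
theorem t2011 : rng plan 2011 1 = true := by decide +kernel
theorem t2012 : rng plan 2012 1 = true := by decide +kernel
theorem t2013 : rng plan 2013 1 = true := by decide +kernel
theorem t2014 : rng plan 2014 1 = true := by decide +kernel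
theorem t2015 : rng plan 2015 1 = true := by decide +kernel
theorem t2016 : rng plan 2016 1 = true := by decide +kernel
theorem t2017 : rng plan 2017 1 = true := by decide +kernel
theorem t2018 : rng plan 2018 1 = true := by decide +kernel
theorem t2019 : rng plan 2019 1 = true := by decide +kernel
theorem t2020 : rng plan 2020 1 = true := by decide +kernel
theorem t2021 : rng plan 2021 1 = true := by decide +kernel
theorem t2022 : rng plan 2022 1 = true := by decide +kernel
theorem t2023 : rng plan 2023 1 = true := by decide +kernel
theorem t2024 : rng plan 2024 1 = true := by decide +kernel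
theorem t2025 : rng plan 2025 1 = true := by decide +kernel
theorem t2026 : rng plan 2026 1 = true := by decide +kernel
theorem t2027 : rng plan 2027 1 = true := by decide +kernel
theorem t2028 : rng plan 2028 1 = true := by decide +kernel
theorem t2029 : rng plan 2029 1 = true := by decide +kernel
theorem t2030 : rng plan 2030 1 = true := by decide +kernel
theorem t2031 : rng plan 2031 1 = true := by decide +kernel
theorem t2032 : rng plan 2032 1 = true := by decide +kernel
theorem t2033 : rng plan 2033 1 = true := by decide +kernel
theorem t2034 : rng plan 2034 1 = true := by decide +kernel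
theorem t2035 : rng plan 2035 1 = true := by decide +kernel
theorem t2036 : rng plan 2036 1 = true := by decide +kernel
theorem t2037 : rng plan 2037 1 = true := by decide +kernel
theorem t2038 : rng plan 2038 1 = true := by decide +kernel
theorem t2039 : rng plan 2039 1 = true := by decide +kernel

theorem b67 (d : ℕ) (h1 : 2010 ≤ d) (h2 : d < 2040) : rng plan d 1 = true := by
  interval_cases d
  exacts [t2010, t2011, t2012, t2013, t2014, t2015, t2016, t2017, t2018, t2019, t2020, t2021, t2022, t2023, t2024, t2025, t2026, t2027, t2028, t2029, t2030, t2031, t2032, t2033, t2034, t2035, t2036, t2037, t2038, t2039]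

end Cfsg.Agent.H908.P9.Run
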