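import Cfsg.Agent.H728.PM.Run
import Cfsg.Agent.H136.P9.PlanData

/-! # S5925, box H: digit vectors 2040 .. 2069 (helper908) -/

set_option autoImplicit false
set_option Elab.async false
set_option maxRecDepth 100000

namespace Cfsg.Agent.H908.P9.Run
open Cfsg.Agent.H728.PM Cfsg.Agent.H136.P9

theorem t2040 : rng plan 2040 1 = true := by decide +kernel
theorem t2041 : rng plan 2041 1 = true := by decide +kernel
theorem t2042 : rng plan 2042 1 = true := by decide +kernel
theorem t2043 : rng plan 2043 1 = true := by decide +kernel
theorem t2044 : rng plan 2044 1 = true := by decide +kernel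
theorem t2045 : rng plan 2045 1 = true := by decide +kernel
theorem t2046 : rng plan 2046 1 = true := by decide +kernel
theorem t2047 : rng plan 2047 1 = true := by decide +kernel
theorem t2048 : rng plan 2048 1 = true := by decide +kernel
theorem t2049 : rng plan 2049 1 = true := by decide +kernel
theorem t2050 : rng plan 2050 1 = true := by decide +kernel
theorem t2051 : rng plan 2051 1 = true := by decide +kernel
theorem t2052 : rng plan 2052 1 = true := by decide +kernel
theorem t2053 : rng plan 2053 1 = true := by decide +kernel
theorem t2054 : rng plan 2054 1 = true := by decide +kernel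
theorem t2055 : rng plan 2055 1 = true := by decide +kernel
theorem t2056 : rng plan 2056 1 = true := by decide +kernel
theorem t2057 : rng plan 2057 1 = true := by decide +kernel
theorem t2058 : rng plan 2058 1 = true := by decide +kernel
theorem t2059 : rng plan 2059 1 = true := by decide +kernel
theorem t2060 : rng plan 2060 1 = true := by decide +kernel
theorem t2061 : rng plan 2061 1 = true := by decide +kernel
theorem t2062 : rng plan 2062 1 = true := by decide +kernel
theorem t2063 : rng plan 2063 1 = true := by decide +kernel
theorem t2064 : rng plan 2064 1 = true := by decide +kernel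
theorem t2065 : rng plan 2065 1 = true := by decide +kernel
theorem t2066 : rng plan 2066 1 = true := by decide +kernel
theorem t2067 : rng plan 2067 1 = true := by decide +kernel
theorem t2068 : rng plan 2068 1 = true := by decide +kernel
theorem t2069 : rng plan 2069 1 = true := by decide +kernel

theorem b68 (d : ℕ) (h1 : 2040 ≤ d) (h2 : d < 2070) : rng plan d 1 = true := by
  interval_cases d
  exacts [t2040, t2041, t2042, t2043, t2044, t2045, t2046, t2047, t2048, t2049, t2050, t2051, t2052, t2053, t2054, t2055, t2056, t2057, t2058, t2059, t2060, t2061, t2062, t2063, t2064, t2065, t2066, t2067, t2068, t2069]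

end Cfsg.Agent.H908.P9.Run
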