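import Cfsg.Agent.H728.PM.Run
import Cfsg.Agent.H136.P9.PlanData

/-! # S5925, box H: digit vectors 2070 .. 2099 (helper908) -/

set_option autoImplicit false
set_option Elab.async false
set_option maxRecDepth 100000

namespace Cfsg.Agent.H908.P9.Run
open Cfsg.Agent.H728.PM Cfsg.Agent.H136.P9

theorem t2070 : rng plan 2070 1 = true := by decide +kernel
theorem t2071 : rng plan 2071 1 = true := by decide +kernel
theorem t2072 : rng plan 2072 1 = true := by decide +kernel
theorem t2073 : rng plan 2073 1 = true := by decide +kernel
theorem t2074 : rng plan 2074 1 = true := by decide +kernel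
theorem t2075 : rng plan 2075 1 = true := by decide +kernel
theorem t2076 : rng plan 2076 1 = true := by decide +kernel
theorem t2077 : rng plan 2077 1 = true := by decide +kernel
theorem t2078 : rng plan 2078 1 = true := by decide +kernel
theorem t2079 : rng plan 2079 1 = true := by decide +kernel
theorem t2080 : rng plan 2080 1 = true := by decide +kernel
theorem t2081 : rng plan 2081 1 = true := by decide +kernel
theorem t2082 : rng plan 2082 1 = true := by decide +kernel
theorem t2083 : rng plan 2083 1 = true := by decide +kernel
theorem t2084 : rng plan 2084 1 = true := by decide +kernel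
theorem t2085 : rng plan 2085 1 = true := by decide +kernel
theorem t2086 : rng plan 2086 1 = true := by decide +kernel
theorem t2087 : rng plan 2087 1 = true := by decide +kernel
theorem t2088 : rng plan 2088 1 = true := by decide +kernel
theorem t2089 : rng plan 2089 1 = true := by decide +kernel
theorem t2090 : rng plan 2090 1 = true := by decide +kernel
theorem t2091 : rng plan 2091 1 = true := by decide +kernel
theorem t2092 : rng plan 2092 1 = true := by decide +kernel
theorem t2093 : rng plan 2093 1 = true := by decide +kernel
theorem t2094 : rng plan 2094 1 = true := by decide +kernel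
theorem t2095 : rng plan 2095 1 = true := by decide +kernel
theorem t2096 : rng plan 2096 1 = true := by decide +kernel
theorem t2097 : rng plan 2097 1 = true := by decide +kernel
theorem t2098 : rng plan 2098 1 = true := by decide +kernel
theorem t2099 : rng plan 2099 1 = true := by decide +kernel

theorem b69 (d : ℕ) (h1 : 2070 ≤ d) (h2 : d < 2100) : rng plan d 1 = true := by
  interval_cases d
  exacts [t2070, t2071, t2072, t2073, t2074, t2075, t2076, t2077, t2078, t2079, t2080, t2081, t2082, t2083, t2084, t2085, t2086, t2087, t2088, t2089, t2090, t2091, t2092, t2093, t2094, t2095, t2096, t2097, t2098, t2099]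

end Cfsg.Agent.H908.P9.Run
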