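import Cfsg.Agent.H728.PM.Run
import Cfsg.Agent.H136.P9.PlanData

/-! # S5925, box H: digit vectors 2100 .. 2129 (helper908) -/

set_option autoImplicit false
set_option Elab.async false
set_option maxRecDepth 100000

namespace Cfsg.Agent.H908.P9.Run
open Cfsg.Agent.H728.PM Cfsg.Agent.H136.P9

theorem t2100 : rng plan 2100 1 = true := by decide +kernel
theorem t2101 : rng plan 2101 1 = true := by decide +kernel
theorem t2102 : rng plan 2102 1 = true := by decide +kernel
theorem t2103 : rng plan 2103 1 = true := by decide +kernel
theorem t2104 : rng plan 2104 1 = true := by decide +kernel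
theorem t2105 : rng plan 2105 1 = true := by decide +kernel
theorem t2106 : rng plan 2106 1 = true := by decide +kernel
theorem t2107 : rng plan 2107 1 = true := by decide +kernel
theorem t2108 : rng plan 2108 1 = true := by decide +kernel
theorem t2109 : rng plan 2109 1 = true := by decide +kernel
theorem t2110 : rng plan 2110 1 = true := by decide +kernel
theorem t2111 : rng plan 2111 1 = true := by decide +kernel
theorem t2112 : rng plan 2112 1 = true := by decide +kernel
theorem t2113 : rng plan 2113 1 = true := by decide +kernel
theorem t2114 : rng plan 2114 1 = true := by decide +kernel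
theorem t2115 : rng plan 2115 1 = true := by decide +kernel
theorem t2116 : rng plan 2116 1 = true := by decide +kernel
theorem t2117 : rng plan 2117 1 = true := by decide +kernel
theorem t2118 : rng plan 2118 1 = true := by decide +kernel
theorem t2119 : rng plan 2119 1 = true := by decide +kernel
theorem t2120 : rng plan 2120 1 = true := by decide +kernel
theorem t2121 : rng plan 2121 1 = true := by decide +kernel
theorem t2122 : rng plan 2122 1 = true := by decide +kernel
theorem t2123 : rng plan 2123 1 = true := by decide +kernel
theorem t2124 : rng plan 2124 1 = true := by decide +kernel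
theorem t2125 : rng plan 2125 1 = true := by decide +kernel
theorem t2126 : rng plan 2126 1 = true := by decide +kernel
theorem t2127 : rng plan 2127 1 = true := by decide +kernel
theorem t2128 : rng plan 2128 1 = true := by decide +kernel
theorem t2129 : rng plan 2129 1 = true := by decide +kernel

theorem b70 (d : ℕ) (h1 : 2100 ≤ d) (h2 : d < 2130) : rng plan d 1 = true := by
  interval_cases d
  exacts [t2100, t2101, t2102, t2103, t2104, t2105, t2106, t2107, t2108, t2109, t2110, t2111, t2112, t2113, t2114, t2115, t2116, t2117, t2118, t2119, t2120, t2121, t2122, t2123, t2124, t2125, t2126, t2127, t2128, t2129]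

end Cfsg.Agent.H908.P9.Run
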