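import Cfsg.Agent.H728.PM.Run
import Cfsg.Agent.H136.P9.PlanData

/-! # S5925, box H: digit vectors 2130 .. 2159 (helper908) -/

set_option autoImplicit false
set_option Elab.async false
set_option maxRecDepth 100000

namespace Cfsg.Agent.H908.P9.Run
open Cfsg.Agent.H728.PM Cfsg.Agent.H136.P9

theorem t2130 : rng plan 2130 1 = true := by decide +kernel
theorem t2131 : rng plan 2131 1 = true := by decide +kernel
theorem t2132 : rng plan 2132 1 = true := by decide +kernel
theorem t2133 : rng plan 2133 1 = true := by decide +kernel
theorem t2134 : rng plan 2134 1 = true := by decide +kernel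
theorem t2135 : rng plan 2135 1 = true := by decide +kernel
theorem t2136 : rng plan 2136 1 = true := by decide +kernel
theorem t2137 : rng plan 2137 1 = true := by decide +kernel
theorem t2138 : rng plan 2138 1 = true := by decide +kernel
theorem t2139 : rng plan 2139 1 = true := by decide +kernel
theorem t2140 : rng plan 2140 1 = true := by decide +kernel
theorem t2141 : rng plan 2141 1 = true := by decide +kernel
theorem t2142 : rng plan 2142 1 = true := by decide +kernel
theorem t2143 : rng plan 2143 1 = true := by decide +kernel
theorem t2144 : rng plan 2144 1 = true := by decide +kernel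
theorem t2145 : rng plan 2145 1 = true := by decide +kernel
theorem t2146 : rng plan 2146 1 = true := by decide +kernel
theorem t2147 : rng plan 2147 1 = true := by decide +kernel
theorem t2148 : rng plan 2148 1 = true := by decide +kernel
theorem t2149 : rng plan 2149 1 = true := by decide +kernel
theorem t2150 : rng plan 2150 1 = true := by decide +kernel
theorem t2151 : rng plan 2151 1 = true := by decide +kernel
theorem t2152 : rng plan 2152 1 = true := by decide +kernel
theorem t2153 : rng plan 2153 1 = true := by decide +kernel
theorem t2154 : rng plan 2154 1 = true := by decide +kernel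
theorem t2155 : rng plan 2155 1 = true := by decide +kernel
theorem t2156 : rng plan 2156 1 = true := by decide +kernel
theorem t2157 : rng plan 2157 1 = true := by decide +kernel
theorem t2158 : rng plan 2158 1 = true := by decide +kernel
theorem t2159 : rng plan 2159 1 = true := by decide +kernel

theorem b71 (d : ℕ) (h1 : 2130 ≤ d) (h2 : d < 2160) : rng plan d 1 = true := by
  interval_cases d
  exacts [t2130, t2131, t2132, t2133, t2134, t2135, t2136, t2137, t2138, t2139, t2140, t2141, t2142, t2143, t2144, t2145, t2146, t2147, t2148, t2149, t2150, t2151, t2152, t2153, t2154, t2155, t2156, t2157, t2158, t2159]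

end Cfsg.Agent.H908.P9.Run
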