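import Cfsg.Agent.H728.PM.Run
import Cfsg.Agent.H136.P9.PlanData

/-! # S5925, box H: digit vectors 2160 .. 2186 (helper908) -/

set_option autoImplicit false
set_option Elab.async false
set_option maxRecDepth 100000

namespace Cfsg.Agent.H908.P9.Run
open Cfsg.Agent.H728.PM Cfsg.Agent.H136.P9

theorem t2160 : rng plan 2160 1 = true := by decide +kernel
theorem t2161 : rng plan 2161 1 = true := by decide +kernel
theorem t2162 : rng plan 2162 1 = true := by decide +kernel
theorem t2163 : rng plan 2163 1 = true := by decide +kernel
theorem t2164 : rng plan 2164 1 = true := by decide +kernel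
theorem t2165 : rng plan 2165 1 = true := by decide +kernel
theorem t2166 : rng plan 2166 1 = true := by decide +kernel
theorem t2167 : rng plan 2167 1 = true := by decide +kernel
theorem t2168 : rng plan 2168 1 = true := by decide +kernel
theorem t2169 : rng plan 2169 1 = true := by decide +kernel
theorem t2170 : rng plan 2170 1 = true := by decide +kernel
theorem t2171 : rng plan 2171 1 = true := by decide +kernel
theorem t2172 : rng plan 2172 1 = true := by decide +kernel
theorem t2173 : rng plan 2173 1 = true := by decide +kernel
theorem t2174 : rng plan 2174 1 = true := by decide +kernel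
theorem t2175 : rng plan 2175 1 = true := by decide +kernel
theorem t2176 : rng plan 2176 1 = true := by decide +kernel
theorem t2177 : rng plan 2177 1 = true := by decide +kernel
theorem t2178 : rng plan 2178 1 = true := by decide +kernel
theorem t2179 : rng plan 2179 1 = true := by decide +kernel
theorem t2180 : rng plan 2180 1 = true := by decide +kernel
theorem t2181 : rng plan 2181 1 = true := by decide +kernel
theorem t2182 : rng plan 2182 1 = true := by decide +kernel
theorem t2183 : rng plan 2183 1 = true := by decide +kernel
theorem t2184 : rng plan 2184 1 = true := by decide +kernel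
theorem t2185 : rng plan 2185 1 = true := by decide +kernel
theorem t2186 : rng plan 2186 1 = true := by decide +kernel

theorem b72 (d : ℕ) (h1 : 2160 ≤ d) (h2 : d < 2187) : rng plan d 1 = true := by
  interval_cases d
  exacts [t2160, t2161, t2162, t2163, t2164, t2165, t2166, t2167, t2168, t2169, t2170, t2171, t2172, t2173, t2174, t2175, t2176, t2177, t2178, t2179, t2180, t2181, t2182, t2183, t2184, t2185, t2186]

end Cfsg.Agent.H908.P9.Run
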